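import Mathlib.LinearAlgebra.Matrix.DotProduct
import Mathlib.Data.Fintype.Pi
import Mathlib.Tactic.LinearCombination
import Mathlib.Tactic.FieldSimp

/-!
# The action of root elements on the parameters of the characters of a vector group
-/

set_option autoImplicit false

namespace Cfsg.Agent.H71.E6Deg

variable {F : Type*} [Field F] {n : ℕ}

/-- For every coordinate at most one coordinate feeding it, with a coefficient. -/
abbrev Edge (n : ℕ) := Fin n → Option (Fin n × ℤ)

/-- The action on parameters. -/
def act (e : Edge n) (t : F) (c : Fin n → F) : Fin n → F := fun j =>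
  match e j with
  | none => c j
  | some (k, N) => c j - t * (N : F) * c k

/-- The action on the vector group. -/
def mov (e : Edge n) (t : F) (a : Fin n → F) : Fin n → F := fun k =>
  a k + t * ∑ j, match e j with
    | none => 0
    | some (k', N) => if k' = k then (N : F) * a j else 0

/-- No coordinate both feeds and is fed. -/
def NoChain (e : Edge n) : Prop := ∀ j k N, e j = some (k, N) → e k = none

theorem act_none {e : Edge n} {j : Fin n} (h : e j = none) (t : F) (c : Fin n → F) : act e t c j = c j := by
  simp [act, h]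

theorem act_some {e : Edge n} {j k : Fin n} {N : ℤ} (h : e j = some (k, N)) (t : F) (c : Fin n → F) :
    act e t c j = c j - t * (N : F) * c k := by
  simp [act, h]

theorem act_add {e : Edge n} (he : NoChain e) (t u : F) (c : Fin n → F) :
    act e t (act e u c) = act e (t + u) c := by
  funext j
  rcases h : e j with _ | ⟨k, N⟩
  · rw [act_none h, act_none h, act_none h]
  · rw [act_some h, act_some h, act_some h, act_none (he j k N h)]
    ring

theorem act_zero (e : Edge n) (c : Fin n → F) : act e (0 : F) c = c := by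
  funext j
  rcases h : e j with _ | ⟨k, N⟩
  · rw [act_none h]
  · rw [act_some h]; ring

theorem act_eq_self (e : Edge n) (t : F) {c : Fin n → F} (h : ∀ j k N, e j = some (k, N) → c k = 0) :
    act e t c = c := by
  funext j
  rcases hj : e j with _ | ⟨k, N⟩
  · rw [act_none hj]
  · rw [act_some hj, h j k N hj, mul_zero, sub_zero]

theorem act_ne_self {e : Edge n} {t : F} (ht : t ≠ 0) {c : Fin n → F} {j k : Fin n} {N : ℤ}
    (hj : e j = some (k, N)) (hN : N = 1 ∨ N = -1) (hk : c k ≠ 0) : act e t c ≠ c := by
  intro h
  have h' := congrFun h j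
  rw [act_some hj, sub_eq_self] at h'
  rcases hN with rfl | rfl <;> simp [ht, hk] at h'

theorem act_dot {e : Edge n} (he : NoChain e) (t : F) (c a : Fin n → F) :
    dotProduct (act e t c) (mov e t a) = dotProduct c a := by
  classical
  have hfix : ∀ j k N, e j = some (k, N) → mov e t a j = a j := by
    intro j k N h
    simp only [mov]
    rw [Finset.sum_eq_zero (fun i _ => ?_), mul_zero, add_zero]
    rcases hi : e i with _ | ⟨k', N'⟩
    · rfl
    · simp only
      rw [if_neg]
      rintro rfl
      rw [he i k' N' hi] at h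
      exact Option.noConfusion rfl (heq_of_eq h)
  have h1 : ∀ j, act e t c j * mov e t a j = c j * mov e t a j -
      t * (match e j with | none => 0 | some (k, N) => (N : F) * c k * a j) := by
    intro j
    rcases h : e j with _ | ⟨k, N⟩
    · rw [act_none h]; simp
    · rw [act_some h, hfix j k N h]; simp only; ring
  have h2 : ∀ j, c j * mov e t a j = c j * a j +
      t * ∑ i, c j * (match e i with | none => 0 | some (k', N) => if k' = j then (N : F) * a i else 0) := by
    intro j
    simp only [mov]
    rw [mul_add, ← Finset.mul_sum]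
    ring
  have h3 : ∀ i, (∑ j, c j * (match e i with | none => 0 | some (k', N) => if k' = j then (N : F) * a i else 0)) =
      (match e i with | none => 0 | some (k, N) => (N : F) * c k * a i) := by
    intro i
    rcases hi : e i with _ | ⟨k', N'⟩
    · simp
    · simp only [mul_ite, mul_zero, Finset.sum_ite_eq, Finset.mem_univ, if_true]
      ring
  simp only [dotProduct, h1, h2, Finset.sum_sub_distrib, Finset.sum_add_distrib, ← Finset.mul_sum]
  rw [Finset.sum_congr rfl fun j (_ : j ∈ Finset.univ) => Finset.mul_sum _ _ _, Finset.sum_comm,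
    Finset.sum_congr rfl fun i (_ : i ∈ Finset.univ) => h3 i]
  ring

/-- The product of the actions of a list of tables, with parameters indexed by coordinates. -/
def actV : List (Edge n × Fin n) → (Fin n → F) → (Fin n → F) → (Fin n → F)
  | [], _, c => c
  | (e, k) :: l, v, c => act e (v k) (actV l v c)

/-- The inverse product. -/
def actVinv : List (Edge n × Fin n) → (Fin n → F) → (Fin n → F) → (Fin n → F)
  | [], _, c => c
  | (e, k) :: l, v, c => actVinv l v (act e (-v k) c)

theorem actVinv_actV : ∀ (l : List (Edge n × Fin n)), (∀ p ∈ l, NoChain p.1) → ∀ (v c : Fin n → F),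
    actVinv l v (actV l v c) = c
  | [], _, _, _ => rfl
  | (e, k) :: l, h, v, c => by
    simp only [actV, actVinv, act_add (h _ List.mem_cons_self), neg_add_cancel, act_zero]
    exact actVinv_actV l (fun p hp => h p (List.mem_cons_of_mem _ hp)) v c

theorem actV_actVinv : ∀ (l : List (Edge n × Fin n)), (∀ p ∈ l, NoChain p.1) → ∀ (v c : Fin n → F),
    actV l v (actVinv l v c) = c
  | [], _, _, _ => rfl
  | (e, k) :: l, h, v, c => by
    simp only [actV, actVinv]
    rw [actV_actVinv l (fun p hp => h p (List.mem_cons_of_mem _ hp)) v,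
      act_add (h _ List.mem_cons_self), add_neg_cancel, act_zero]

theorem actV_congr : ∀ (l : List (Edge n × Fin n)) {v w : Fin n → F}, (∀ k ∈ l.map Prod.snd, v k = w k) →
    ∀ c, actV l v c = actV l w c
  | [], _, _, _, _ => rfl
  | (e, k) :: l, v, w, h, c => by
    simp only [actV, h k (by simp), actV_congr l (fun j hj => h j (List.mem_cons_of_mem _ hj)) c]

theorem actV_fixed : ∀ (l : List (Edge n × Fin n)) {j : Fin n}, (∀ p ∈ l, p.1 j = none) →
    ∀ (v c : Fin n → F), actV l v c j = c j
  | [], _, _, _, _ => rfl
  | (e, k) :: l, j, h, v, c => by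
    simp only [actV, act_none (h _ List.mem_cons_self)]
    exact actV_fixed l (fun p hp => h p (List.mem_cons_of_mem _ hp)) v c

/-- The tables of a list clear the coordinates of the list from the pivot. -/
structure Clears (i : Fin n) (keep : List (Fin n)) (l : List (Edge n × Fin n)) : Prop where
  chain : ∀ p ∈ l, NoChain p.1
  nodup : (l.map Prod.snd).Nodup
  feed : ∀ p ∈ l, ∃ N : ℤ, (N = 1 ∨ N = -1) ∧ p.1 p.2 = some (i, N)
  fixed : ∀ p ∈ l, ∀ j ∈ i :: (keep ++ l.map Prod.snd), j ≠ p.2 → p.1 j = none

theorem Clears.tail {i : Fin n} {keep : List (Fin n)} {p : Edge n × Fin n} {l : List (Edge n × Fin n)}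
    (h : Clears i keep (p :: l)) : Clears i keep l where
  chain q hq := h.chain q (List.mem_cons_of_mem _ hq)
  nodup := (List.nodup_cons.1 h.nodup).2
  feed q hq := h.feed q (List.mem_cons_of_mem _ hq)
  fixed q hq j hj := h.fixed q (List.mem_cons_of_mem _ hq) j (by
    simp only [List.mem_cons, List.mem_append, List.map_cons] at hj ⊢
    tauto)

theorem Clears.pivot_not_mem {i : Fin n} {keep : List (Fin n)} {l : List (Edge n × Fin n)}
    (h : Clears i keep l) : i ∉ l.map Prod.snd := by
  intro hi
  obtain ⟨p, hp, rfl⟩ := List.mem_map.1 hi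
  obtain ⟨N, -, hN⟩ := h.feed p hp
  rw [h.chain p hp _ _ _ hN] at hN
  exact Option.noConfusion rfl (heq_of_eq hN)

theorem Clears.keep_eq {i : Fin n} {keep : List (Fin n)} {l : List (Edge n × Fin n)} (h : Clears i keep l)
    {j : Fin n} (hj : j ∈ i :: keep) (hjn : j ∉ l.map Prod.snd) (v c : Fin n → F) : actV l v c j = c j :=
  actV_fixed l (fun p hp => h.fixed p hp j (by
    simp only [List.mem_cons, List.mem_append] at hj ⊢
    tauto) fun he => hjn (he ▸ List.mem_map_of_mem hp)) v c

theorem Clears.pivot_eq {i : Fin n} {keep : List (Fin n)} {l : List (Edge n × Fin n)} (h : Clears i keep l)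
    (v c : Fin n → F) : actV l v c i = c i :=
  h.keep_eq List.mem_cons_self h.pivot_not_mem v c

theorem Clears.at_target {i : Fin n} {keep : List (Fin n)} : ∀ {l : List (Edge n × Fin n)},
    Clears i keep l → ∀ p ∈ l, ∀ N : ℤ, p.1 p.2 = some (i, N) → ∀ v c : Fin n → F,
      actV l v c p.2 = c p.2 - v p.2 * (N : F) * c i
  | [], _, p, hp, _, _, _, _ => absurd hp List.not_mem_nil
  | (e, k) :: l, h, p, hp, N, hN, v, c => by
    have hnd := List.nodup_cons.1 h.nodup
    simp only [actV]
    rcases List.mem_cons.1 hp with rfl | hp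
    · rw [act_some hN, h.tail.pivot_eq, actV_fixed l (fun q hq => h.fixed q (List.mem_cons_of_mem _ hq) k
        (by simp) fun he => hnd.1 (List.mem_map.2 ⟨q, hq, he.symm⟩))]
    · have hne : p.2 ≠ k := fun he => hnd.1 (List.mem_map.2 ⟨p, hp, he⟩)
      rw [act_none (h.fixed (e, k) List.mem_cons_self p.2 (by simp [List.mem_map_of_mem hp]) hne),
        Clears.at_target h.tail p hp N hN]

/-- Some parameters clear all the coordinates of the list. -/
theorem Clears.exists_clear {i : Fin n} {keep : List (Fin n)} {l : List (Edge n × Fin n)} (h : Clears i keep l)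
    {c : Fin n → F} (hc : c i ≠ 0) : ∃ v : Fin n → F, ∀ k ∈ l.map Prod.snd, actV l v c k = 0 := by
  classical
  refine ⟨fun k => ∑ p ∈ l.toFinset.filter (fun p => p.2 = k),
    (match p.1 p.2 with | none => 0 | some (_, N) => (N : F)) * c k * (c i)⁻¹, fun k hk => ?_⟩
  obtain ⟨p, hp, rfl⟩ := List.mem_map.1 hk
  obtain ⟨N, hN1, hN⟩ := h.feed p hp
  rw [h.at_target p hp N hN]
  have hone : l.toFinset.filter (fun q => q.2 = p.2) = {p} := by
    ext q
    simp only [Finset.mem_filter, List.mem_toFinset, Finset.mem_singleton]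
    exact ⟨fun hq => List.inj_on_of_nodup_map h.nodup hq.1 hp hq.2, fun e => by subst e; exact ⟨hp, rfl⟩⟩
  rw [hone, Finset.sum_singleton, hN]
  simp only
  rcases hN1 with rfl | rfl <;> · push_cast; field_simp; ring

/-- The parameters are determined by the cleared coordinates. -/
theorem Clears.param_eq {i : Fin n} {keep : List (Fin n)} {l : List (Edge n × Fin n)} (h : Clears i keep l)
    {c c' : Fin n → F} {v w : Fin n → F} (hi : c i = c' i) (hc : c i ≠ 0)
    (hk : ∀ k ∈ l.map Prod.snd, c k = c' k) (he : ∀ k ∈ l.map Prod.snd, actV l v c k = actV l w c' k) :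
    ∀ k ∈ l.map Prod.snd, v k = w k := by
  intro k hkm
  obtain ⟨p, hp, rfl⟩ := List.mem_map.1 hkm
  obtain ⟨N, hN1, hN⟩ := h.feed p hp
  have := he _ hkm
  rw [h.at_target p hp N hN, h.at_target p hp N hN, hk _ hkm, ← hi, sub_right_inj] at this
  have hN0 : (N : F) ≠ 0 := by rcases hN1 with rfl | rfl <;> simp
  exact mul_right_cancel₀ hN0 (mul_right_cancel₀ hc this)

/-- A set of coordinates closed under the tables contains the supports of the products. -/
theorem actV_support : ∀ (l : List (Edge n × Fin n)) (S : List (Fin n)) (v c : Fin n → F),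
    (∀ p ∈ l, v p.2 ≠ 0 → ∀ j k N, p.1 j = some (k, N) → k ∈ S → j ∈ S) → (∀ j, j ∉ S → c j = 0) →
    ∀ j, j ∉ S → actV l v c j = 0
  | [], _, _, _, _, hc, j, hj => hc j hj
  | (e, k) :: l, S, v, c, hl, hc, j, hj => by
    have ih := actV_support l S v c (fun p hp => hl p (List.mem_cons_of_mem _ hp)) hc
    simp only [actV]
    rcases h : e j with _ | ⟨k', N⟩
    · rw [act_none h]; exact ih j hj
    · rw [act_some h, ih j hj]
      by_cases hv : v k = 0
      · rw [hv]; ring
      · rw [ih k' fun hk => hj (hl (e, k) List.mem_cons_self hv j k' N h hk)]; ring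

end Cfsg.Agent.H71.E6Deg
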