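import Mathlib

/-!
# Degrees just below the bound do not divide the order of E6(q)
-/

set_option autoImplicit false

namespace Cfsg.Agent.H71.E6Deg.Arith

/-- The part prime to the characteristic of the order, times the order of the centre. -/
def ordPrime (q : ℕ) : ℕ :=
  (q ^ 2 - 1) * (q ^ 5 - 1) * (q ^ 6 - 1) * (q ^ 8 - 1) * (q ^ 9 - 1) * (q ^ 12 - 1)

/-- The candidate degree. -/
def deg (q : ℕ) : ℕ := q * (q ^ 6 + q ^ 3 + 1) * (q ^ 4 + 1)

theorem large1 (q : ℕ) (hq : 3700 ≤ q) : ¬ deg q - 1 ∣ 1 * ordPrime q := by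
  intro h
  obtain ⟨a, rfl⟩ := Nat.exists_eq_add_of_le hq
  have hd : 1 ≤ deg (3700 + a) := by
    unfold deg
    refine le_trans (by omega : 1 ≤ 3700 + a) ((Nat.le_mul_of_pos_right _ (by positivity)).trans (Nat.le_mul_of_pos_right _ (by positivity)))
  have hz := Int.natCast_dvd_natCast.2 h
  rw [Nat.cast_sub hd] at hz
  simp only [deg, ordPrime] at hz
  push_cast [Nat.one_le_pow _ _ (by omega : 0 < 3700 + a)] at hz
  generalize hx : (a : ℤ) = x at hz
  have hx0 : 0 ≤ x := hx ▸ Int.natCast_nonneg a
  set y : ℤ := 3700 + x with hy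
  have hneg : 0 < (12985646832663258198441201906235535626) + (35095675552828661706766949221446788) * x ^ 1 + (42683118202580845808224052893382) * x ^ 2 + (30762022818579649672681767194) * x ^ 3 + (14549328741517825697639464) * x ^ 4 + (4718611488565986438967) * x ^ 5 + (1062730126504630495) * x ^ 6 + (164125083752795) * x ^ 7 + (16633982693) * x ^ 8 + (999019) * x ^ 9 + (27) * x ^ 10 := by positivity
  have hgap : 0 < (1766190570997075159529175725079864468073) + (5254347134182768700085433333890553213) * x ^ 1 + (7105212570598509055875252559246618) * x ^ 2 + (5764829076189909525810955147606) * x ^ 3 + (3118202616660603074157379037) * x ^ 4 + (1180646989472270869051034) * x ^ 5 + (319306351213878715405) * x ^ 6 + (61683187916276806) * x ^ 7 + (8341111017308) * x ^ 8 + (751950981) * x ^ 9 + (40673) * x ^ 10 + (1) * x ^ 11 := by positivity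
  have h1 : y * (y ^ 6 + y ^ 3 + 1) * (y ^ 4 + 1) - 1 ∣ (12985646832663258198441201906235535626) + (35095675552828661706766949221446788) * x ^ 1 + (42683118202580845808224052893382) * x ^ 2 + (30762022818579649672681767194) * x ^ 3 + (14549328741517825697639464) * x ^ 4 + (4718611488565986438967) * x ^ 5 + (1062730126504630495) * x ^ 6 + (164125083752795) * x ^ 7 + (16633982693) * x ^ 8 + (999019) * x ^ 9 + (27) * x ^ 10 := by
    have e : (12985646832663258198441201906235535626) + (35095675552828661706766949221446788) * x ^ 1 + (42683118202580845808224052893382) * x ^ 2 + (30762022818579649672681767194) * x ^ 3 + (14549328741517825697639464) * x ^ 4 + (4718611488565986438967) * x ^ 5 + (1062730126504630495) * x ^ 6 + (164125083752795) * x ^ 7 + (16633982693) * x ^ 8 + (999019) * x ^ 9 + (27) * x ^ 10 = (y * (y ^ 6 + y ^ 3 + 1) * (y ^ 4 + 1) - 1) * (1 * ((-27) + (-15) * y ^ 1 + (4) * y ^ 2 + (10) * y ^ 3 + (19) * y ^ 4 + (11) * y ^ 5 + (6) * y ^ 6 + (-3) * y ^ 7 + (-9) * y ^ 8 + (-8) * y ^ 9 + (-5)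 * y ^ 10 + (-2) * y ^ 11 + (2) * y ^ 12 + (6) * y ^ 13 + (3) * y ^ 14 + (3) * y ^ 15 + (-1) * y ^ 16 + (-1) * y ^ 17 + (-3) * y ^ 18 + (-3) * y ^ 19 + (1) * y ^ 22 + (2) * y ^ 23 + (2) * y ^ 24 + (-1) * y ^ 27 + (-1) * y ^ 28 + (-1) * y ^ 29 + (1) * y ^ 31)) -
        1 * ((y ^ 2 - 1) * (y ^ 5 - 1) * (y ^ 6 - 1) * (y ^ 8 - 1) * (y ^ 9 - 1) * (y ^ 12 - 1)) := by
      rw [hy]; ring
    rw [e]
    exact dvd_sub (dvd_mul_right _ _) hz
  have h2 := Int.le_of_dvd hneg h1
  have e2 : y * (y ^ 6 + y ^ 3 + 1) * (y ^ 4 + 1) - 1 = ((12985646832663258198441201906235535626) + (35095675552828661706766949221446788) * x ^ 1 + (42683118202580845808224052893382) * x ^ 2 + (30762022818579649672681767194) * x ^ 3 + (14549328741517825697639464) * x ^ 4 + (4718611488565986438967) * x ^ 5 + (1062730126504630495) * x ^ 6 + (164125083752795) * x ^ 7 + (16633982693) * x ^ 8 + (999019) * x ^ 9 + (27) * x ^ 10) + ((1766190570997075159529175725079864468073) + (5254347134182768700085433333890553213) * x ^ 1 + (7105212570598509055875252559246618)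 * x ^ 2 + (5764829076189909525810955147606) * x ^ 3 + (3118202616660603074157379037) * x ^ 4 + (1180646989472270869051034) * x ^ 5 + (319306351213878715405) * x ^ 6 + (61683187916276806) * x ^ 7 + (8341111017308) * x ^ 8 + (751950981) * x ^ 9 + (40673) * x ^ 10 + (1) * x ^ 11) := by
    rw [hy]; ring
  linarith

theorem large2 (q : ℕ) (hq : 3700 ≤ q) : ¬ deg q - 2 ∣ 2 * ordPrime q := by
  intro h
  obtain ⟨a, rfl⟩ := Nat.exists_eq_add_of_le hq
  have hd : 2 ≤ deg (3700 + a) := by
    unfold deg
    refine le_trans (by omega : 2 ≤ 3700 + a) ((Nat.le_mul_of_pos_right _ (by positivity)).trans (Nat.le_mul_of_pos_right _ (by positivity)))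
  have hz := Int.natCast_dvd_natCast.2 h
  rw [Nat.cast_sub hd] at hz
  simp only [deg, ordPrime] at hz
  push_cast [Nat.one_le_pow _ _ (by omega : 0 < 3700 + a)] at hz
  generalize hx : (a : ℤ) = x at hz
  have hx0 : 0 ≤ x := hx ▸ Int.natCast_nonneg a
  set y : ℤ := 3700 + x with hy
  have hneg : 0 < (79843296287467588816292303320675702630) + (215787071714028550002730353424284752) * x ^ 1 + (262436899705553189059788924187252) * x ^ 2 + (189138784631497008545993514334) * x ^ 3 + (89455203041754455372331778) * x ^ 4 + (29011742548331911432272) * x ^ 5 + (6534006042253935042) * x ^ 6 + (1009086615939250) * x ^ 7 + (102269628052) * x ^ 8 + (6142160) * x ^ 9 + (166) * x ^ 10 := by positivity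
  have hgap : 0 < (1699332921542270828911324623665424301068) + (5073655738021568811789469929687715249) * x ^ 1 + (6885458789095536712623687687952748) * x ^ 2 + (5606452314376992166937643400466) * x ^ 3 + (3043296742360366444482686723) * x ^ 4 + (1156353858412504944057729) * x ^ 5 + (313835075298129410858) * x ^ 6 + (60838226384090351) * x ^ 7 + (8255475371949) * x ^ 8 + (746807840) * x ^ 9 + (40534) * x ^ 10 + (1) * x ^ 11 := by positivity
  have h1 : y * (y ^ 6 + y ^ 3 + 1) * (y ^ 4 + 1) - 2 ∣ (79843296287467588816292303320675702630) + (215787071714028550002730353424284752) * x ^ 1 + (262436899705553189059788924187252) * x ^ 2 + (189138784631497008545993514334) * x ^ 3 + (89455203041754455372331778) * x ^ 4 + (29011742548331911432272) * x ^ 5 + (6534006042253935042) * x ^ 6 + (1009086615939250) * x ^ 7 + (102269628052) * x ^ 8 + (6142160) * x ^ 9 + (166) * x ^ 10 := by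
    have e : (79843296287467588816292303320675702630) + (215787071714028550002730353424284752) * x ^ 1 + (262436899705553189059788924187252) * x ^ 2 + (189138784631497008545993514334) * x ^ 3 + (89455203041754455372331778) * x ^ 4 + (29011742548331911432272) * x ^ 5 + (6534006042253935042) * x ^ 6 + (1009086615939250) * x ^ 7 + (102269628052) * x ^ 8 + (6142160) * x ^ 9 + (166) * x ^ 10 = (y * (y ^ 6 + y ^ 3 + 1) * (y ^ 4 + 1) - 2) * (2 * ((-58) + (-17) * y ^ 1 + (29) * y ^ 2 + (31) * y ^ 3 + (42) * y ^ 4 + (16) * y ^ 5 + (4) * y ^ 6 + (-10) * y ^ 7 + (-19) * y ^ 8 + (-14) * y ^ 9 + (-9) * y ^ 10 + (-1) * y ^ 11 + (6) * y ^ 12 + (11) * y ^ 13 + (5) * y ^ 14 + (4) * y ^ 15 + (-3) * y ^ 16 + (-3) * y ^ 17 + (-4) * y ^ 18 + (-3) * y ^ 19 + (1) * y ^ 20 + (1) * y ^ 22 + (2) * y ^ 23 + (2) * y ^ 24 + (-1) * y ^ 27 + (-1) * y ^ 28 + (-1) * y ^ 29 + (1) * y ^ 31)) -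
        2 * ((y ^ 2 - 1) * (y ^ 5 - 1) * (y ^ 6 - 1) * (y ^ 8 - 1) * (y ^ 9 - 1) * (y ^ 12 - 1)) := by
      rw [hy]; ring
    rw [e]
    exact dvd_sub (dvd_mul_right _ _) hz
  have h2 := Int.le_of_dvd hneg h1
  have e2 : y * (y ^ 6 + y ^ 3 + 1) * (y ^ 4 + 1) - 2 = ((79843296287467588816292303320675702630) + (215787071714028550002730353424284752) * x ^ 1 + (262436899705553189059788924187252) * x ^ 2 + (189138784631497008545993514334) * x ^ 3 + (89455203041754455372331778) * x ^ 4 + (29011742548331911432272) * x ^ 5 + (6534006042253935042) * x ^ 6 + (1009086615939250) * x ^ 7 + (102269628052) * x ^ 8 + (6142160) * x ^ 9 + (166) * x ^ 10) + ((1699332921542270828911324623665424301068) + (5073655738021568811789469929687715249) * x ^ 1 + (6885458789095536712623687687952748) * x ^ 2 + (5606452314376992166937643400466) * x ^ 3 + (3043296742360366444482686723) * x ^ 4 + (1156353858412504944057729) * x ^ 5 + (313835075298129410858) * x ^ 6 + (60838226384090351) * x ^ 7 + (8255475371949) * x ^ 8 + (746807840)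 * x ^ 9 + (40534) * x ^ 10 + (1) * x ^ 11) := by
    rw [hy]; ring
  linarith

theorem large3 (q : ℕ) (hq : 3700 ≤ q) : ¬ deg q - 3 ∣ 3 * ordPrime q := by
  intro h
  obtain ⟨a, rfl⟩ := Nat.exists_eq_add_of_le hq
  have hd : 3 ≤ deg (3700 + a) := by
    unfold deg
    refine le_trans (by omega : 3 ≤ 3700 + a) ((Nat.le_mul_of_pos_right _ (by positivity)).trans (Nat.le_mul_of_pos_right _ (by positivity)))
  have hz := Int.natCast_dvd_natCast.2 h
  rw [Nat.cast_sub hd] at hz
  simp only [deg, ordPrime] at hz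
  push_cast [Nat.one_le_pow _ _ (by omega : 0 < 3700 + a)] at hz
  generalize hx : (a : ℤ) = x at hz
  have hx0 : 0 ≤ x := hx ▸ Int.natCast_nonneg a
  set y : ℤ := 3700 + x with hy
  have hneg : 0 < (240979097176735688506529329625827241634) + (651276200327372471147431908727418184) * x ^ 1 + (792069986003548746960249598309716) * x ^ 2 + (570844898519499728528786932464) * x ^ 3 + (269986474655646461195586786) * x ^ 4 + (87560672695769236976775) * x ^ 5 + (19720307321265421785) * x ^ 6 + (3045520066831485) * x ^ 7 + (308658732597) * x ^ 8 + (18537531) * x ^ 9 + (501) * x ^ 10 := by positivity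
  have hgap : 0 < (1538197120653002729221087597360272762063) + (4638166609408224890644768374384581817) * x ^ 1 + (6355825702797541154723227013830284) * x ^ 2 + (5224746200488989446954849982336) * x ^ 3 + (2862765470746474438659431715) * x ^ 4 + (1097804928265067618513226) * x ^ 5 + (300648774019117924115) * x ^ 6 + (58801792933198116) * x ^ 7 + (8049086267404) * x ^ 8 + (734412469) * x ^ 9 + (40199) * x ^ 10 + (1) * x ^ 11 := by positivity
  have h1 : y * (y ^ 6 + y ^ 3 + 1) * (y ^ 4 + 1) - 3 ∣ (240979097176735688506529329625827241634) + (651276200327372471147431908727418184) * x ^ 1 + (792069986003548746960249598309716) * x ^ 2 + (570844898519499728528786932464) * x ^ 3 + (269986474655646461195586786) * x ^ 4 + (87560672695769236976775) * x ^ 5 + (19720307321265421785) * x ^ 6 + (3045520066831485) * x ^ 7 + (308658732597) * x ^ 8 + (18537531) * x ^ 9 + (501) * x ^ 10 := by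
    have e : (240979097176735688506529329625827241634) + (651276200327372471147431908727418184) * x ^ 1 + (792069986003548746960249598309716) * x ^ 2 + (570844898519499728528786932464) * x ^ 3 + (269986474655646461195586786) * x ^ 4 + (87560672695769236976775) * x ^ 5 + (19720307321265421785) * x ^ 6 + (3045520066831485) * x ^ 7 + (308658732597) * x ^ 8 + (18537531) * x ^ 9 + (501) * x ^ 10 = (y * (y ^ 6 + y ^ 3 + 1) * (y ^ 4 + 1) - 3) * (3 * ((-93) + (-7) * y ^ 1 + (74) * y ^ 2 + (62) * y ^ 3 + (69) * y ^ 4 + (15) * y ^ 5 + (-4) * y ^ 6 + (-19) * y ^ 7 + (-29) * y ^ 8 + (-18) * y ^ 9 + (-13) * y ^ 10 + (10) * y ^ 12 + (16) * y ^ 13 + (7) * y ^ 14 + (5) * y ^ 15 + (-5) * y ^ 16 + (-5) * y ^ 17 + (-5) * y ^ 18 + (-3) * y ^ 19 + (2) * y ^ 20 + (1) * y ^ 22 + (2) * y ^ 23 + (2) * y ^ 24 + (-1) * y ^ 27 + (-1) * y ^ 28 + (-1) * y ^ 29 + (1) * y ^ 31)) -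
        3 * ((y ^ 2 - 1) * (y ^ 5 - 1) * (y ^ 6 - 1) * (y ^ 8 - 1) * (y ^ 9 - 1) * (y ^ 12 - 1)) := by
      rw [hy]; ring
    rw [e]
    exact dvd_sub (dvd_mul_right _ _) hz
  have h2 := Int.le_of_dvd hneg h1
  have e2 : y * (y ^ 6 + y ^ 3 + 1) * (y ^ 4 + 1) - 3 = ((240979097176735688506529329625827241634) + (651276200327372471147431908727418184) * x ^ 1 + (792069986003548746960249598309716) * x ^ 2 + (570844898519499728528786932464) * x ^ 3 + (269986474655646461195586786) * x ^ 4 + (87560672695769236976775) * x ^ 5 + (19720307321265421785) * x ^ 6 + (3045520066831485) * x ^ 7 + (308658732597) * x ^ 8 + (18537531) * x ^ 9 + (501) * x ^ 10) + ((1538197120653002729221087597360272762063) + (4638166609408224890644768374384581817) * x ^ 1 + (6355825702797541154723227013830284) * x ^ 2 + (5224746200488989446954849982336) * x ^ 3 + (2862765470746474438659431715) * x ^ 4 + (1097804928265067618513226) * x ^ 5 + (300648774019117924115) * x ^ 6 + (58801792933198116) * x ^ 7 + (8049086267404) * x ^ 8 + (734412469)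 * x ^ 9 + (40199) * x ^ 10 + (1) * x ^ 11) := by
    rw [hy]; ring
  linarith

theorem large4 (q : ℕ) (hq : 3700 ≤ q) : ¬ deg q - 4 ∣ 4 * ordPrime q := by
  intro h
  obtain ⟨a, rfl⟩ := Nat.exists_eq_add_of_le hq
  have hd : 4 ≤ deg (3700 + a) := by
    unfold deg
    refine le_trans (by omega : 4 ≤ 3700 + a) ((Nat.le_mul_of_pos_right _ (by positivity)).trans (Nat.le_mul_of_pos_right _ (by positivity)))
  have hz := Int.natCast_dvd_natCast.2 h
  rw [Nat.cast_sub hd] at hz
  simp only [deg, ordPrime] at hz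
  push_cast [Nat.one_le_pow _ _ (by omega : 0 < 3700 + a)] at hz
  generalize hx : (a : ℤ) = x at hz
  have hx0 : 0 ≤ x := hx ▸ Int.natCast_nonneg a
  set y : ℤ := 3700 + x with hy
  have hneg : 0 < (536796079231263193361467601189750760508) + (1450757486281444103710479616943575232) * x ^ 1 + (1764382816477364641504295275636640) * x ^ 2 + (1271589805059052420004089802108) * x ^ 3 + (601409898376913298645446284) * x ^ 4 + (195046114701069926427808) * x ^ 5 + (43928011421109220540) * x ^ 6 + (6784049078541644) * x ^ 7 + (687552293648) * x ^ 8 + (41293216) * x ^ 9 + (1116) * x ^ 10 := by positivity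
  have hgap : 0 < (1242380138598475224366149325796349243188) + (3838685323454153258081720666168424769) * x ^ 1 + (5383512872323725260179181336503360) * x ^ 2 + (4524001293949436755479547112692) * x ^ 3 + (2531342047025207601209572217) * x ^ 4 + (990319486259766929062193) * x ^ 5 + (276441069919274125360) * x ^ 6 + (55063263921487957) * x ^ 7 + (7670192706353) * x ^ 8 + (711656784) * x ^ 9 + (39584) * x ^ 10 + (1) * x ^ 11 := by positivity
  have h1 : y * (y ^ 6 + y ^ 3 + 1) * (y ^ 4 + 1) - 4 ∣ (536796079231263193361467601189750760508) + (1450757486281444103710479616943575232) * x ^ 1 + (1764382816477364641504295275636640) * x ^ 2 + (1271589805059052420004089802108) * x ^ 3 + (601409898376913298645446284) * x ^ 4 + (195046114701069926427808) * x ^ 5 + (43928011421109220540) * x ^ 6 + (6784049078541644) * x ^ 7 + (687552293648) * x ^ 8 + (41293216) * x ^ 9 + (1116) * x ^ 10 := by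
    have e : (536796079231263193361467601189750760508) + (1450757486281444103710479616943575232) * x ^ 1 + (1764382816477364641504295275636640) * x ^ 2 + (1271589805059052420004089802108) * x ^ 3 + (601409898376913298645446284) * x ^ 4 + (195046114701069926427808) * x ^ 5 + (43928011421109220540) * x ^ 6 + (6784049078541644) * x ^ 7 + (687552293648) * x ^ 8 + (41293216) * x ^ 9 + (1116) * x ^ 10 = (y * (y ^ 6 + y ^ 3 + 1) * (y ^ 4 + 1) - 4) * (4 * ((-132) + (15) * y ^ 1 + (139) * y ^ 2 + (103) * y ^ 3 + (100) * y ^ 4 + (8) * y ^ 5 + (-18) * y ^ 6 + (-30) * y ^ 7 + (-39) * y ^ 8 + (-20) * y ^ 9 + (-17) * y ^ 10 + (1) * y ^ 11 + (14) * y ^ 12 + (21) * y ^ 13 + (9) * y ^ 14 + (6) * y ^ 15 + (-7) * y ^ 16 + (-7) * y ^ 17 + (-6) * y ^ 18 + (-3) * y ^ 19 + (3) * y ^ 20 + (1) * y ^ 22 + (2) * y ^ 23 + (2) * y ^ 24 + (-1) * y ^ 27 + (-1) * y ^ 28 + (-1) * y ^ 29 + (1) * y ^ 31)) -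
        4 * ((y ^ 2 - 1) * (y ^ 5 - 1) * (y ^ 6 - 1) * (y ^ 8 - 1) * (y ^ 9 - 1) * (y ^ 12 - 1)) := by
      rw [hy]; ring
    rw [e]
    exact dvd_sub (dvd_mul_right _ _) hz
  have h2 := Int.le_of_dvd hneg h1
  have e2 : y * (y ^ 6 + y ^ 3 + 1) * (y ^ 4 + 1) - 4 = ((536796079231263193361467601189750760508) + (1450757486281444103710479616943575232) * x ^ 1 + (1764382816477364641504295275636640) * x ^ 2 + (1271589805059052420004089802108) * x ^ 3 + (601409898376913298645446284) * x ^ 4 + (195046114701069926427808) * x ^ 5 + (43928011421109220540) * x ^ 6 + (6784049078541644) * x ^ 7 + (687552293648) * x ^ 8 + (41293216) * x ^ 9 + (1116) * x ^ 10) + ((1242380138598475224366149325796349243188) + (3838685323454153258081720666168424769) * x ^ 1 + (5383512872323725260179181336503360) * x ^ 2 + (4524001293949436755479547112692) * x ^ 3 + (2531342047025207601209572217) * x ^ 4 + (990319486259766929062193) * x ^ 5 + (276441069919274125360) * x ^ 6 + (55063263921487957) * x ^ 7 + (7670192706353) * x ^ 8 + (711656784)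 * x ^ 9 + (39584) * x ^ 10 + (1) * x ^ 11) := by
    rw [hy]; ring
  linarith

theorem large5 (q : ℕ) (hq : 3700 ≤ q) : ¬ deg q - 5 ∣ 5 * ordPrime q := by
  intro h
  obtain ⟨a, rfl⟩ := Nat.exists_eq_add_of_le hq
  have hd : 5 ≤ deg (3700 + a) := by
    unfold deg
    refine le_trans (by omega : 5 ≤ 3700 + a) ((Nat.le_mul_of_pos_right _ (by positivity)).trans (Nat.le_mul_of_pos_right _ (by positivity)))
  have hz := Int.natCast_dvd_natCast.2 h
  rw [Nat.cast_sub hd] at hz
  simp only [deg, ordPrime] at hz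
  push_cast [Nat.one_le_pow _ _ (by omega : 0 < 3700 + a)] at hz
  generalize hx : (a : ℤ) = x at hz
  have hx0 : 0 ≤ x := hx ▸ Int.natCast_nonneg a
  set y : ℤ := 3700 + x with hy
  have hneg : 0 < (1007694153100318678912761733366060734370) + (2723417767509637998571547785579307900) * x ^ 1 + (3312167628393963399475749372491650) * x ^ 2 + (2387077772322336651829105993270) * x ^ 3 + (1128990132038057306506484020) * x ^ 4 + (366148214588146444499175) * x ^ 5 + (82463393682908082795) * x ^ 6 + (12735285465021895) * x ^ 7 + (1290700509325) * x ^ 8 + (77517275) * x ^ 9 + (2095) * x ^ 10 := by positivity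
  have hgap : 0 < (771482064729419738814855193620039269325) + (2566025042225959363220652497532692101) * x ^ 1 + (3835728060407126502207727239648350) * x ^ 2 + (3408513326686152523654530921530) * x ^ 3 + (2003761813364063593348534481) * x ^ 4 + (819217386372690410990826) * x ^ 5 + (237905687657475263105) * x ^ 6 + (49112027535007706) * x ^ 7 + (7067044490676) * x ^ 8 + (675432725) * x ^ 9 + (38605) * x ^ 10 + (1) * x ^ 11 := by positivity
  have h1 : y * (y ^ 6 + y ^ 3 + 1) * (y ^ 4 + 1) - 5 ∣ (1007694153100318678912761733366060734370) + (2723417767509637998571547785579307900) * x ^ 1 + (3312167628393963399475749372491650) * x ^ 2 + (2387077772322336651829105993270) * x ^ 3 + (1128990132038057306506484020) * x ^ 4 + (366148214588146444499175) * x ^ 5 + (82463393682908082795) * x ^ 6 + (12735285465021895) * x ^ 7 + (1290700509325) * x ^ 8 + (77517275) * x ^ 9 + (2095) * x ^ 10 := by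
    have e : (1007694153100318678912761733366060734370) + (2723417767509637998571547785579307900) * x ^ 1 + (3312167628393963399475749372491650) * x ^ 2 + (2387077772322336651829105993270) * x ^ 3 + (1128990132038057306506484020) * x ^ 4 + (366148214588146444499175) * x ^ 5 + (82463393682908082795) * x ^ 6 + (12735285465021895) * x ^ 7 + (1290700509325) * x ^ 8 + (77517275) * x ^ 9 + (2095) * x ^ 10 = (y * (y ^ 6 + y ^ 3 + 1) * (y ^ 4 + 1) - 5) * (5 * ((-175) + (49) * y ^ 1 + (224) * y ^ 2 + (154) * y ^ 3 + (135) * y ^ 4 + (-5) * y ^ 5 + (-38) * y ^ 6 + (-43) * y ^ 7 + (-49) * y ^ 8 + (-20) * y ^ 9 + (-21) * y ^ 10 + (2) * y ^ 11 + (18) * y ^ 12 + (26) * y ^ 13 + (11) * y ^ 14 + (7) * y ^ 15 + (-9) * y ^ 16 + (-9) * y ^ 17 + (-7) * y ^ 18 + (-3) * y ^ 19 + (4) * y ^ 20 + (1) * y ^ 22 + (2) * y ^ 23 + (2) * y ^ 24 + (-1) * y ^ 27 + (-1) * y ^ 28 + (-1) * y ^ 29 + (1) * y ^ 31)) -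
        5 * ((y ^ 2 - 1) * (y ^ 5 - 1) * (y ^ 6 - 1) * (y ^ 8 - 1) * (y ^ 9 - 1) * (y ^ 12 - 1)) := by
      rw [hy]; ring
    rw [e]
    exact dvd_sub (dvd_mul_right _ _) hz
  have h2 := Int.le_of_dvd hneg h1
  have e2 : y * (y ^ 6 + y ^ 3 + 1) * (y ^ 4 + 1) - 5 = ((1007694153100318678912761733366060734370) + (2723417767509637998571547785579307900) * x ^ 1 + (3312167628393963399475749372491650) * x ^ 2 + (2387077772322336651829105993270) * x ^ 3 + (1128990132038057306506484020) * x ^ 4 + (366148214588146444499175) * x ^ 5 + (82463393682908082795) * x ^ 6 + (12735285465021895) * x ^ 7 + (1290700509325) * x ^ 8 + (77517275) * x ^ 9 + (2095) * x ^ 10) + ((771482064729419738814855193620039269325) + (2566025042225959363220652497532692101) * x ^ 1 + (3835728060407126502207727239648350) * x ^ 2 + (3408513326686152523654530921530) * x ^ 3 + (2003761813364063593348534481) * x ^ 4 + (819217386372690410990826) * x ^ 5 + (237905687657475263105) * x ^ 6 + (49112027535007706) * x ^ 7 + (7067044490676) * x ^ 8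 + (675432725) * x ^ 9 + (38605) * x ^ 10 + (1) * x ^ 11) := by
    rw [hy]; ring
  linarith

theorem large6 (q : ℕ) (hq : 3700 ≤ q) : ¬ deg q - 6 ∣ 6 * ordPrime q := by
  intro h
  obtain ⟨a, rfl⟩ := Nat.exists_eq_add_of_le hq
  have hd : 6 ≤ deg (3700 + a) := by
    unfold deg
    refine le_trans (by omega : 6 ≤ 3700 + a) ((Nat.le_mul_of_pos_right _ (by positivity)).trans (Nat.le_mul_of_pos_right _ (by positivity)))
  have hz := Int.natCast_dvd_natCast.2 h
  rw [Nat.cast_sub hd] at hz
  simp only [deg, ordPrime] at hz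
  push_cast [Nat.one_le_pow _ _ (by omega : 0 < 3700 + a)] at hz
  generalize hx : (a : ℤ) = x at hz
  have hx0 : 0 ≤ x := hx ▸ Int.natCast_nonneg a
  set y : ℤ := 3700 + x with hy
  have hneg : 0 < (1694070110351643660131405636493925505586) + (4578436294990159578920377027834992048) * x ^ 1 + (5568208456906472952447569521146132) * x ^ 2 + (4013007895877250951335215465434) * x ^ 3 + (1897989736510363706869805694) * x ^ 4 + (615546551634631757263152) * x ^ 5 + (138632627331337381710) * x ^ 6 + (21409829212064430) * x ^ 7 + (2169852778548) * x ^ 8 + (130317744) * x ^ 9 + (3522) * x ^ 10 := by positivity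
  have hgap : 0 < (85106107478094757596211290492174498108) + (711006514745437782871823255277007953) * x ^ 1 + (1579687231894616949235907090993868) * x ^ 2 + (1782583203131238224148421449366) * x ^ 3 + (1234762208891757192985212807) * x ^ 4 + (569819049326205098226849) * x ^ 5 + (181736454009045964190) * x ^ 6 + (40437483787965171) * x ^ 7 + (6187892221453) * x ^ 8 + (622632256) * x ^ 9 + (37178) * x ^ 10 + (1) * x ^ 11 := by positivity
  have h1 : y * (y ^ 6 + y ^ 3 + 1) * (y ^ 4 + 1) - 6 ∣ (1694070110351643660131405636493925505586) + (4578436294990159578920377027834992048) * x ^ 1 + (5568208456906472952447569521146132) * x ^ 2 + (4013007895877250951335215465434) * x ^ 3 + (1897989736510363706869805694) * x ^ 4 + (615546551634631757263152) * x ^ 5 + (138632627331337381710) * x ^ 6 + (21409829212064430) * x ^ 7 + (2169852778548) * x ^ 8 + (130317744) * x ^ 9 + (3522) * x ^ 10 := by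
    have e : (1694070110351643660131405636493925505586) + (4578436294990159578920377027834992048) * x ^ 1 + (5568208456906472952447569521146132) * x ^ 2 + (4013007895877250951335215465434) * x ^ 3 + (1897989736510363706869805694) * x ^ 4 + (615546551634631757263152) * x ^ 5 + (138632627331337381710) * x ^ 6 + (21409829212064430) * x ^ 7 + (2169852778548) * x ^ 8 + (130317744) * x ^ 9 + (3522) * x ^ 10 = (y * (y ^ 6 + y ^ 3 + 1) * (y ^ 4 + 1) - 6) * (6 * ((-222) + (95) * y ^ 1 + (329) * y ^ 2 + (215) * y ^ 3 + (174) * y ^ 4 + (-24) * y ^ 5 + (-64) * y ^ 6 + (-58) * y ^ 7 + (-59) * y ^ 8 + (-18) * y ^ 9 + (-25) * y ^ 10 + (3) * y ^ 11 + (22) * y ^ 12 + (31) * y ^ 13 + (13) * y ^ 14 + (8) * y ^ 15 + (-11) * y ^ 16 + (-11) * y ^ 17 + (-8) * y ^ 18 + (-3) * y ^ 19 + (5) * y ^ 20 + (1) * y ^ 22 + (2) * y ^ 23 + (2) * y ^ 24 + (-1) * y ^ 27 + (-1) * y ^ 28 + (-1) * y ^ 29 + (1) * y ^ 31)) -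
        6 * ((y ^ 2 - 1) * (y ^ 5 - 1) * (y ^ 6 - 1) * (y ^ 8 - 1) * (y ^ 9 - 1) * (y ^ 12 - 1)) := by
      rw [hy]; ring
    rw [e]
    exact dvd_sub (dvd_mul_right _ _) hz
  have h2 := Int.le_of_dvd hneg h1
  have e2 : y * (y ^ 6 + y ^ 3 + 1) * (y ^ 4 + 1) - 6 = ((1694070110351643660131405636493925505586) + (4578436294990159578920377027834992048) * x ^ 1 + (5568208456906472952447569521146132) * x ^ 2 + (4013007895877250951335215465434) * x ^ 3 + (1897989736510363706869805694) * x ^ 4 + (615546551634631757263152) * x ^ 5 + (138632627331337381710) * x ^ 6 + (21409829212064430) * x ^ 7 + (2169852778548) * x ^ 8 + (130317744) * x ^ 9 + (3522) * x ^ 10) + ((85106107478094757596211290492174498108) + (711006514745437782871823255277007953) * x ^ 1 + (1579687231894616949235907090993868) * x ^ 2 + (1782583203131238224148421449366) * x ^ 3 + (1234762208891757192985212807) * x ^ 4 + (569819049326205098226849) * x ^ 5 + (181736454009045964190) * x ^ 6 + (40437483787965171) * x ^ 7 + (6187892221453) * x ^ 8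 + (622632256) * x ^ 9 + (37178) * x ^ 10 + (1) * x ^ 11) := by
    rw [hy]; ring
  linarith

theorem smallCheck : ((List.range 3700).all fun q => decide (q < 7) ||
    (List.range 6).all fun i => decide ((i + 1) * ordPrime q % (deg q - (i + 1)) ≠ 0)) = true := by
  decide +kernel

theorem tinyCheck : ([3, 4, 5].all fun q => (List.range 6).all fun i =>
    decide (q = 4 ∧ i = 3) || decide (q ^ 36 * ordPrime q % (deg q - (i + 1)) ≠ 0)) = true := by
  decide +kernel

theorem twoCheck : ((List.range 32).all fun i =>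
    decide (i = 0 ∨ i = 7 ∨ i = 30) || decide (2 ^ 36 * ordPrime 2 % (2450 + i) ≠ 0)) = true := by
  decide +kernel

/-- A degree less than six below the bound divides the order only in one case. -/
theorem exception {q d : ℕ} (hq : IsPrimePow q) (h3 : 3 ≤ q) (hd : d ∣ q ^ 36 * ordPrime q)
    (hlo : deg q ≤ d + 6) (hhi : d < deg q) : q = 4 ∧ d + 4 = deg q := by
  obtain ⟨j, hj⟩ : ∃ j, deg q = d + j := ⟨deg q - d, by omega⟩
  have hj1 : 1 ≤ j := by omega
  have hj6 : j ≤ 6 := by omega
  have hdj : d = deg q - j := by omega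
  by_cases h7 : q < 7
  · have hqs : q ∈ [3, 4, 5] := by
      have h6 : q ≠ 6 := by
        rintro rfl
        obtain ⟨p, a, hp, -, e⟩ := (isPrimePow_nat_iff _).1 hq
        have h2 := (Nat.prime_dvd_prime_iff_eq Nat.prime_two hp).1 (Nat.prime_two.dvd_of_dvd_pow (n := a) (e ▸ by norm_num))
        have h3 := (Nat.prime_dvd_prime_iff_eq Nat.prime_three hp).1 (Nat.prime_three.dvd_of_dvd_pow (n := a) (e ▸ by norm_num))
        omega
      simp only [List.mem_cons, List.not_mem_nil, or_false]
      omega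
    have h := tinyCheck
    simp only [List.all_eq_true, Bool.or_eq_true, decide_eq_true_eq, List.mem_range] at h
    rcases h q hqs (j - 1) (by omega) with ⟨h4, h4'⟩ | h'
    · exact ⟨h4, by omega⟩
    · rw [show j - 1 + 1 = j by omega, ← hdj] at h'
      exact absurd (Nat.mod_eq_zero_of_dvd hd) h'
  push Not at h7
  have hg : Nat.gcd d (q ^ 36) ∣ j := by
    obtain ⟨p, a, hp, -, e⟩ := (isPrimePow_nat_iff _).1 hq
    obtain ⟨b, -, hb⟩ := (Nat.dvd_prime_pow hp).1 (show Nat.gcd d (q ^ 36) ∣ p ^ (a * 36) by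
      rw [pow_mul, e]; exact Nat.gcd_dvd_right _ _)
    have hgd : Nat.gcd d (q ^ 36) ∣ d := Nat.gcd_dvd_left _ _
    have hqR : q ∣ deg q := ⟨(q ^ 6 + q ^ 3 + 1) * (q ^ 4 + 1), by simp [deg, mul_assoc]⟩
    by_cases hba : b ≤ a
    · have h1 : Nat.gcd d (q ^ 36) ∣ deg q := by rw [hb]; exact (e ▸ pow_dvd_pow p hba).trans hqR
      rw [hj] at h1
      exact (Nat.dvd_add_right hgd).1 h1
    · exfalso
      have h1 : q ∣ d := (e ▸ pow_dvd_pow p (by omega : a ≤ b)).trans (hb ▸ hgd)
      rw [hj] at hqR
      have := Nat.le_of_dvd (by omega) ((Nat.dvd_add_right h1).1 hqR)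
      omega
  have hdj' : d ∣ j * ordPrime q := by
    refine (Nat.dvd_gcd dvd_rfl hd).trans ((Nat.gcd_mul_right_dvd_mul_gcd _ _ _).trans ?_)
    exact mul_dvd_mul hg (Nat.gcd_dvd_right _ _)
  exfalso
  rw [hdj] at hdj'
  by_cases hs : q < 3700
  · have h := smallCheck
    simp only [List.all_eq_true, Bool.or_eq_true, decide_eq_true_eq, List.mem_range] at h
    have h' := (h q hs).resolve_left (by omega) (j - 1) (by omega)
    rw [show j - 1 + 1 = j by omega] at h'
    exact h' (Nat.mod_eq_zero_of_dvd hdj')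
  · push Not at hs
    interval_cases j
    · exact large1 q hs hdj'
    · exact large2 q hs hdj'
    · exact large3 q hs hdj'
    · exact large4 q hs hdj'
    · exact large5 q hs hdj'
    · exact large6 q hs hdj'

/-- The degrees between the sum of two orbits and the bound dividing the order for two elements. -/
theorem exception_two {d : ℕ} (hd : d ∣ 2 ^ 36 * ordPrime 2) (hlo : 2450 ≤ d) (hhi : d < deg 2) :
    d = 2450 ∨ d = 2457 ∨ d = 2480 := by
  have hR : deg 2 = 2482 := by decide +kernel
  have h := twoCheck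
  simp only [List.all_eq_true, Bool.or_eq_true, decide_eq_true_eq, List.mem_range] at h
  rcases h (d - 2450) (by omega) with h' | h'
  · omega
  · rw [show 2450 + (d - 2450) = d by omega] at h'
    exact absurd (Nat.mod_eq_zero_of_dvd hd) h'

end Cfsg.Agent.H71.E6Deg.Arith
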