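import Cfsg.Agent.H71.E6Deg.Counts

/-!
# The orbit of a parameter which is not small
-/

set_option autoImplicit false
set_option linter.unusedSectionVars false
set_option linter.unusedSimpArgs false

open Cfsg.Lie Cfsg.Agent.H46 Cfsg.Agent.H65.Inv Module

namespace Cfsg.Agent.H71.E6Deg

section

variable {F : Type*} [Field F] {n : ℕ}

/-- Writing into a set only from a part on which the vector vanishes keeps the values on the set. -/
theorem actV_keep (K Z : List (Fin n)) (hZ : ∀ x ∈ Z, x ∈ K) : ∀ (l : List (Edge n × Fin n)),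
    (∀ p ∈ l, ∀ x ∈ K, ∀ y N, p.1 x = some (y, N) → y ∈ Z) → ∀ (v c : Fin n → F), (∀ z ∈ Z, c z = 0) →
      ∀ x ∈ K, actV l v c x = c x
  | [], _, _, _, _, _, _ => rfl
  | (e, k) :: l, h, v, c, hc, x, hx => by
    have ih := actV_keep K Z hZ l (fun p hp => h p (List.mem_cons_of_mem _ hp)) v c hc
    simp only [actV]
    rcases he : e x with _ | ⟨y, N⟩
    · rw [act_none he, ih x hx]
    · have hy := h (e, k) List.mem_cons_self x hx y N he
      rw [act_some he, ih x hx, ih y (hZ y hy), hc y hy, mul_zero, sub_zero]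

end

variable {D : ChevalleyDatum} {n : ℕ} {F : Type*} [Field F] [Fintype F]
  {V : Type*} [AddCommGroup V] [Module ℂ V] [FiniteDimensional ℂ V]
  {G : Good D} {L : Level n}

namespace Ctx

variable (C : Ctx L G F V)
include C

/-- Either all occurring parameters are small, or many parameters occur. -/
theorem allSmall_or_big [DecidableEq F] {nb nb2 : ℕ} (hnb : L.nbOk G nb = true) (hbig : L.bigOk G nb2 = true) :
    C.AllSmall ∨ (Fintype.card F - 1) * Fintype.card F ^ (nb + nb2) ≤
      ∑ c ∈ (Finset.univ.filter fun c : Fin n → F => c ≠ 0), C.m c := by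
  classical
  by_cases hS : C.AllSmall
  · exact Or.inl hS
  right
  simp only [AllSmall, not_forall] at hS
  obtain ⟨c, i, hm, hci, hns⟩ := hS
  obtain ⟨hC, hlev⟩ := C.clears i
  set l := L.clrR G i with hl
  have hsnd : (L.tabs G l).map Prod.snd = l.map Prod.snd := by simp [Level.tabs]
  obtain ⟨v0, hv0⟩ := hC.exists_clear (c := c) hci
  set d := actV (L.tabs G l) v0 c with hd
  have hdi : d i = c i := hC.pivot_eq v0 c
  have hmd : C.m d = C.m c := C.m_actV hlev v0 c
  obtain ⟨j, hjm, hdj⟩ : ∃ j, j ∉ i :: l.map Prod.snd ∧ d j ≠ 0 := by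
    by_contra hno
    push Not at hno
    refine hns ⟨v0, funext fun x => ?_⟩
    by_cases hx : x = i
    · subst hx; rw [Pi.single_eq_same]; exact hdi
    · rw [Pi.single_eq_of_ne hx]
      by_cases hxl : x ∈ l.map Prod.snd
      · exact hv0 x (hsnd.symm ▸ hxl)
      · exact hno x (by simp [hx]; simpa using hxl)
  simp only [Level.bigOk, List.all_eq_true, List.mem_finRange, true_implies, Bool.or_eq_true, Bool.and_eq_true,
    List.contains_iff_mem, decide_eq_true_eq, Bool.not_eq_true'] at hbig
  obtain ⟨⟨hok2, hk2⟩, hlen2⟩ := (hbig i j).resolve_left hjm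
  set l2 := L.clrR2 G i j with hl2
  obtain ⟨hC2, hlev2⟩ := C.clears_of_ok hok2
  have hsnd2 : (L.tabs G l2).map Prod.snd = l2.map Prod.snd := by simp [Level.tabs]
  have hkeep : ∀ (w e : Fin n → F), (∀ z ∈ l.map Prod.snd, e z = 0) → ∀ x ∈ i :: l.map Prod.snd,
      actV (L.tabs G l2) w e x = e x := by
    refine actV_keep _ _ (fun x hx => List.mem_cons_of_mem _ hx) _ fun p hp x hx y N he => ?_
    obtain ⟨q, hq, rfl⟩ := List.mem_map.1 hp
    have h := (hk2 q hq).1
    simp only [Level.keepsOk, List.all_eq_true] at h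
    have := h x hx
    rw [show edge G L.A q.1 x = some (y, N) from he] at this
    simpa using this
  obtain ⟨s, hs, hps⟩ := (C.struct'.2 i).2
  let sc : F → (Fin n → F) := fun u x => d x * (d i / u) ^ (-D.pairing s (L.A x))
  have hsci : ∀ u : F, u ≠ 0 → sc u i = u := fun u hu => by
    simp only [sc, hps]
    rw [zpow_neg_one]
    field_simp [hdi ▸ hci]
  have hscz : ∀ u : F, ∀ z ∈ l.map Prod.snd, sc u z = 0 := fun u z hz => by
    simp only [sc]
    rw [hv0 z (hsnd.symm ▸ hz), zero_mul]
  have hscj : ∀ u : F, u ≠ 0 → sc u j ≠ 0 := fun u hu =>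
    mul_ne_zero hdj (zpow_ne_zero _ (div_ne_zero (hdi ▸ hci) hu))
  set J := (l.map Prod.snd).toFinset with hJ
  set J2 := (l2.map Prod.snd).toFinset with hJ2
  let ext : ∀ (K : Finset (Fin n)), ({x // x ∈ K} → F) → (Fin n → F) := fun K w x =>
    if h : x ∈ K then w ⟨x, h⟩ else 0
  let f : {u : F // u ≠ 0} × ({x // x ∈ J} → F) × ({x // x ∈ J2} → F) → (Fin n → F) := fun a =>
    actVinv (L.tabs G l) (ext J a.2.1) (actV (L.tabs G l2) (ext J2 a.2.2) (sc a.1.1))
  have hf : ∀ a, actV (L.tabs G l) (ext J a.2.1) (f a) = actV (L.tabs G l2) (ext J2 a.2.2) (sc a.1.1) := fun a =>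
    actV_actVinv _ hC.chain _ _
  have hfi : ∀ a, f a i = a.1.1 := fun a => by
    rw [← hC.pivot_eq (ext J a.2.1) (f a), hf, hkeep _ _ (hscz _) i List.mem_cons_self, hsci _ a.1.2]
  have hinj : Function.Injective f := by
    intro a b h
    have h1 : a.1 = b.1 := Subtype.ext (by rw [← hfi a, ← hfi b, h])
    have h2 : a.2.1 = b.2.1 := funext fun x => by
      have := hC.param_eq (c := f a) (c' := f b) (v := ext J a.2.1) (w := ext J b.2.1) (by rw [h])
        (by rw [hfi]; exact a.1.2) (fun _ _ => by rw [h]) (fun y hy => by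
          rw [hsnd] at hy
          rw [hf, hf, hkeep _ _ (hscz _) y (List.mem_cons_of_mem _ hy),
            hkeep _ _ (hscz _) y (List.mem_cons_of_mem _ hy), hscz _ y hy, hscz _ y hy]) x.1
        (hsnd.symm ▸ List.mem_toFinset.1 x.2)
      simpa [ext, x.2] using this
    have he : actV (L.tabs G l2) (ext J2 a.2.2) (sc a.1.1) = actV (L.tabs G l2) (ext J2 b.2.2) (sc a.1.1) := by
      rw [← hf a, h, h2, hf b, h1]
    have h3 : a.2.2 = b.2.2 := funext fun x => by
      have := hC2.param_eq (c := sc a.1.1) (c' := sc a.1.1) (v := ext J2 a.2.2) (w := ext J2 b.2.2) rfl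
        (hscj _ a.1.2) (fun _ _ => rfl) (fun y _ => by rw [he]) x.1 (hsnd2.symm ▸ List.mem_toFinset.1 x.2)
      simpa [ext, x.2] using this
    exact Prod.ext h1 (Prod.ext h2 h3)
  have hmf : ∀ a, C.m (f a) = C.m c := fun a => by
    rw [C.m_actVinv hlev, C.m_actV hlev2, ← hmd]
    exact C.m_scale hs (div_ne_zero (hdi ▸ hci) a.1.2) d
  refine le_trans ?_ (Finset.sum_le_sum_of_subset (s := Finset.univ.image f) ?_)
  · rw [Finset.sum_image fun a _ b _ h => hinj h, Finset.sum_congr rfl fun a _ => hmf a, Finset.sum_const,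
      smul_eq_mul]
    refine le_trans (le_of_eq ?_) (Nat.le_mul_of_pos_right _ (Nat.pos_of_ne_zero hm))
    have hJc : J.card = nb := by
      simp only [Level.nbOk, List.all_eq_true, decide_eq_true_eq] at hnb
      rw [hJ, List.toFinset_card_of_nodup, List.length_map, hnb i (List.mem_finRange i)]
      simpa [Level.tabs, Function.comp_def] using hC.nodup
    have hJ2c : J2.card = nb2 := by
      rw [hJ2, List.toFinset_card_of_nodup, List.length_map, hlen2]
      simpa [Level.tabs, Function.comp_def] using hC2.nodup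
    rw [Finset.card_univ, Fintype.card_prod, Fintype.card_prod, Fintype.card_fun, Fintype.card_fun,
      Fintype.card_coe, Fintype.card_coe, hJc, hJ2c, Fintype.card_subtype_compl, Fintype.card_subtype_eq, pow_add]
  · intro x hx
    obtain ⟨a, -, rfl⟩ := Finset.mem_image.1 hx
    refine Finset.mem_filter.2 ⟨Finset.mem_univ _, fun h => a.1.2 ?_⟩
    rw [← hfi a, h]
    rfl

/-- With no coordinate out of reach of a pivot every parameter is small. -/
theorem allSmall_of_full (hfull : L.fullOk G = true) : C.AllSmall := by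
  intro c i _ hci
  obtain ⟨hC, -⟩ := C.clears i
  obtain ⟨v, hv⟩ := hC.exists_clear (c := c) hci
  simp only [Level.fullOk, List.all_eq_true, List.mem_finRange, true_implies, List.contains_iff_mem] at hfull
  refine ⟨v, funext fun x => ?_⟩
  rcases List.mem_cons.1 (hfull i x) with rfl | hx
  · rw [Pi.single_eq_same, hC.pivot_eq]
  · have hne : x ≠ i := by
      rintro rfl
      exact hC.pivot_not_mem (by simpa [Level.tabs] using hx)
    rw [Pi.single_eq_of_ne hne]
    exact hv x (by simpa [Level.tabs] using hx)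

end Ctx

end Cfsg.Agent.H71.E6Deg
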