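import Cfsg.Agent.H71.E6Deg.Transition
import Cfsg.Agent.H71.E6Deg.Data
import Mathlib.RepresentationTheory.Irreducible

/-!
# The chain of radicals in a representation of E6(q)
-/

set_option autoImplicit false
set_option linter.unusedSectionVars false
set_option linter.unusedSimpArgs false

open Cfsg.Lie Cfsg.Agent.H46 Cfsg.Agent.H65.Inv Module

namespace Cfsg.Agent.H71.E6Deg

theorem sub01 : subOk goodE6 lvl0 lvl1 = true := by decide +kernel
theorem sub12 : subOk goodE6 lvl1 lvl2 = true := by decide +kernel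
theorem sub23 : subOk goodE6 lvl2 lvl3 = true := by decide +kernel
theorem sub34 : subOk goodE6 lvl3 lvl4 = true := by decide +kernel
theorem sub45 : subOk goodE6 lvl4 lvl5 = true := by decide +kernel

theorem conn : (List.range chevE6.nroots).all (fun s =>
    (closeList (fun r => if r < chevE6.nroots then (List.range chevE6.rank).map fun i => goodE6.tab.refl i r else [])
      24 [36]).contains s) = true := by decide +kernel

/-- The candidate degree `q(q⁶ + q³ + 1)(q⁴ + 1)`. -/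
def bnd (q : ℕ) : ℕ := q * (q ^ 6 + q ^ 3 + 1) * (q ^ 4 + 1)

theorem size0 (m : ℕ) : lvl0.size goodE6 (m + 1) 16 =
    m * ((m+1) ^ 10 + (m+1) ^ 9 + (m+1) ^ 8 + 2 * (m+1) ^ 7 + 2 * (m+1) ^ 6 + 2 * (m+1) ^ 5 + 2 * (m+1) ^ 4 +
      2 * (m+1) ^ 3 + (m+1) ^ 2 + (m+1) + 1) := by
  simp [Level.size, lvl0_exp, Finset.sum_range_succ]; ring

theorem size1 (m : ℕ) : lvl1.size goodE6 (m + 1) 10 =
    m * ((m+1) ^ 6 + (m+1) ^ 5 + 2 * (m+1) ^ 4 + 2 * (m+1) ^ 3 + 2 * (m+1) ^ 2 + (m+1) + 1) := by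
  simp [Level.size, lvl1_exp, Finset.sum_range_succ]; ring

theorem size2 (m : ℕ) : lvl2.size goodE6 (m + 1) 4 = m * ((m+1) ^ 3 + (m+1) ^ 2 + (m+1) + 1) := by
  simp [Level.size, lvl2_exp, Finset.sum_range_succ]; ring

theorem size3 (m : ℕ) : lvl3.size goodE6 (m + 1) 3 = m * ((m+1) ^ 2 + (m+1) + 1) := by
  simp [Level.size, lvl3_exp, Finset.sum_range_succ]; ring

theorem size4 (m : ℕ) : lvl4.size goodE6 (m + 1) 2 = m * ((m+1) + 1) := by
  simp [Level.size, lvl4_exp, Finset.sum_range_succ]; ring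

theorem size5 (m : ℕ) : lvl5.size goodE6 (m + 1) 1 = m := by
  simp [Level.size, lvl5_exp, Finset.sum_range_succ]

theorem moved0 (m : ℕ) : m * (m+1) ^ 11 = m * (m+1) ^ 7 + m * lvl0.size goodE6 (m + 1) lvl0.src := by
  simp [Level.size, lvl0_exp, show lvl0.src = 4 from rfl, Finset.sum_range_succ]; ring

theorem moved1 (m : ℕ) : m * (m+1) ^ 7 = m * (m+1) ^ 4 + m * lvl1.size goodE6 (m + 1) lvl1.src := by
  simp [Level.size, lvl1_exp, show lvl1.src = 3 from rfl, Finset.sum_range_succ]; ring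

theorem moved2 (m : ℕ) : m * (m+1) ^ 4 = m * (m+1) ^ 3 + m * lvl2.size goodE6 (m + 1) lvl2.src := by
  simp [Level.size, lvl2_exp, show lvl2.src = 1 from rfl, Finset.sum_range_succ]; ring

theorem moved3 (m : ℕ) : m * (m+1) ^ 3 = m * (m+1) ^ 2 + m * lvl3.size goodE6 (m + 1) lvl3.src := by
  simp [Level.size, lvl3_exp, show lvl3.src = 1 from rfl, Finset.sum_range_succ]; ring

theorem moved4 (m : ℕ) : m * (m+1) ^ 2 = m * (m+1) ^ 1 + m * lvl4.size goodE6 (m + 1) lvl4.src := by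
  simp [Level.size, lvl4_exp, show lvl4.src = 1 from rfl, Finset.sum_range_succ]; ring

theorem bnd_le_big0 (m : ℕ) (hm : 1 ≤ m) : bnd (m + 1) ≤ m * (m+1) ^ (10 + 4) := by
  obtain ⟨a, rfl⟩ := Nat.exists_eq_add_of_le hm
  have h : bnd (1 + a + 1) ≤ (1+a+1) ^ 14 := by
    have h2 : 2 ≤ 1 + a + 1 := by omega
    generalize 1 + a + 1 = q at h2 ⊢
    have e1 : q ^ 6 + q ^ 3 + 1 ≤ q ^ 7 := by
      have : 2 * q ^ 6 ≤ q ^ 7 := by rw [pow_succ q 6, mul_comm (q ^ 6)]; exact Nat.mul_le_mul_right _ h2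
      have : 2 * q ^ 3 ≤ q ^ 6 := by
        rw [show q ^ 6 = q ^ 3 * q ^ 3 by ring]
        exact Nat.mul_le_mul_right _ (le_trans h2 (Nat.le_self_pow (by norm_num) q))
      have : 1 ≤ q ^ 3 := Nat.one_le_pow _ _ (by omega)
      omega
    have e2 : q ^ 4 + 1 ≤ q ^ 5 := by
      have : 2 * q ^ 4 ≤ q ^ 5 := by rw [pow_succ q 4, mul_comm (q ^ 4)]; exact Nat.mul_le_mul_right _ h2
      have : 1 ≤ q ^ 4 := Nat.one_le_pow _ _ (by omega)
      omega
    calc bnd q ≤ q * q ^ 7 * q ^ 5 := Nat.mul_le_mul (Nat.mul_le_mul_left _ e1) e2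
      _ ≤ q ^ 14 := by rw [show q * q ^ 7 * q ^ 5 = q ^ 13 by ring]; exact Nat.pow_le_pow_right (by omega) (by norm_num)
  exact h.trans (Nat.le_mul_of_pos_left _ (by omega))

theorem bnd_le_two (m : ℕ) (hm : 1 ≤ m) : bnd (m + 1) ≤ 2 * lvl0.size goodE6 (m + 1) 16 := by
  obtain ⟨a, rfl⟩ := Nat.exists_eq_add_of_le hm
  rw [size0]
  simp only [bnd]
  ring_nf
  omega

theorem bnd_le_big1 (m : ℕ) (hm : 1 ≤ m) :
    bnd (m + 1) ≤ lvl0.size goodE6 (m + 1) 16 + m * (m+1) ^ (6 + 2) := by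
  obtain ⟨a, rfl⟩ := Nat.exists_eq_add_of_le hm
  rw [size0]
  simp only [bnd]
  ring_nf
  omega

theorem sizes_add (m : ℕ) : lvl0.size goodE6 (m + 1) 16 + lvl1.size goodE6 (m + 1) 10 + lvl2.size goodE6 (m + 1) 4 +
    lvl3.size goodE6 (m + 1) 3 + lvl4.size goodE6 (m + 1) 2 + lvl5.size goodE6 (m + 1) 1 + 6 = bnd (m + 1) := by
  rw [size0, size1, size2, size3, size4, size5, bnd]; ring

variable {F : Type*} [Field F] [Fintype F]

/-- What the chain gives below the bound. -/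
structure Below (F : Type*) [Field F] [Fintype F] (k : ℕ)
    (ρ : Representation ℂ ↥(chevE6.group F) (Fin k → ℂ)) : Prop where
  trace : ∀ t : F, t ≠ 0 → ρ.character (goodE6.xG 36 t) = (k : ℂ) - (Fintype.card F : ℂ) ^ 11
  two : lvl0.size goodE6 (Fintype.card F) 16 + lvl1.size goodE6 (Fintype.card F) 10 ≤ k
  all : 3 ≤ Fintype.card F → bnd (Fintype.card F) ≤ k + 6

theorem exists_moves (k : ℕ) (ρ : Representation ℂ ↥(chevE6.group F) (Fin k → ℂ)) (hρ : ρ.IsIrreducible)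
    (hk : 2 ≤ k) : ∃ t : F, ρ (goodE6.xG 36 t) ≠ 1 := by
  by_contra hc
  push Not at hc
  have : ρ.IsIrreducible := hρ
  have hall : ∀ s < chevE6.nroots, ∀ t : F, ρ (goodE6.xG s t) = 1 := by
    intro s hs
    have h := conn
    simp only [List.all_eq_true, List.mem_range, List.contains_iff_mem] at h
    refine closeList_spec _ (fun r => ∀ t : F, ρ (goodE6.xG r t) = 1) (fun r hr r' hr' t => ?_) 24 [36]
      (by simpa using hc) s (h s hs)
    split_ifs at hr' with hlt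
    · simp only [List.mem_map, List.mem_range] at hr'
      obtain ⟨i, hi, rfl⟩ := hr'
      have heta : (goodE6.tab.eta i r : F) * (goodE6.tab.eta i r : F) = 1 := by
        simpa using goodE6.eta_cast_sq (F := F) i r
      rw [show goodE6.xG (goodE6.tab.refl i r) t =
        goodE6.xG (goodE6.tab.refl i r) ((goodE6.tab.eta i r : F) * ((goodE6.tab.eta i r : F) * t)) by
        rw [← mul_assoc, heta, one_mul], ← Ctx.nG_conj hi hlt, map_mul, map_mul, hr, mul_one, ← map_mul,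
        mul_inv_cancel, map_one]
    · simp at hr'
  have htriv : ∀ g, ρ g = 1 := by
    rintro ⟨g, hg⟩
    let N : Subgroup (GL chevE6.Idx F) := (MonoidHom.ker (ρ : _ →* _)).map (chevE6.group F).subtype
    have hN : chevE6.group F ≤ N := goodE6.group_le fun r hr t => ⟨goodE6.xG r t, hall r hr t, rfl⟩
    obtain ⟨x, hx, e⟩ := hN hg
    rw [show (⟨g, hg⟩ : ↥(chevE6.group F)) = x from Subtype.ext e.symm]
    exact hx
  set e : Fin k → ℂ := Pi.single ⟨0, by omega⟩ 1
  let σ : Subrepresentation ρ := ⟨Submodule.span ℂ {e}, fun g v hv => by rw [htriv g]; exact hv⟩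
  let σ0 : Subrepresentation ρ := ⟨⊥, fun g v hv => by rw [htriv g]; exact hv⟩
  let σ1 : Subrepresentation ρ := ⟨⊤, fun g v hv => by rw [htriv g]; exact hv⟩
  have he : finrank ℂ (Submodule.span ℂ ({e} : Set (Fin k → ℂ))) = 1 :=
    finrank_span_singleton (by simp [e])
  have hne1 : σ ≠ σ1 := fun h' => by
    have h2 : Submodule.span ℂ ({e} : Set (Fin k → ℂ)) = ⊤ := congrArg Subrepresentation.toSubmodule h'
    rw [h2, finrank_top, finrank_fin_fun] at he
    omega
  have hne0 : σ ≠ σ0 := fun h' => by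
    have h2 : Submodule.span ℂ ({e} : Set (Fin k → ℂ)) = ⊥ := congrArg Subrepresentation.toSubmodule h'
    rw [h2, finrank_bot] at he
    omega
  have h01 : σ0 ≠ σ1 := fun h' => by
    have h2 : (⊥ : Submodule ℂ (Fin k → ℂ)) = ⊤ := congrArg Subrepresentation.toSubmodule h'
    have h3 := congrArg (fun S : Submodule ℂ (Fin k → ℂ) => finrank ℂ S) h2
    simp only [finrank_bot, finrank_top, finrank_fin_fun] at h3
    omega
  rcases eq_bot_or_eq_top σ with a | a <;> rcases eq_bot_or_eq_top σ0 with c | c <;>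
    rcases eq_bot_or_eq_top σ1 with d | d <;> simp_all

/-- Either the degree is at least the bound, or the chain determines it up to six. -/
theorem bound_or_below (k : ℕ) (ρ : Representation ℂ ↥(chevE6.group F) (Fin k → ℂ)) (hρ : ρ.IsIrreducible)
    (hk : 2 ≤ k) : bnd (Fintype.card F) ≤ k ∨ Below F k ρ := by
  classical
  obtain ⟨ψ, hψ⟩ := AddChar.exists_apply_ne_zero.2 (one_ne_zero : (1 : F) ≠ 0)
  have hψ1 : ψ ≠ 1 := fun h => hψ (by rw [h]; rfl)
  obtain ⟨m, hm⟩ : ∃ m, Fintype.card F = m + 1 := ⟨Fintype.card F - 1, by have := Fintype.one_lt_card (α := F); omega⟩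
  have hm1 : 1 ≤ m := by have := Fintype.one_lt_card (α := F); omega
  have htrE : LinearMap.trace ℂ (Fin k → ℂ) 1 = (k : ℂ) := by rw [LinearMap.trace_one, finrank_fin_fun]
  let C0 : Ctx lvl0 goodE6 F (Fin k → ℂ) :=
    { ρ := ρ, E := 1, idem := mul_one 1, comm := fun _ _ _ => Commute.one_left _,
      commH := fun _ _ _ _ => Commute.one_left _, ψ := ψ, prim := hψ1, struct := lvl0_struct }
  have hd0 : (k : ℂ) = LinearMap.trace ℂ (Fin k → ℂ) C0.next +
      ((∑ c ∈ (Finset.univ.filter fun c : Fin 16 → F => c ≠ 0), C0.m c : ℕ) : ℂ) := by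
    rw [← C0.trace_E_eq, ← htrE]
  rw [C0.trace_next, ← Nat.cast_add, Nat.cast_inj] at hd0
  rcases C0.allSmall_or_big lvl0_nb lvl0_big with hS0 | hbig
  swap
  · left
    have := bnd_le_big0 m hm1
    rw [hm] at hbig ⊢
    simp only [Nat.add_sub_cancel] at hbig
    omega
  have htot := C0.sum_nonzero lvl0_trans hS0 lvl0_cells
  rcases Nat.lt_trichotomy C0.k 1 with hk0 | hk1 | hk2
  · exfalso
    obtain ⟨t, ht⟩ := exists_moves k ρ hρ hk
    apply ht
    have hz : ∀ c : Fin 16 → F, c ≠ 0 → C0.m c = 0 := fun c hc => by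
      have h0 : ∑ c ∈ (Finset.univ.filter fun c : Fin 16 → F => c ≠ 0), C0.m c = 0 := by
        rw [htot, show C0.k = 0 by omega, zero_mul]
      exact (Finset.sum_eq_zero_iff.1 h0) c (by simp [hc])
    have hP0 : C0.sys.P 0 = 1 := by
      rw [show (1 : Module.End ℂ (Fin k → ℂ)) = C0.sys.E from rfl, ← C0.sys.sum_P, Finset.sum_eq_single (0 : Fin 16 → F)]
      · intro c _ hc
        exact C0.sys.P_eq_zero (hz c hc)
      · intro h; exact absurd (Finset.mem_univ _) h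
    have h := C0.sys.P_mul_rho 0 (Pi.single ⟨0, by norm_num⟩ t)
    rw [hP0, one_mul, Sys.chi_apply, zero_dotProduct, AddChar.map_zero_eq_one, one_smul] at h
    rw [← h]
    exact congrArg ρ (vecU_single goodE6 C0.vec ⟨0, by norm_num⟩ t).symm
  swap
  · left
    have := bnd_le_two m hm1
    have h2 : 2 * lvl0.size goodE6 (m + 1) 16 ≤ C0.k * lvl0.size goodE6 (m + 1) 16 := Nat.mul_le_mul_right _ hk2
    rw [hm] at htot ⊢
    omega
  -- the trace of a long root element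
  have htrace : ∀ t : F, t ≠ 0 → ρ.character (goodE6.xG 36 t) = (k : ℂ) - (Fintype.card F : ℂ) ^ 11 := by
    have hconst : ∀ t : F, t ≠ 0 → ρ.character (goodE6.xG 36 t) = ρ.character (goodE6.xG 36 1) := by
      intro t ht
      obtain ⟨s, hs, hp⟩ := (C0.struct'.2 ⟨0, by norm_num⟩).2
      have e : hG goodE6 s t * goodE6.xG 36 1 * (hG goodE6 s t)⁻¹ = goodE6.xG 36 t := by
        apply Subtype.ext
        rw [Subgroup.coe_mul, Subgroup.coe_mul, Subgroup.coe_inv, mul_inv_eq_iff_eq_mul]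
        have := goodE6.hg_mul_xg (F := F) hs (show 36 < chevE6.nroots by decide +kernel) ht (1 : F)
        rw [show chevE6.pairing s 36 = 1 from hp, zpow_one, mul_one] at this
        exact this
      rw [← e, Representation.char_conj]
    have hd : drop goodE6 C0.ρ C0.E (lvl0.A ⟨0, by norm_num⟩) =
        ((Fintype.card F - 1 : ℕ) : ℂ) * ((k : ℂ) - ρ.character (goodE6.xG 36 1)) := by
      have hterm : ∀ t : F, LinearMap.trace ℂ (Fin k → ℂ) C0.E -
          LinearMap.trace ℂ (Fin k → ℂ) (C0.E * C0.ρ (goodE6.xG (lvl0.A ⟨0, by norm_num⟩) t)) =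
          if t = 0 then 0 else (k : ℂ) - ρ.character (goodE6.xG 36 1) := by
        intro t
        show LinearMap.trace ℂ (Fin k → ℂ) 1 - LinearMap.trace ℂ (Fin k → ℂ) (1 * ρ (goodE6.xG 36 t)) = _
        rw [one_mul, htrE]
        split_ifs with h
        · subst h
          rw [xG_zero, map_one ρ, htrE, sub_self]
        · rw [← hconst t h]; rfl
      rw [drop, Finset.sum_congr rfl fun t _ => hterm t, Finset.sum_ite, Finset.sum_const_zero, zero_add,
        Finset.sum_const, Finset.filter_ne', Finset.card_erase_of_mem (Finset.mem_univ _), Finset.card_univ,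
        nsmul_eq_mul]
    rw [C0.drop_pivot lvl0_trans hS0 lvl0_cells lvl0_nb, hk1, one_mul, Nat.cast_mul, Nat.cast_pow] at hd
    have hq : ((Fintype.card F - 1 : ℕ) : ℂ) ≠ 0 := by
      rw [hm]; simp only [Nat.add_sub_cancel]; exact Nat.cast_ne_zero.2 (by omega)
    have := mul_left_cancel₀ hq hd
    intro t ht
    rw [hconst t ht]
    linear_combination this
  -- the first transition
  have hn0 := C0.drop_next lvl0_trans hS0 lvl0_cells lvl0_nb (useTor := false) (fun h => nomatch h)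
    (by decide) lvl0_scal hk1 (by decide) (by norm_num)
  let C1 := C0.toNext lvl1 lvl1_struct sub01
  have hs1 : ∃ j : Fin 10, lvl1.A j = lvl0.r := ⟨5, by decide⟩
  obtain ⟨j1, hj1⟩ := hs1
  have hd1 : drop goodE6 C1.ρ C1.E (lvl1.A j1) =
      (((Fintype.card F - 1) * Fintype.card F ^ (6 + 1) : ℕ) : ℂ) := by
    rw [hj1, show drop goodE6 C1.ρ C1.E lvl0.r = drop goodE6 C0.ρ C0.next lvl0.r from rfl, hn0, sub_eq_iff_eq_add,
      ← Nat.cast_add, Nat.cast_inj, hm]
    simp only [Nat.add_sub_cancel]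
    exact moved0 m
  have e0 : k = C0.m 0 + lvl0.size goodE6 (m + 1) 16 := by rw [htot, hk1, one_mul, hm] at hd0; exact hd0
  have t0 : LinearMap.trace ℂ (Fin k → ℂ) C1.E = (C0.m 0 : ℂ) := C0.trace_next
  rw [C1.trace_E_eq, C1.trace_next, ← Nat.cast_add, Nat.cast_inj] at t0
  rcases C1.allSmall_or_big lvl1_nb lvl1_big with hS1 | hbig
  swap
  · left
    have := bnd_le_big1 m hm1
    rw [hm] at hbig ⊢
    simp only [Nat.add_sub_cancel] at hbig
    omega
  have k1 := C1.k_eq_one lvl1_trans hS1 lvl1_cells lvl1_nb j1 hd1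
  rw [C1.sum_nonzero lvl1_trans hS1 lvl1_cells, k1, one_mul, hm] at t0
  refine Or.inr ⟨htrace, by rw [hm]; omega, fun h3 => ?_⟩
  have h3' : true = true → 3 ≤ Fintype.card F := fun _ => h3
  have hn1 := C1.drop_next lvl1_trans hS1 lvl1_cells lvl1_nb h3' (by decide) lvl1_scal k1 (by decide) (by norm_num)
  let C2 := C1.toNext lvl2 lvl2_struct sub12
  have hS2 : C2.AllSmall := C2.allSmall_of_full lvl2_full
  obtain ⟨j2, hj2⟩ : ∃ j : Fin 4, lvl2.A j = lvl1.r := ⟨0, by decide⟩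
  have hd2 : drop goodE6 C2.ρ C2.E (lvl2.A j2) =
      (((Fintype.card F - 1) * Fintype.card F ^ (3 + 1) : ℕ) : ℂ) := by
    rw [hj2, show drop goodE6 C2.ρ C2.E lvl1.r = drop goodE6 C1.ρ C1.next lvl1.r from rfl, hn1, sub_eq_iff_eq_add,
      ← Nat.cast_add, Nat.cast_inj, hm]
    simp only [Nat.add_sub_cancel]
    exact moved1 m
  have k2 := C2.k_eq_one lvl2_trans hS2 lvl2_cells lvl2_nb j2 hd2
  have t1 : LinearMap.trace ℂ (Fin k → ℂ) C2.E = (C1.m 0 : ℂ) := C1.trace_next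
  rw [C2.trace_E_eq, C2.trace_next, ← Nat.cast_add, Nat.cast_inj, C2.sum_nonzero lvl2_trans hS2 lvl2_cells, k2,
    one_mul, hm] at t1
  have hn2 := C2.drop_next lvl2_trans hS2 lvl2_cells lvl2_nb h3' (by decide) lvl2_scal k2 (by decide) (by norm_num)
  let C3 := C2.toNext lvl3 lvl3_struct sub23
  have hS3 : C3.AllSmall := C3.allSmall_of_full lvl3_full
  obtain ⟨j3, hj3⟩ : ∃ j : Fin 3, lvl3.A j = lvl2.r := ⟨0, by decide⟩
  have hd3 : drop goodE6 C3.ρ C3.E (lvl3.A j3) =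
      (((Fintype.card F - 1) * Fintype.card F ^ (2 + 1) : ℕ) : ℂ) := by
    rw [hj3, show drop goodE6 C3.ρ C3.E lvl2.r = drop goodE6 C2.ρ C2.next lvl2.r from rfl, hn2, sub_eq_iff_eq_add,
      ← Nat.cast_add, Nat.cast_inj, hm]
    simp only [Nat.add_sub_cancel]
    exact moved2 m
  have k3 := C3.k_eq_one lvl3_trans hS3 lvl3_cells lvl3_nb j3 hd3
  have t2 : LinearMap.trace ℂ (Fin k → ℂ) C3.E = (C2.m 0 : ℂ) := C2.trace_next
  rw [C3.trace_E_eq, C3.trace_next, ← Nat.cast_add, Nat.cast_inj, C3.sum_nonzero lvl3_trans hS3 lvl3_cells, k3,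
    one_mul, hm] at t2
  have hn3 := C3.drop_next lvl3_trans hS3 lvl3_cells lvl3_nb h3' (by decide) lvl3_scal k3 (by decide) (by norm_num)
  let C4 := C3.toNext lvl4 lvl4_struct sub34
  have hS4 : C4.AllSmall := C4.allSmall_of_full lvl4_full
  obtain ⟨j4, hj4⟩ : ∃ j : Fin 2, lvl4.A j = lvl3.r := ⟨0, by decide⟩
  have hd4 : drop goodE6 C4.ρ C4.E (lvl4.A j4) =
      (((Fintype.card F - 1) * Fintype.card F ^ (1 + 1) : ℕ) : ℂ) := by
    rw [hj4, show drop goodE6 C4.ρ C4.E lvl3.r = drop goodE6 C3.ρ C3.next lvl3.r from rfl, hn3, sub_eq_iff_eq_add,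
      ← Nat.cast_add, Nat.cast_inj, hm]
    simp only [Nat.add_sub_cancel]
    exact moved3 m
  have k4 := C4.k_eq_one lvl4_trans hS4 lvl4_cells lvl4_nb j4 hd4
  have t3 : LinearMap.trace ℂ (Fin k → ℂ) C4.E = (C3.m 0 : ℂ) := C3.trace_next
  rw [C4.trace_E_eq, C4.trace_next, ← Nat.cast_add, Nat.cast_inj, C4.sum_nonzero lvl4_trans hS4 lvl4_cells, k4,
    one_mul, hm] at t3
  have hn4 := C4.drop_next lvl4_trans hS4 lvl4_cells lvl4_nb h3' (by decide) lvl4_scal k4 (by decide) (by norm_num)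
  let C5 := C4.toNext lvl5 lvl5_struct sub45
  have hS5 : C5.AllSmall := C5.allSmall_of_full lvl5_full
  obtain ⟨j5, hj5⟩ : ∃ j : Fin 1, lvl5.A j = lvl4.r := ⟨0, by decide⟩
  have hd5 : drop goodE6 C5.ρ C5.E (lvl5.A j5) =
      (((Fintype.card F - 1) * Fintype.card F ^ (0 + 1) : ℕ) : ℂ) := by
    rw [hj5, show drop goodE6 C5.ρ C5.E lvl4.r = drop goodE6 C4.ρ C4.next lvl4.r from rfl, hn4, sub_eq_iff_eq_add,
      ← Nat.cast_add, Nat.cast_inj, hm]
    simp only [Nat.add_sub_cancel]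
    exact moved4 m
  have k5 := C5.k_eq_one lvl5_trans hS5 lvl5_cells lvl5_nb j5 hd5
  have t4 : LinearMap.trace ℂ (Fin k → ℂ) C5.E = (C4.m 0 : ℂ) := C4.trace_next
  rw [C5.trace_E_eq, C5.trace_next, ← Nat.cast_add, Nat.cast_inj, C5.sum_nonzero lvl5_trans hS5 lvl5_cells, k5,
    one_mul, hm] at t4
  have := sizes_add m
  rw [hm]
  omega

end Cfsg.Agent.H71.E6Deg
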