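import Cfsg.Agent.H71.E6Deg.Step

/-!
# Counting the occurring parameters of a level
-/

set_option autoImplicit false
set_option linter.unusedSectionVars false
set_option linter.unusedSimpArgs false

open Cfsg.Lie Cfsg.Agent.H46 Cfsg.Agent.H65.Inv Module

namespace Cfsg.Agent.H71.E6Deg

section Lists

variable {F : Type*} [Field F] {n : ℕ}

theorem actV_append : ∀ (l l' : List (Edge n × Fin n)) (v c : Fin n → F),
    actV (l ++ l') v c = actV l v (actV l' v c)
  | [], _, _, _ => rfl
  | (e, k) :: l, l', v, c => by simp [actV, actV_append l l' v c]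

theorem actVinv_eq : ∀ (l : List (Edge n × Fin n)) (v c : Fin n → F), actVinv l v c = actV l.reverse (-v) c
  | [], _, _ => rfl
  | (e, k) :: l, v, c => by
    rw [List.reverse_cons, actV_append, ← actVinv_eq l v]
    simp [actVinv, actV]

theorem actV_filter (p : Fin n → Bool) : ∀ (l : List (Edge n × Fin n)) (v c : Fin n → F),
    (∀ q ∈ l, p q.2 = false → v q.2 = 0) → actV (l.filter fun q => p q.2) v c = actV l v c
  | [], _, _, _ => rfl
  | (e, k) :: l, v, c, h => by
    have ih := actV_filter p l v c fun q hq => h q (List.mem_cons_of_mem _ hq)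
    by_cases hp : p k = true
    · rw [List.filter_cons_of_pos (p := fun q : Edge n × Fin n => p q.2) hp]; simp [actV, ih]
    · rw [List.filter_cons_of_neg (p := fun q : Edge n × Fin n => p q.2) hp, ih]
      simp [actV, h (e, k) List.mem_cons_self (by simpa using hp), act_zero]

theorem Clears.filter {i : Fin n} {l : List (Edge n × Fin n)} (h : Clears i [] l) (p : Fin n → Bool) :
    Clears i [] (l.filter fun q => p q.2) where
  chain q hq := h.chain q (List.mem_filter.1 hq).1
  nodup := h.nodup.sublist (List.filter_sublist.map Prod.snd)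
  feed q hq := h.feed q (List.mem_filter.1 hq).1
  fixed q hq j hj := h.fixed q (List.mem_filter.1 hq).1 j (by
    simp only [List.nil_append, List.mem_cons, List.mem_map] at hj ⊢
    exact hj.imp id fun ⟨a, ha, e⟩ => ⟨a, (List.mem_filter.1 ha).1, e⟩)

theorem closeList_mem_self {α : Type} [BEq α] (step : α → List α) : ∀ (k : ℕ) (l : List α) {x : α},
    x ∈ l → x ∈ closeList step k l
  | 0, _, _, h => h
  | k + 1, _, _, h => closeList_mem_self step k _ (List.mem_append_left _ h)

end Lists

variable {D : ChevalleyDatum} {G : Good D} {n : ℕ} {L : Level n} {F : Type*} [Field F] [Fintype F]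
  {V : Type*} [AddCommGroup V] [Module ℂ V] [FiniteDimensional ℂ V]

/-- The position of the first non-zero coordinate. -/
noncomputable def Level.first [DecidableEq F] (L : Level n) (c : Fin n → F) : ℕ :=
  L.ord.findIdx fun x => decide (c x ≠ 0)

namespace Ctx

variable (C : Ctx L G F V)
include C

/-- The common multiplicity of the occurring parameters. -/
noncomputable def k : ℕ := if h : 0 < n then C.m (Pi.single ⟨0, h⟩ 1) else 0

theorem m_single_eq (hT : L.transOk G = true) (i : Fin n) {u : F} (hu : u ≠ 0) :
    C.m (Pi.single i u) = C.k := by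
  rw [k, dif_pos (lt_of_le_of_lt (Nat.zero_le _) i.2)]
  exact C.m_single hT hu one_ne_zero

variable (hT : L.transOk G = true) (hS : C.AllSmall)

section
include hT hS

/-- The sum of the multiplicities over the parameters with a given pivot and given zeros. -/
theorem sum_cell [DecidableEq F] (i : Fin n) (p : Fin n → Bool) (S : List (Fin n)) (hi : i ∈ S)
    (hSp : ∀ x ∈ S, p x = true)
    (hcl : ∀ q ∈ L.clrR G i, p q.2 = true → ∀ j x N, edge G L.A q.1 j = some (x, N) → x ∈ S → j ∈ S) :
    ∑ c ∈ (Finset.univ.filter fun c : Fin n → F => c i ≠ 0 ∧ ∀ x, p x = false → c x = 0), C.m c =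
      C.k * ((Fintype.card F - 1) * Fintype.card F ^ ((L.clrR G i).filter fun q => p q.2).length) := by
  classical
  set l := L.clrR G i with hl
  set l' := l.filter fun q => p q.2 with hl'
  obtain ⟨hC, hlev⟩ := C.clears i
  have htabs : L.tabs G l' = (L.tabs G l).filter fun q => p q.2 := by
    simp only [hl', Level.tabs, List.filter_map]; rfl
  have hC' : Clears i [] (L.tabs G l') := htabs ▸ hC.filter p
  have hlev' : ∀ q ∈ l', q.1 ∈ L.lev G := fun q hq => hlev q (List.mem_filter.1 hq).1
  set J := (l'.map Prod.snd).toFinset with hJ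
  have hJc : J.card = l'.length := by
    rw [hJ, List.toFinset_card_of_nodup, List.length_map]
    simpa [Level.tabs, Function.comp_def] using hC'.nodup
  have hJm : ∀ x, x ∈ (L.tabs G l').map Prod.snd ↔ x ∈ J := fun x => by
    simp [hJ, Level.tabs]
  let ext : ({x // x ∈ J} → F) → (Fin n → F) := fun w x => if h : x ∈ J then w ⟨x, h⟩ else 0
  let f : {u : F // u ≠ 0} × ({x // x ∈ J} → F) → (Fin n → F) := fun uw =>
    actVinv (L.tabs G l') (ext uw.2) (Pi.single i uw.1.1)
  have hf : ∀ uw, actV (L.tabs G l') (ext uw.2) (f uw) = Pi.single i uw.1.1 := fun uw =>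
    actV_actVinv _ hC'.chain _ _
  have hfi : ∀ uw, f uw i = uw.1.1 := fun uw => by
    rw [← hC'.pivot_eq (ext uw.2) (f uw), hf, Pi.single_eq_same]
  have hinj : Function.Injective f := by
    intro a b h
    have h1 : a.1 = b.1 := Subtype.ext (by rw [← hfi a, ← hfi b, h])
    refine Prod.ext h1 (funext fun x => ?_)
    have := hC'.param_eq (c := f a) (c' := f b) (v := ext a.2) (w := ext b.2) (by rw [h]) (by rw [hfi]; exact a.1.2)
      (fun _ _ => by rw [h]) (fun y _ => by rw [hf, hf, h1]) x.1 ((hJm _).2 x.2)
    simpa [ext, x.2] using this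
  have hm : ∀ uw, C.m (f uw) = C.k := fun uw => by
    rw [C.m_actVinv hlev', C.m_single_eq hT i uw.1.2]
  have hzero : ∀ uw x, x ∉ S → f uw x = 0 := by
    intro uw x hx
    show actVinv _ _ _ x = 0
    rw [actVinv_eq]
    refine actV_support _ S _ _ (fun q hq _ j y N he hy => ?_) (fun y hy => Pi.single_eq_of_ne (by rintro rfl; exact hy hi) _) x hx
    obtain ⟨q0, hq0, rfl⟩ := List.mem_map.1 (List.mem_reverse.1 hq)
    exact hcl q0 (List.mem_filter.1 hq0).1 (List.mem_filter.1 hq0).2 j y N he hy
  rw [← Finset.sum_subset (s₁ := Finset.univ.image f)]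
  · rw [Finset.sum_image fun a _ b _ h => hinj h, Finset.sum_congr rfl fun uw _ => hm uw, Finset.sum_const,
      Finset.card_univ, Fintype.card_prod, smul_eq_mul, mul_comm, Fintype.card_fun, Fintype.card_coe, hJc,
      Fintype.card_subtype_compl, Fintype.card_subtype_eq]
  · intro c hc
    obtain ⟨uw, -, rfl⟩ := Finset.mem_image.1 hc
    refine Finset.mem_filter.2 ⟨Finset.mem_univ _, by rw [hfi]; exact uw.1.2, fun x hx => hzero uw x fun h => ?_⟩
    rw [hSp x h] at hx
    exact Bool.noConfusion hx
  · intro c hc hnot
    by_contra hmc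
    obtain ⟨-, hci, hcp⟩ := Finset.mem_filter.1 hc
    obtain ⟨v, hv⟩ := hS c i hmc hci
    have hv0 : ∀ q ∈ L.tabs G l, p q.2 = false → v q.2 = 0 := by
      intro q hq hp
      obtain ⟨N, hN1, hN⟩ := hC.feed q hq
      have := hC.at_target q hq N hN v c
      rw [hv, hcp _ hp, zero_sub, Pi.single_eq_of_ne (fun e : q.2 = i => hC.pivot_not_mem
        (List.mem_map.2 ⟨q, hq, e⟩)), zero_eq_neg] at this
      simp only [mul_eq_zero, hci, or_false] at this
      refine this.resolve_right ?_
      rcases hN1 with rfl | rfl <;> simp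
    have hv' : actV (L.tabs G l') v c = Pi.single i (c i) := by rw [htabs, actV_filter p _ v c hv0, hv]
    refine hnot (Finset.mem_image.2 ⟨(⟨c i, hci⟩, fun x => v x.1), Finset.mem_univ _, ?_⟩)
    have hext : actV (L.tabs G l') (ext fun x => v x.1) c = Pi.single i (c i) := by
      rw [← hv']
      exact actV_congr _ (fun x hx => by simp [ext, (hJm x).1 hx]) c
    show actVinv _ _ _ = c
    rw [← hext, actVinv_actV _ hC'.chain]

/-- The sum of the multiplicities over the parameters with a given pivot. -/
theorem sum_pivot [DecidableEq F] (i : Fin n) :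
    ∑ c ∈ (Finset.univ.filter fun c : Fin n → F => c i ≠ 0), C.m c =
      C.k * ((Fintype.card F - 1) * Fintype.card F ^ (L.clrR G i).length) := by
  have h := C.sum_cell hT hS i (fun _ => true) (List.finRange n) (List.mem_finRange i) (fun _ _ => rfl)
    (fun _ _ _ j _ _ _ _ => List.mem_finRange j)
  simpa using h

end

section
include hT hS

theorem sum_first [DecidableEq F] (hO : L.cellsOk G = true) {p : ℕ} (hp : p < n) :
    ∑ c ∈ (Finset.univ.filter fun c : Fin n → F => c ≠ 0 ∧ L.first c = p), C.m c =
      C.k * ((Fintype.card F - 1) * Fintype.card F ^ (L.cellExp G).getD p 0) := by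
  classical
  simp only [Level.cellsOk, Bool.and_eq_true, decide_eq_true_eq, List.all_eq_true, List.mem_range,
    List.contains_iff_mem] at hO
  obtain ⟨⟨⟨hnd, hall⟩, hcell⟩, -⟩ := hO
  have hcp := hcell p hp
  have hex : (L.cellExp G).getD p 0 = match L.ord[p]? with
      | none => 0
      | some i => (L.clrLater G p i).length := by
    simp [Level.cellExp, List.getD, hp]
    rfl
  simp only [Level.cellOk] at hcp
  rcases hi : L.ord[p]? with _ | i
  · simp [hi] at hcp
  simp only [hi] at hcp hex
  simp only [Bool.and_eq_true, List.all_eq_true, List.contains_iff_mem, Bool.or_eq_true, Bool.not_eq_true',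
    List.mem_finRange, true_implies] at hcp
  obtain ⟨hpl, hgi⟩ := List.getElem?_eq_some_iff.1 hi
  have hlater : ∀ x, x ∈ L.later p ↔ p ≤ L.ord.idxOf x := by
    intro x
    have hx := hall x (List.mem_finRange x)
    have hxl := List.idxOf_lt_length_iff.2 hx
    simp only [Level.later, List.mem_iff_getElem, List.length_drop, List.getElem_drop]
    constructor
    · rintro ⟨a, ha, he⟩
      rw [← he, hnd.idxOf_getElem _ _]
      omega
    · intro h
      refine ⟨L.ord.idxOf x - p, by omega, ?_⟩
      simp only [show p + (L.ord.idxOf x - p) = L.ord.idxOf x by omega]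
      exact List.getElem_idxOf hxl
  rw [hex, Level.clrLater, ← C.sum_cell hT hS i (fun x => (L.later p).contains x) (L.supp G p i)]
  · refine Finset.sum_congr (Finset.filter_congr fun c _ => ?_) fun _ _ => rfl
    rw [Level.first, List.findIdx_eq hpl]
    simp only [decide_eq_false_iff_not, decide_eq_true_eq, not_not, hgi]
    constructor
    · rintro ⟨-, h1, h2⟩
      refine ⟨h1, fun x hx => ?_⟩
      have hxl := List.idxOf_lt_length_iff.2 (hall x (List.mem_finRange x))
      have hlt : L.ord.idxOf x < p := by
        by_contra hle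
        simp [(hlater x).2 (not_lt.1 hle)] at hx
      have := h2 _ hlt
      rwa [List.getElem_idxOf hxl] at this
    · rintro ⟨h1, h2⟩
      refine ⟨fun h => h1 (by rw [h]; rfl), h1, fun a ha => h2 _ ?_⟩
      simp only [List.contains_eq_mem, decide_eq_false_iff_not, hlater, hnd.idxOf_getElem _ _]
      omega
  · refine closeList_mem_self _ _ _ (List.mem_singleton.2 rfl)
  · intro x hx; simpa using hcp.1 x hx
  · intro q hq hql j x N he hx
    rcases hcp.2 q (List.mem_filter.2 ⟨hq, hql⟩) x hx j with h | h
    · simp [Level.feeds, he] at h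
    · exact h

end

end Ctx

end Cfsg.Agent.H71.E6Deg
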