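import Cfsg.Agent.H71.E6Deg.Lie

/-!
# One level of a chain of abelian radicals: data and checks
-/

set_option autoImplicit false

open Cfsg.Lie Cfsg.Agent.H46 Cfsg.Agent.H65.Inv

namespace Cfsg.Agent.H71.E6Deg

/-- The data of a level. -/
structure Level (n : ℕ) where
  /-- the roots of the radical -/
  A : Fin n → ℕ
  /-- the positive roots of the Levi factor -/
  P : List ℕ
  /-- a root of the Levi factor -/
  r : ℕ
  /-- an order of the coordinates -/
  ord : List (Fin n)
  /-- the number of coordinates moved by the chosen root -/
  src : ℕ
  /-- roots written as commutators -/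
  dec : List (ℕ × ℕ × ℕ)
  /-- roots moved by a torus element -/
  tor : List (ℕ × ℕ)

variable {D : ChevalleyDatum} (G : Good D) {n : ℕ} (L : Level n)

/-- The roots of both signs of the Levi factor. -/
noncomputable def Level.lev : List ℕ := L.P ++ L.P.map (ngb G)

/-- The roots of both signs in the normaliser of the idempotent. -/
noncomputable def Level.amb : List ℕ :=
  (L.P ++ (List.finRange n).map L.A) ++ (L.P ++ (List.finRange n).map L.A).map (ngb G)

/-- The coordinate feeding `j` under `x_s` is `i`. -/
noncomputable def Level.feeds (s : ℕ) (j i : Fin n) : Bool :=
  match edge G L.A s j with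
  | some (k, _) => decide (k = i)
  | none => false

/-- The coordinate `i` feeds no other under `x_s`. -/
noncomputable def Level.fixes (s : ℕ) (i : Fin n) : Bool :=
  (List.finRange n).all fun j => !(L.feeds G s j i)

/-- The roots clearing coordinates from the pivot `i`. -/
noncomputable def Level.clrR (i : Fin n) : List (ℕ × Fin n) :=
  (L.lev G).flatMap fun s => ((List.finRange n).filter fun j => L.feeds G s j i).map fun j => (s, j)

/-- The root `x_s` writes into the pivot `i` and its neighbours only from the neighbours. -/
noncomputable def Level.keepsOk (i : Fin n) (s : ℕ) : Bool :=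
  (i :: (L.clrR G i).map Prod.snd).all fun x =>
    match edge G L.A s x with
    | none => true
    | some (k, _) => ((L.clrR G i).map Prod.snd).contains k

/-- The roots clearing coordinates from `j` and keeping the pivot `i` and its neighbours. -/
noncomputable def Level.clrR2 (i j : Fin n) : List (ℕ × Fin n) :=
  ((L.lev G).filter fun s => L.keepsOk G i s).flatMap fun s =>
    ((List.finRange n).filter fun k => L.feeds G s k j).map fun k => (s, k)

/-- The tables of a list of roots. -/
noncomputable def Level.tabs (l : List (ℕ × Fin n)) : List (Edge n × Fin n) :=
  l.map fun p => (edge G L.A p.1, p.2)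

/-- The check of a clearing list. -/
noncomputable def Level.clearsOk (i : Fin n) (keep : List (Fin n)) (l : List (ℕ × Fin n)) : Bool :=
  decide (l.map Prod.snd).Nodup && l.all fun p => decide (p.1 ∈ L.lev G) &&
    (match edge G L.A p.1 p.2 with
      | some (k, N) => decide (k = i) && decide (N.natAbs = 1)
      | none => false) &&
    (i :: (keep ++ l.map Prod.snd)).all fun j => decide (j = p.2) || (edge G L.A p.1 j).isNone

/-- The structural check of a level. -/
noncomputable def Level.structOk : Bool :=
  vecOk G L.A && (L.lev G).all (fun s => normOk G L.A s) &&
  (List.finRange n).all (fun i => L.clearsOk G i [] (L.clrR G i) &&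
    (List.range D.nroots).any fun s => decide (pr G s (L.A i) = 1))

/-- The closure of a list under a step, with fuel. -/
def closeList {α : Type} [BEq α] (step : α → List α) : ℕ → List α → List α
  | 0, l => l
  | k + 1, l => closeList step k (l ++ ((l.flatMap step).filter fun x => !l.elem x).eraseDups)

theorem closeList_spec {α : Type} [BEq α] [LawfulBEq α] (step : α → List α) (p : α → Prop)
    (hp : ∀ x, p x → ∀ y ∈ step x, p y) : ∀ (k : ℕ) (l : List α), (∀ x ∈ l, p x) → ∀ x ∈ closeList step k l, p x
  | 0, _, h, x, hx => h x hx
  | k + 1, l, h, x, hx => by
    refine closeList_spec step p hp k _ (fun y hy => ?_) x hx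
    rcases List.mem_append.1 hy with hy | hy
    · exact h y hy
    · have hy' : y ∈ ((l.flatMap step).filter fun x => !l.elem x) := by
        revert hy
        generalize ((l.flatMap step).filter fun x => !l.elem x) = m
        intro hy
        exact List.mem_eraseDups.1 hy
      obtain ⟨z, hz, hyz⟩ := List.mem_flatMap.1 (List.mem_filter.1 hy').1
      exact hp z (h z hz) y hyz

/-- The reflections of the Levi factor on coordinates. -/
noncomputable def Level.pivStep (i : Fin n) : List (Fin n) :=
  ((List.range D.rank).filter fun k => L.P.contains (D.simple k)).flatMap fun k =>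
    (List.finRange n).filter fun j => Nat.beq (L.A j) (G.tab.refl k (L.A i)) &&
      (List.finRange n).all fun a => (List.finRange n).any fun b => Nat.beq (L.A b) (G.tab.refl k (L.A a))

/-- The reflections of the normaliser of the idempotent on roots. -/
noncomputable def Level.rootStep (s : ℕ) : List ℕ :=
  if s < D.nroots then
    ((List.range D.rank).filter fun k => (L.P ++ (List.finRange n).map L.A).contains (D.simple k)).map fun k =>
      G.tab.refl k s
  else []

/-- The transitivity checks: all pivots, and the chosen root. -/
noncomputable def Level.transOk : Bool :=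
  decide ((List.finRange n).map L.A).Nodup &&
  match List.finRange n with
  | [] => false
  | i0 :: _ => (List.finRange n).all (fun i => (closeList (L.pivStep G) n [i0]).contains i) &&
      (L.P.isEmpty || (closeList (L.rootStep G) n [L.A i0]).contains L.r)

/-- The coordinates after the position `p` in the order. -/
def Level.later (p : ℕ) : List (Fin n) := L.ord.drop p

/-- The clearing roots of the pivot at `p` with later coordinates. -/
noncomputable def Level.clrLater (p : ℕ) (i : Fin n) : List (ℕ × Fin n) :=
  (L.clrR G i).filter fun q => (L.later p).contains q.2

/-- The support of the parameters of the cell at `p`. -/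
noncomputable def Level.supp (p : ℕ) (i : Fin n) : List (Fin n) :=
  closeList (fun k => ((L.clrLater G p i).flatMap fun q =>
    (List.finRange n).filter fun j => L.feeds G q.1 j k)) 3 [i]

/-- The check of the cell at `p`. -/
noncomputable def Level.cellOk (p : ℕ) : Bool :=
  match L.ord[p]? with
  | none => false
  | some i =>
    (L.supp G p i).all (fun k => (L.later p).contains k) &&
    (L.clrLater G p i).all fun q => (L.supp G p i).all fun k => (List.finRange n).all fun j =>
      !(L.feeds G q.1 j k) || (L.supp G p i).contains j

/-- The check of all cells, and of the coordinates moved by the chosen root. -/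
noncomputable def Level.cellsOk : Bool :=
  decide L.ord.Nodup && (List.finRange n).all (fun i => L.ord.contains i) &&
  (List.range n).all (fun p => L.cellOk G p) &&
  (L.P.isEmpty || (decide (L.r ∈ L.lev G) &&
    (List.finRange n).all fun k => decide ((L.ord.take L.src).contains k = !(L.fixes G L.r k))))

/-- The exponents of the sizes of the cells. -/
noncomputable def Level.cellExp : List ℕ :=
  (List.range n).map fun p => match L.ord[p]? with
    | none => 0
    | some i => (L.clrLater G p i).length

/-- The roots met when carrying the chosen root to the pivot of a cell. -/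
noncomputable def Level.orbT (p : ℕ) (i : Fin n) : List ℕ :=
  closeList (fun τ => (L.clrLater G p i).flatMap fun q => (ct G q.1 τ).map fun c => c.1) 4 [L.r]

/-- A root is written as a commutator of roots fixing the pivot `i`, or moved by a torus fixing it. -/
noncomputable def Level.decOk (useTor : Bool) (τ : ℕ) (i : Fin n) : Bool :=
  (L.dec.any fun d => Nat.beq d.1 τ && decide (d.2.1 ∈ L.lev G) && decide (d.2.2 ∈ L.lev G) &&
    L.fixes G d.2.1 i && L.fixes G d.2.2 i &&
    !(Nat.beq d.2.2 d.2.1) && !(Nat.beq d.2.2 (ngb G d.2.1)) &&
    match ct G d.2.1 d.2.2 with
    | [(c, v, 1, 1)] => decide (c = τ) && decide (v.natAbs = 1)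
    | _ => false) ||
  (useTor && L.tor.any fun d => Nat.beq d.1 τ && decide (d.2 < D.nroots) && decide (pr G d.2 (L.A i) = 0) &&
    (decide (pr G d.2 τ = 1) || decide (pr G d.2 τ = -1)))

/-- The chosen root acts trivially on the fixed parameters. -/
noncomputable def Level.scalOk (useTor : Bool) : Bool :=
  (List.range n).all fun p => decide (p < L.src) ||
    match L.ord[p]? with
    | none => false
    | some i =>
      (L.orbT G p i).contains L.r && (L.orbT G p i).all fun τ => decide (τ ∈ L.lev G) && L.fixes G τ i &&
        L.decOk G useTor τ i &&
        (L.clrLater G p i).all fun q => Nat.beq τ q.1 || (!(Nat.beq τ (ngb G q.1)) &&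
          (ct G q.1 τ).all fun c => (L.orbT G p i).contains c.1)

/-- The second clearing lists have length `nb2`, for all pairs of a pivot and a coordinate out of its reach. -/
noncomputable def Level.bigOk (nb2 : ℕ) : Bool :=
  (List.finRange n).all fun i => (List.finRange n).all fun j =>
    (i :: (L.clrR G i).map Prod.snd).contains j ||
      (L.clearsOk G j [] (L.clrR2 G i j) && (L.clrR2 G i j).all (fun p => L.keepsOk G i p.1 &&
          !((i :: (L.clrR G i).map Prod.snd).contains p.2)) &&
        decide ((L.clrR2 G i j).length = nb2))

/-- The number of coordinates cleared from a pivot. -/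
noncomputable def Level.nbOk (nb : ℕ) : Bool :=
  (List.finRange n).all fun i => decide ((L.clrR G i).length = nb)

/-- No coordinate is out of the reach of a pivot. -/
noncomputable def Level.fullOk : Bool :=
  (List.finRange n).all fun i => (List.finRange n).all fun j => (i :: (L.clrR G i).map Prod.snd).contains j

end Cfsg.Agent.H71.E6Deg
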