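import Cfsg.Agent.H71.E6Deg.Operators
import Cfsg.Agent.H71.E6Deg.Action
import Cfsg.Agent.H46.Simple
import Cfsg.Agent.H65.Inv.Vec
import Mathlib.GroupTheory.NoncommPiCoprod

/-!
# Vector groups of commuting root subgroups of a Chevalley group
-/

set_option autoImplicit false
set_option linter.unusedSectionVars false
set_option linter.unusedSimpArgs false

open Cfsg.Lie Cfsg.Agent.H46 Cfsg.Agent.H65.Inv

namespace Cfsg.Agent.H71.E6Deg

variable {D : ChevalleyDatum} (G : Good D) {n : ℕ}

/-- The image of `x_b` under conjugation by `x_s`: the second root and its coefficient. -/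
noncomputable def edgeTerm (s b : ℕ) : Option (ℕ × ℤ) :=
  match ct G b s with
  | (c, v, _, _) :: _ => some (c, -v)
  | [] => none

/-- The table of `x_s` on the vector group of the roots `A`. -/
noncomputable def edge (A : Fin n → ℕ) (s : ℕ) : Edge n := fun j =>
  match edgeTerm G s (A j) with
  | none => none
  | some (c, v) => ((List.finRange n).find? fun k => Nat.beq (A k) c).map fun k => (k, v)

/-- The root `x_s` normalises the vector group of the roots `A`. -/
noncomputable def normOk (A : Fin n → ℕ) (s : ℕ) : Bool :=
  decide (s < D.nroots) && (List.finRange n).all fun j =>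
    decide (A j < D.nroots) && !(Nat.beq s (A j)) && !(Nat.beq s (ngb G (A j))) &&
      match ct G (A j) s with
      | [] => true
      | [(c, v, 1, 1)] => decide (c < D.nroots) && decide (v.natAbs = 1) && commOk G s c &&
          ((edge G A s j).map fun p => (A p.1, p.2)) == some (c, -v) &&
          (match edge G A s j with
           | some (k, _) => (edge G A s k).isNone
           | none => false)
      | _ => false

/-- The roots of `A` commute and are distinct. -/
noncomputable def vecOk (A : Fin n → ℕ) : Bool :=
  (List.finRange n).all fun i => decide (A i < D.nroots) && (List.finRange n).all fun j => commOk G (A i) (A j)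

variable {F : Type*} [Field F]

theorem commute_xg_of_commOk {r s : ℕ} (hr : r < D.nroots) (hs : s < D.nroots) (h : commOk G r s = true) (t u : F) :
    Commute (G.xg r t) (G.xg s u) := by
  simp only [commOk, Bool.or_eq_true, decide_eq_true_eq, Bool.and_eq_true, List.isEmpty_iff, ct_eq, pr_eq, ngb_eq,
    posB_eq] at h
  rcases h with rfl | ⟨hn, hc⟩
  · show _ = _
    rw [G.xg_add, G.xg_add, add_comm]
  · by_cases hrs : s = r
    · subst hrs
      show _ = _
      rw [G.xg_add, G.xg_add, add_comm]
    · show _ = _
      apply Units.ext
      simp only [Units.val_mul, Good.coe_xg]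
      rw [G.x_mul_x hr hs hrs hn t u]
      simp [ChevalleyDatum.commWord, hc, wordMat_nil]

theorem xG_add (r : ℕ) (t u : F) : G.xG r t * G.xG r u = G.xG r (t + u) := Subtype.ext (G.xg_add r t u)

theorem xG_zero (r : ℕ) : G.xG r (0 : F) = 1 := Subtype.ext (G.xg_zero r)

theorem xG_inv (r : ℕ) (t : F) : (G.xG r t)⁻¹ = G.xG r (-t) := Subtype.ext (G.xg_inv r t)

theorem coe_xG (r : ℕ) (t : F) : ((G.xG r t : ↥(D.group F)) : GL D.Idx F) = G.xg r t := rfl

/-- The root homomorphism. -/
noncomputable def xHom (r : ℕ) : Multiplicative F →* ↥(D.group F) where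
  toFun t := G.xG r t.toAdd
  map_one' := xG_zero G r
  map_mul' t u := (xG_add G r t.toAdd u.toAdd).symm

/-- The product of the root elements of `A`, as a homomorphism of the additive group of vectors. -/
noncomputable def vecHom {A : Fin n → ℕ} (hA : vecOk G A = true) :
    (Fin n → Multiplicative F) →* ↥(D.group F) :=
  MonoidHom.noncommPiCoprod (fun j => xHom G (A j)) fun i j _ x y => Subtype.ext (by
    simp only [vecOk, List.all_eq_true, Bool.and_eq_true, decide_eq_true_eq] at hA
    exact commute_xg_of_commOk G (hA i (List.mem_finRange i)).1 (hA j (List.mem_finRange j)).1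
      ((hA i (List.mem_finRange i)).2 j (List.mem_finRange j)) x.toAdd y.toAdd)

/-- The element of the vector group with coordinates `a`. -/
noncomputable def vecU {A : Fin n → ℕ} (hA : vecOk G A = true) (a : Fin n → F) : ↥(D.group F) :=
  vecHom G hA fun j => Multiplicative.ofAdd (a j)

theorem vecU_add {A : Fin n → ℕ} (hA : vecOk G A = true) (a b : Fin n → F) :
    vecU G hA (a + b) = vecU G hA a * vecU G hA b := by
  rw [vecU, vecU, vecU, ← map_mul]; rfl

theorem vecU_zero {A : Fin n → ℕ} (hA : vecOk G A = true) : vecU G hA (0 : Fin n → F) = 1 := map_one (vecHom G hA)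

theorem vecU_single {A : Fin n → ℕ} (hA : vecOk G A = true) (j : Fin n) (w : F) :
    vecU G hA (Pi.single j w) = G.xG (A j) w := by
  rw [vecU]
  have : (fun k => Multiplicative.ofAdd ((Pi.single j w : Fin n → F) k)) =
      Pi.mulSingle j (Multiplicative.ofAdd w) := by
    funext k
    by_cases h : k = j
    · subst h; simp
    · simp [h]
  rw [this]
  exact MonoidHom.noncommPiCoprod_mulSingle _ j _

/-- Two endomaps agreeing on the single root elements agree on the vector group. -/
theorem vecU_ext {A : Fin n → ℕ} (hA : vecOk G A = true) {g : ↥(D.group F)} (M : (Fin n → F) →+ (Fin n → F))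
    (h : ∀ j w, g * G.xG (A j) w * g⁻¹ = vecU G hA (M (Pi.single j w))) (a : Fin n → F) :
    g * vecU G hA a * g⁻¹ = vecU G hA (M a) := by
  have e : ∀ a : Fin n → F, a ∈ Submodule.span ℕ (Set.range fun p : Fin n × F => (Pi.single p.1 p.2 : Fin n → F)) := by
    intro a
    rw [← Finset.univ_sum_single a]
    exact Submodule.sum_mem _ fun j _ => Submodule.subset_span ⟨(j, a j), rfl⟩
  induction e a using Submodule.span_induction with
  | mem x hx => obtain ⟨p, rfl⟩ := hx; rw [vecU_single, h]
  | zero => rw [map_zero, vecU_zero, mul_one, mul_inv_cancel]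
  | add x y _ _ hx hy =>
    rw [map_add, vecU_add, vecU_add, ← hx, ← hy]
    group
  | smul m x _ hx =>
    induction m with
    | zero => rw [zero_smul, map_zero, vecU_zero, mul_one, mul_inv_cancel]
    | succ m ih =>
      rw [succ_nsmul, map_add, vecU_add, vecU_add, ← ih, ← hx]
      group

/-- `mov` as an additive map. -/
def movHom (e : Edge n) (t : F) : (Fin n → F) →+ (Fin n → F) where
  toFun := mov e t
  map_zero' := by
    funext k
    simp only [mov, Pi.zero_apply]
    rw [Finset.sum_eq_zero (fun j _ => ?_)]
    · ring
    · rcases e j with _ | ⟨k', N⟩ <;> simp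
  map_add' a b := by
    funext k
    simp only [mov, Pi.add_apply]
    have h : ∀ j, (match e j with
        | none => (0 : F)
        | some (k', N) => if k' = k then (N : F) * (a j + b j) else 0) =
      (match e j with
        | none => (0 : F)
        | some (k', N) => if k' = k then (N : F) * a j else 0) + (match e j with
        | none => (0 : F)
        | some (k', N) => if k' = k then (N : F) * b j else 0) := fun j => by
      rcases e j with _ | ⟨k', N⟩
      · simp
      · simp only; split_ifs <;> ring
    have h' := Finset.sum_congr (rfl : (Finset.univ : Finset (Fin n)) = _) fun j _ => h j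
    rw [Finset.sum_add_distrib] at h'
    refine (congrArg (fun z => a k + b k + t * z) h').trans ?_
    ring_nf
    rfl

theorem noChain_edge {A : Fin n → ℕ} {s : ℕ} (h : normOk G A s = true) : NoChain (edge G A s) := by
  intro j k N hj
  simp only [normOk, List.all_eq_true, Bool.and_eq_true, decide_eq_true_eq] at h
  have h' := (h.2 j (List.mem_finRange j)).2
  simp only [edge, edgeTerm] at hj
  split at h' <;> rename_i heq
  · simp [heq] at hj
  · simp only [Bool.and_eq_true] at h'
    have h'' := h'.2
    simp only [edge, edgeTerm, heq] at hj h''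
    rw [hj] at h''
    simp only [Option.isNone_iff_eq_none] at h''
    simpa only [edge, edgeTerm] using h''
  · simp at h'

/-- The conjugation of the vector group by a root element. -/
theorem conj_vecU {A : Fin n → ℕ} (hA : vecOk G A = true) {s : ℕ} (hs : normOk G A s = true) (t : F)
    (a : Fin n → F) : G.xG s t * vecU G hA a * (G.xG s t)⁻¹ = vecU G hA (mov (edge G A s) t a) := by
  refine vecU_ext G hA (movHom (edge G A s) t) (fun j w => ?_) a
  simp only [normOk, List.all_eq_true, Bool.and_eq_true, decide_eq_true_eq, Bool.not_eq_true', ngb_eq] at hs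
  obtain ⟨hsn, hall⟩ := hs
  obtain ⟨⟨⟨hj, hne⟩, hnn⟩, hm⟩ := hall j (List.mem_finRange j)
  have hne' : s ≠ A j := fun e => by simp [e] at hne
  have hnn' : s ≠ D.neg (A j) := fun e => by simp [e] at hnn
  have hmv : ∀ k, mov (edge G A s) t (Pi.single j w) k = (Pi.single j w : Fin n → F) k +
      t * (match edge G A s j with | none => 0 | some (k', N) => if k' = k then (N : F) * w else 0) := by
    intro k
    simp only [mov]
    rw [Finset.sum_eq_single j]
    · rcases edge G A s j with _ | ⟨k', N⟩ <;> simp
    · intro i _ hi
      rcases edge G A s i with _ | ⟨k', N⟩ <;> simp [hi]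
    · intro h; exact absurd (Finset.mem_univ _) h
  have hcomm := G.x_mul_x (F := F) hj hsn hne' hnn' w t
  split at hm <;> rename_i heq
  · have hc : G.xG s t * G.xG (A j) w = G.xG (A j) w * G.xG s t := by
      apply Subtype.ext
      apply Units.ext
      rw [ct_eq] at heq
      simpa [coe_xG, ChevalleyDatum.commWord, heq, wordMat_nil] using hcomm
    have hed : edge G A s j = none := by simp [edge, edgeTerm, heq]
    have hM : movHom (edge G A s) t (Pi.single j w) = Pi.single j w := by
      funext k
      show mov _ _ _ k = _
      rw [hmv, hed, mul_zero, add_zero]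
    rw [hM, vecU_single, hc, mul_inv_cancel_right]
  · rename_i c v
    simp only [Bool.and_eq_true, decide_eq_true_eq, beq_iff_eq] at hm
    obtain ⟨⟨⟨⟨hcn, hv⟩, hsc⟩, hmap⟩, -⟩ := hm
    rcases hed : edge G A s j with _ | ⟨k, N⟩
    · simp [hed] at hmap
    · simp only [hed, Option.map_some, Option.some.injEq, Prod.mk.injEq] at hmap
      obtain ⟨hk, hN⟩ := hmap
      subst hN
      have hM : movHom (edge G A s) t (Pi.single j w) = Pi.single j w + Pi.single k (t * ((-v : ℤ) : F) * w) := by
        funext i
        show mov _ _ _ i = _
        rw [hmv, hed, Pi.add_apply]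
        congr 1
        by_cases hi : k = i
        · subst hi; simp [mul_assoc]
        · simp [hi, Ne.symm hi]
      rw [hM, vecU_add, vecU_single, vecU_single, hk]
      have hc : G.xG s t * G.xG (A j) w = G.xG (A j) w * G.xG s t * G.xG c (t * ((-v : ℤ) : F) * w) := by
        apply Subtype.ext
        apply Units.ext
        rw [ct_eq] at heq
        simp only [ChevalleyDatum.commWord, heq, List.map_cons, List.map_nil, wordMat_cons, wordMat_nil,
          mul_one, pow_one] at hcomm
        simp only [Subgroup.coe_mul, coe_xG, Units.val_mul, Good.coe_xg]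
        rw [hcomm, show (v : F) * -w * t = t * ((-v : ℤ) : F) * w by push_cast; ring]
      have hx : Commute (G.xG s t) (G.xG c (t * ((-v : ℤ) : F) * w)) :=
        Subtype.ext (commute_xg_of_commOk G hsn hcn hsc t _)
      rw [hc, mul_assoc (G.xG (A j) w), hx.eq, ← mul_assoc, mul_inv_cancel_right]
  · simp at hm

end Cfsg.Agent.H71.E6Deg
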