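import Cfsg.Agent.H65.Inv.Rank
import Cfsg.Agent.H46.TypeE6
import Cfsg.Agent.H71.E6Deg.Level

/-!
# Subgroups generated by words in root elements modulo two, enumerated by their matrices of bit masks
-/

set_option autoImplicit false
set_option linter.unusedSectionVars false

open Cfsg.Lie Cfsg.Agent.H46 Cfsg.Agent.H65.Inv
open scoped Matrix

namespace Cfsg.Agent.H71.E6Deg

variable {D : ChevalleyDatum} (G : Good D)

/-- The columns of a product of root elements with parameter one, modulo two. -/
noncomputable def colsW (S : List ℕ) : List ℕ :=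
  (List.range (D.rank + D.nroots)).map fun c => maskV (appW D G.tab (Cfsg.Agent.H65.Twist.constW (oneW S)) (unitV c))

/-- The sum of the columns selected by a mask. -/
def xorBits (A : List ℕ) (b : ℕ) : ℕ := xorL ((List.range A.length).filter (fun i => b.testBit i) |>.map fun i => A.getD i 0)

/-- The product of two matrices of masks. -/
def mulCols (A B : List ℕ) : List ℕ := B.map (xorBits A)

/-- The identity matrix. -/
def idCols (n : ℕ) : List ℕ := (List.range n).map fun c => 2 ^ c

/-- The matrices of the subgroup generated by some words. -/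
noncomputable def genList (gens : List (List ℕ)) (fuel : ℕ) : List (List ℕ) :=
  closeList (fun A => gens.map fun S => mulCols A (colsW G S)) fuel [idCols (D.rank + D.nroots)]

/-- The generated subgroup has exactly `N` elements. -/
noncomputable def genOk (gens : List (List ℕ)) (fuel N : ℕ) : Bool :=
  gens.all (fun S => S.all fun r => decide (r < D.nroots)) &&
  (let L := genList G gens fuel
   L.all (fun A => A.all fun a => decide (a < 2 ^ (D.rank + D.nroots))) &&
   decide L.Nodup && decide (L.length = N) &&
   gens.all fun S => let B := colsW G S; L.all fun A => L.contains (mulCols A B))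

variable {F : Type*} [Field F] [CharP F 2]

/-- The element has the given columns. -/
def Rep (y : GL D.Idx F) (A : List ℕ) : Prop :=
  A.length = D.rank + D.nroots ∧
    ∀ c < D.rank + D.nroots, (y : Matrix D.Idx D.Idx F) *ᵥ bvec D F c = vecM D F (A.getD c 0)

theorem rep_one : Rep (D := D) (1 : GL D.Idx F) (idCols (D.rank + D.nroots)) := by
  refine ⟨by simp [idCols], fun c hc => ?_⟩
  simp [idCols, List.getD, hc, vecM_pow]

theorem rep_prodX {S : List ℕ} (hS : S.all (fun r => decide (r < D.nroots)) = true) :
    Rep (prodX G S : GL D.Idx F) (colsW G S) := by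
  refine ⟨by simp [colsW], fun c hc => ?_⟩
  have hw : okW D (Cfsg.Agent.H65.Twist.constW (oneW S)) = true := by
    simpa [okW, Cfsg.Agent.H65.Twist.constW, oneW, List.all_map, Function.comp_def] using hS
  rw [← wordEl_oneW, Cfsg.Agent.H65.Twist.coe_wordEl, ← evV_single (D := D) (1 : F) 1 c,
    G.evV_appW 1 1 one_ne_zero one_ne_zero _ _ hw]
  simp only [colsW, List.getD, List.getElem?_map, List.getElem?_range hc, Option.map_some, Option.getD_some,
    ← evV_maskV]
  rfl

theorem rep_mul {x y : GL D.Idx F} {A B : List ℕ} (hA : Rep x A) (hB : Rep y B) :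
    Rep (x * y) (mulCols A B) := by
  refine ⟨by simp [mulCols, hB.1], fun c hc => ?_⟩
  rw [Units.val_mul, ← Matrix.mulVec_mulVec, hB.2 c hc]
  have hget : (mulCols A B).getD c 0 = xorBits A (B.getD c 0) := by
    simp [mulCols, List.getD, show c < B.length by rw [hB.1]; exact hc]
  rw [hget, xorBits, vecM_xorL, List.map_map]
  generalize B.getD c 0 = b
  have hv : vecM D F b = (((List.range A.length).filter fun i => b.testBit i).map fun i => bvec D F i).sum := by
    funext z
    rw [vecM, show ∀ L : List (D.Idx → F), L.sum z = (L.map fun f => f z).sum from fun L => by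
      induction L with
      | nil => rfl
      | cons f L ih => simp [ih], List.map_map, Function.comp_def]
    have hz : code D z < A.length := by rw [hA.1]; exact code_lt z
    rw [← List.sum_toFinset _ ((List.nodup_range).filter _), List.toFinset_filter, List.toFinset_range]
    simp only [bvec]
    rw [Finset.sum_ite_eq]
    by_cases hb : b.testBit (code D z) = true
    · simp [hb, hz]
    · simp [hb]
  rw [hv]
  show Matrix.mulVecLin (x : Matrix D.Idx D.Idx F) _ = _
  rw [map_list_sum, List.map_map]
  refine congrArg List.sum (List.map_congr_left fun i hi => ?_)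
  have hi' : i < A.length := List.mem_range.1 (List.mem_filter.1 hi).1
  exact hA.2 i (hA.1 ▸ hi')

theorem rep_unique {x y : GL D.Idx F} {A : List ℕ} (hx : Rep x A) (hy : Rep y A) : x = y := by
  refine Units.ext (ext_bvec (D := D) (F := F) fun c hc => ?_)
  rw [hx.2 c hc, hy.2 c hc]

theorem rep_inj {x : GL D.Idx F} {A B : List ℕ} (hA : Rep x A) (hB : Rep x B)
    (ha : ∀ a ∈ A, a < 2 ^ (D.rank + D.nroots)) (hb : ∀ b ∈ B, b < 2 ^ (D.rank + D.nroots)) : A = B := by
  refine List.ext_getElem (hA.1.trans hB.1.symm) fun c h1 h2 => ?_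
  have h := (hA.2 c (hA.1 ▸ h1)).symm.trans (hB.2 c (hA.1 ▸ h1))
  simp only [List.getD, List.getElem?_eq_getElem h1, List.getElem?_eq_getElem h2, Option.getD_some] at h
  refine Nat.eq_of_testBit_eq fun i => ?_
  by_cases hi : i < D.rank + D.nroots
  · obtain ⟨z, hz⟩ := exists_code_eq (D := D) hi
    have := congrFun h z
    simp only [vecM, hz] at this
    cases hx : A[c].testBit i <;> cases hy : B[c].testBit i <;> simp [hx, hy] at this ⊢
  · have hle : 2 ^ (D.rank + D.nroots) ≤ 2 ^ i := Nat.pow_le_pow_right (by norm_num) (not_lt.1 hi)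
    rw [Nat.testBit_lt_two_pow ((ha _ (List.getElem_mem h1)).trans_le hle),
      Nat.testBit_lt_two_pow ((hb _ (List.getElem_mem h2)).trans_le hle)]

/-- The order of a generated subgroup. -/
theorem card_gen [Finite F] {gens : List (List ℕ)} {fuel N : ℕ} (h : genOk G gens fuel N = true) :
    Nat.card ↥(Subgroup.closure {g : GL D.Idx F | ∃ S ∈ gens, g = prodX G S}) = N := by
  classical
  simp only [genOk, Bool.and_eq_true, decide_eq_true_eq, List.contains_iff_mem] at h
  obtain ⟨hS, ⟨⟨hbnd, hnd⟩, hlen⟩, hcl⟩ := h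
  set H := Subgroup.closure {g : GL D.Idx F | ∃ S ∈ gens, g = prodX G S} with hH
  set L := genList G gens fuel with hL
  simp only [List.all_eq_true, decide_eq_true_eq, List.contains_iff_mem] at hbnd hcl
  have hgen : ∀ S ∈ gens, Rep (prodX G S : GL D.Idx F) (colsW G S) := fun S hS' =>
    rep_prodX G (List.all_eq_true.1 hS S hS')
  have hex : ∀ A ∈ L, ∃ x ∈ H, Rep x A := by
    refine closeList_spec _ (fun A => ∃ x ∈ H, Rep x A) (fun A hA B hB => ?_) fuel _ ?_
    · obtain ⟨x, hx, hxA⟩ := hA
      obtain ⟨S, hS', rfl⟩ := List.mem_map.1 hB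
      exact ⟨x * prodX G S, mul_mem hx (Subgroup.subset_closure ⟨S, hS', rfl⟩), rep_mul hxA (hgen S hS')⟩
    · intro A hA
      obtain rfl := List.mem_singleton.1 hA
      exact ⟨1, one_mem _, rep_one⟩
  have hall : ∀ x ∈ H, ∃ A ∈ L, Rep x A := by
    intro x hx
    rw [← SetLike.mem_coe, ← Subgroup.coe_toSubmonoid, hH,
      Subgroup.closure_toSubmonoid_of_isOfFinOrder fun g _ => isOfFinOrder_of_finite g] at hx
    induction hx using Submonoid.closure_induction_right with
    | one => exact ⟨_, closeList_mem_self' _ _ _ (List.mem_singleton.2 rfl), rep_one⟩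
    | mul_right x hx g hg ih =>
      obtain ⟨S, hS', rfl⟩ := hg
      obtain ⟨A, hA, hxA⟩ := ih
      exact ⟨_, hcl S hS' A hA, rep_mul hxA (hgen S hS')⟩
  choose f hfH hf using hex
  let φ : {A // A ∈ L.toFinset} → ↥H := fun A => ⟨f A.1 (List.mem_toFinset.1 A.2), hfH _ _⟩
  have hbij : Function.Bijective φ := by
    refine ⟨fun A B e => Subtype.ext ?_, fun x => ?_⟩
    · have e' : f A.1 _ = f B.1 _ := congrArg Subtype.val e
      exact rep_inj (hf A.1 (List.mem_toFinset.1 A.2)) (e' ▸ hf B.1 (List.mem_toFinset.1 B.2))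
        (hbnd _ (List.mem_toFinset.1 A.2)) (hbnd _ (List.mem_toFinset.1 B.2))
    · obtain ⟨A, hA, hxA⟩ := hall x x.2
      exact ⟨⟨A, List.mem_toFinset.2 hA⟩, Subtype.ext (rep_unique (hf A hA) hxA)⟩
  rw [← Nat.card_eq_of_bijective φ hbij, Nat.card_eq_fintype_card, Fintype.card_coe,
    List.toFinset_card_of_nodup hnd, hlen]
where
  closeList_mem_self' {α : Type} [BEq α] (step : α → List α) : ∀ (k : ℕ) (l : List α) {x : α},
      x ∈ l → x ∈ closeList step k l
    | 0, _, _, h => h
    | k + 1, _, _, h => closeList_mem_self' step k _ (List.mem_append_left _ h)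

theorem gen31 : genOk goodE6 [[46, 25, 39, 32, 29, 42, 56, 15]] 31 31 = true := by decide +kernel

theorem gen5 : genOk goodE6 [[46, 25, 39, 32, 42, 29]] 5 5 = true := by decide +kernel

theorem gen81 : genOk goodE6 [[46, 25], [42, 29], [55, 16], [47, 24, 47, 43, 28, 43, 57, 14, 57, 66, 5, 66]] 9 81
    = true := by decide +kernel

end Cfsg.Agent.H71.E6Deg
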