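import Cfsg.Agent.H71.E6Deg.Chain
import Cfsg.Agent.H71.E6Deg.Arith
import Cfsg.Agent.H71.E6Deg.Masks
import Cfsg.Agent.H25.CharIntegral
import Cfsg.Agent.H27.DefectZero
import Cfsg.Agent.S1063

/-!
# The smallest degree of a non-trivial complex representation of E6(q)
-/

set_option autoImplicit false
set_option linter.unusedSectionVars false

open Cfsg.Lie Cfsg.Agent.H46 Cfsg.Agent.H65.Inv Module

namespace Cfsg.Agent.H71.E6Deg

variable {F : Type*} [Field F] [Fintype F]

theorem card_dvd_order : Nat.card ↥(chevE6.group F) ∣ Fintype.card F ^ 36 * Arith.ordPrime (Fintype.card F) := by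
  have h := Cfsg.Agent.S1063.result (F := F) (q := Fintype.card F) rfl
  refine ⟨Nat.gcd 3 (Fintype.card F - 1), ?_⟩
  rw [mul_comm (Nat.card _), h, Arith.ordPrime]
  ring

/-- The condition on a list of generators: their roots commute with the root 36. -/
noncomputable def commGens (gens : List (List ℕ)) : Bool :=
  gens.all fun S => S.all fun r => decide (r < chevE6.nroots) && commOk goodE6 r 36

/-- A subgroup of order `N` of the centraliser of a long root element. -/
theorem dvd_card_centralizer [CharP F 2] {gens : List (List ℕ)} {fuel N : ℕ}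
    (h : genOk goodE6 gens fuel N = true) (hc : commGens gens = true) :
    N ∣ Nat.card ↥(Subgroup.centralizer ({goodE6.xG 36 1} : Set ↥(chevE6.group F))) := by
  simp only [commGens, List.all_eq_true, Bool.and_eq_true, decide_eq_true_eq] at hc
  set H := Subgroup.closure {g : GL chevE6.Idx F | ∃ S ∈ gens, g = prodX goodE6 S} with hH
  have hle : H ≤ (Subgroup.centralizer ({goodE6.xG 36 1} : Set ↥(chevE6.group F))).map (chevE6.group F).subtype := by
    rw [hH, Subgroup.closure_le]
    rintro g ⟨S, hS, rfl⟩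
    have hmem : (prodX goodE6 S : GL chevE6.Idx F) ∈ chevE6.group F := Subgroup.list_prod_mem _ fun x hx => by
      obtain ⟨r, -, rfl⟩ := List.mem_map.1 hx
      exact goodE6.xg_mem_group r _
    refine ⟨⟨_, hmem⟩, ?_, rfl⟩
    rw [SetLike.mem_coe, Subgroup.mem_centralizer_singleton_iff]
    refine Subtype.ext ?_
    show prodX goodE6 S * goodE6.xg 36 1 = goodE6.xg 36 1 * prodX goodE6 S
    refine (Commute.list_prod_left _ _ fun x hx => ?_).eq
    obtain ⟨r, hr, rfl⟩ := List.mem_map.1 hx
    exact commute_xg_of_commOk goodE6 (hc S hS r hr).1 (by decide +kernel) (hc S hS r hr).2 _ _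
  have e := Subgroup.card_dvd_of_le hle
  rw [card_gen goodE6 h, Subgroup.card_map_of_injective (chevE6.group F).subtype_injective] at e
  exact e

/-- No prime power making the trace of a long root element a non-integral algebraic integer divides the degree. -/
theorem not_exception [CharP F 2] {k : ℕ} (ρ : Representation ℂ ↥(chevE6.group F) (Fin k → ℂ)) (hρ : ρ.IsIrreducible)
    (hB : Below F k ρ) {p a b N fuel : ℕ} {gens : List (List ℕ)} (hp : p.Prime) (hgen : genOk goodE6 gens fuel N = true)
    (hcm : commGens gens = true) (hN : p ^ a ∣ N)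
    (hG : ¬ p ^ (a + b) ∣ Fintype.card F ^ 36 * Arith.ordPrime (Fintype.card F)) (hk : p ^ b ∣ k)
    (htr : ¬ (p : ℤ) ∣ (k : ℤ) - (Fintype.card F : ℤ) ^ 11) : False := by
  have : ρ.IsIrreducible := hρ
  set z := goodE6.xG 36 (1 : F) with hz
  set Z := Subgroup.centralizer ({z} : Set ↥(chevE6.group F)) with hZ
  have hk0 : k ≠ 0 := by
    have := Cfsg.Agent.H25.finrank_pos_of_isIrreducible ρ
    rw [finrank_fin_fun] at this
    omega
  obtain ⟨c, hc⟩ := hk
  haveI : Fintype ↥(chevE6.group F) := Fintype.ofFinite _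
  have h1 := Cfsg.Agent.H25.isIntegral_classSize_mul_char_div ρ z
  rw [finrank_fin_fun, hB.trace 1 one_ne_zero] at h1
  set T : ℤ := (k : ℤ) - (Fintype.card F : ℤ) ^ 11 with hT
  have h2 : IsIntegral ℤ ((((Z.index : ℤ) * T : ℤ) : ℚ) / ((p ^ b : ℕ) : ℚ)) := by
    refine (isIntegral_algebraMap_iff (R := ℤ) (A := ℚ) (B := ℂ) (algebraMap ℚ ℂ).injective).1 ?_
    have e : algebraMap ℚ ℂ ((((Z.index : ℤ) * T : ℤ) : ℚ) / ((p ^ b : ℕ) : ℚ)) =
        (Z.index : ℂ) * ((k : ℂ) - (Fintype.card F : ℂ) ^ 11) / (k : ℂ) * (c : ℂ) := by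
      have hk' : (k : ℂ) = ((p ^ b : ℕ) : ℂ) * (c : ℂ) := by exact_mod_cast hc
      have hc0 : (c : ℂ) ≠ 0 := by
        intro h
        rw [h, mul_zero] at hk'
        exact hk0 (by exact_mod_cast hk')
      rw [hT, map_div₀, map_natCast, map_intCast]
      push_cast
      rw [hk']
      push_cast
      field_simp
    rw [e]
    exact h1.mul (Cfsg.Agent.H27.isIntegral_natCast _)
  obtain ⟨y, hy⟩ := IsIntegrallyClosed.isIntegral_iff.1 h2
  have hy' : ((p ^ b : ℕ) : ℤ) * y = (Z.index : ℤ) * T := by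
    have hpb : ((p ^ b : ℕ) : ℚ) ≠ 0 := Nat.cast_ne_zero.2 (pow_pos hp.pos b).ne'
    have : ((p ^ b : ℕ) : ℚ) * (y : ℚ) = (((Z.index : ℤ) * T : ℤ) : ℚ) := by
      rw [show (y : ℚ) = algebraMap ℤ ℚ y from rfl, hy, mul_div_cancel₀ _ hpb]
    exact_mod_cast this
  have hdvd : p ^ b ∣ Z.index := by
    have hdT : ((p ^ b : ℕ) : ℤ) ∣ (Z.index : ℤ) * T := ⟨y, hy'.symm⟩
    have hco : IsCoprime ((p ^ b : ℕ) : ℤ) T := by
      push_cast
      exact ((Nat.prime_iff_prime_int.1 hp).coprime_iff_not_dvd.2 htr).pow_left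
    exact Int.natCast_dvd_natCast.1 (hco.dvd_of_dvd_mul_right hdT)
  apply hG
  refine dvd_trans ?_ card_dvd_order
  rw [← Z.card_mul_index, pow_add]
  exact mul_dvd_mul (hN.trans (dvd_card_centralizer hgen hcm)) hdvd

theorem comm31 : commGens [[46, 25, 39, 32, 29, 42, 56, 15]] = true := by decide +kernel

theorem comm5 : commGens [[46, 25, 39, 32, 42, 29]] = true := by decide +kernel

theorem comm81 : commGens [[46, 25], [42, 29], [55, 16], [47, 24, 47, 43, 28, 43, 57, 14, 57, 66, 5, 66]] = true := by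
  decide +kernel

theorem min_degree (k : ℕ) (ρ : Representation ℂ ↥(chevE6.group F) (Fin k → ℂ)) (hρ : ρ.IsIrreducible)
    (hk : 2 ≤ k) : Fintype.card F * (Fintype.card F ^ 6 + Fintype.card F ^ 3 + 1) * (Fintype.card F ^ 4 + 1) ≤ k := by
  show bnd (Fintype.card F) ≤ k
  by_contra hlt
  rcases bound_or_below k ρ hρ hk with h | hB
  · exact hlt h
  push Not at hlt
  have : ρ.IsIrreducible := hρ
  have hd : k ∣ Fintype.card F ^ 36 * Arith.ordPrime (Fintype.card F) := by
    have := Cfsg.Agent.H25.finrank_dvd_card ρ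
    rw [finrank_fin_fun] at this
    exact this.trans card_dvd_order
  have hchar : ∀ {a : ℕ}, Fintype.card F = 2 ^ a → CharP F 2 := by
    intro a ha
    obtain ⟨p, hp⟩ := CharP.exists F
    obtain ⟨n, hpp, hn⟩ := FiniteField.card F p
    rw [ha] at hn
    have h2 : p ∣ 2 ^ a := hn ▸ dvd_pow_self p n.ne_zero
    rw [(Nat.prime_dvd_prime_iff_eq hpp Nat.prime_two).1 (hpp.dvd_of_dvd_pow h2)] at hp
    exact hp
  by_cases h3 : 3 ≤ Fintype.card F
  · obtain ⟨h4, he⟩ := Arith.exception (FiniteField.isPrimePow_card F) h3 hd (hB.all h3) hlt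
    haveI := hchar (a := 2) h4
    have hk4 : k = 4277504 := by
      have h5 : Arith.deg 4 = 4277508 := by decide +kernel
      rw [h4, h5] at he
      omega
    exact not_exception ρ hρ hB (p := 31) (a := 1) (b := 1) (by norm_num) gen31 comm31 (by norm_num)
      (by rw [h4]; decide +kernel) (by rw [hk4]; decide +kernel) (by rw [h4, hk4]; decide +kernel)
  · have h2 : Fintype.card F = 2 := by have := Fintype.one_lt_card (α := F); omega
    haveI := hchar (a := 1) h2
    have hlo : 2450 ≤ k := by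
      have h := hB.two
      rw [h2] at h
      rw [show lvl0.size goodE6 2 16 = lvl0.size goodE6 (1 + 1) 16 from rfl, size0,
        show lvl1.size goodE6 2 10 = lvl1.size goodE6 (1 + 1) 10 from rfl, size1] at h
      norm_num at h
      exact h
    rw [h2] at hd hlt
    rcases Arith.exception_two hd hlo hlt with rfl | rfl | rfl
    · exact not_exception ρ hρ hB (p := 5) (a := 1) (b := 2) (by norm_num) gen5 comm5 (by norm_num)
        (by rw [h2]; decide +kernel) (by norm_num) (by rw [h2]; decide +kernel)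
    · exact not_exception ρ hρ hB (p := 3) (a := 4) (b := 3) (by norm_num) gen81 comm81 (by norm_num)
        (by rw [h2]; decide +kernel) (by norm_num) (by rw [h2]; decide +kernel)
    · exact not_exception ρ hρ hB (p := 31) (a := 1) (b := 1) (by norm_num) gen31 comm31 (by norm_num)
        (by rw [h2]; decide +kernel) (by norm_num) (by rw [h2]; decide +kernel)

end Cfsg.Agent.H71.E6Deg
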