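import Cfsg.Agent.H71.HeisenbergDegree
import Mathlib.LinearAlgebra.Matrix.DotProduct
import Mathlib.Algebra.Group.Commute.Hom
import Mathlib.GroupTheory.Commutator.Basic

/-!
# Isotypic parts of a vector group inside the range of an idempotent operator
-/

set_option autoImplicit false
set_option linter.unusedSectionVars false

open Module LinearMap

namespace Cfsg.Agent.H71.E6Deg

variable {G : Type*} [Group G] {V : Type*} [AddCommGroup V] [Module ℂ V]
  {F : Type*} [Field F] [Fintype F] {n : ℕ}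

/-- An operator on the range of an idempotent together with an action of a vector group. -/
structure Sys (G : Type*) [Group G] (V : Type*) [AddCommGroup V] [Module ℂ V] (F : Type*) [Field F] [Fintype F]
    (n : ℕ) where
  /-- the representation -/
  ρ : G →* End ℂ V
  /-- the vector group -/
  U : (Fin n → F) → G
  U_add : ∀ a b, U (a + b) = U a * U b
  /-- the idempotent -/
  E : End ℂ V
  E_idem : E * E = E
  E_comm : ∀ a, Commute E (ρ (U a))
  /-- the additive character -/
  ψ : AddChar F ℂ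
  ψ_prim : ψ ≠ 1

namespace Sys

variable (S : Sys G V F n)

theorem U_zero : S.U 0 = 1 := by
  have := S.U_add 0 0
  rwa [add_zero, right_eq_mul] at this

/-- The character of the vector group with parameter `c`. -/
noncomputable def chi (c : Fin n → F) : AddChar (Fin n → F) ℂ where
  toFun a := S.ψ (c ⬝ᵥ a)
  map_zero_eq_one' := by simp
  map_add_eq_mul' a b := by rw [dotProduct_add, AddChar.map_add_eq_mul]

theorem chi_apply (c a : Fin n → F) : S.chi c a = S.ψ (c ⬝ᵥ a) := rfl

theorem psi_mul_ne_one {x : F} (hx : x ≠ 0) : S.ψ.mulShift x ≠ 1 := fun h => S.ψ_prim (by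
  ext y
  have := DFunLike.congr_fun h (x⁻¹ * y)
  rwa [AddChar.mulShift_apply, ← mul_assoc, mul_inv_cancel₀ hx, one_mul] at this)

theorem chi_ne_one {c : Fin n → F} (hc : c ≠ 0) : S.chi c ≠ 1 := by
  classical
  obtain ⟨j, hj⟩ := Function.ne_iff.1 hc
  obtain ⟨y, hy⟩ := DFunLike.ne_iff.1 S.ψ_prim
  intro h
  have := DFunLike.congr_fun h (Pi.single j ((c j)⁻¹ * y))
  rw [chi_apply, dotProduct_single, ← mul_assoc, mul_inv_cancel₀ hj, one_mul] at this
  exact hy this

theorem sum_psi_mul (x : F) [Decidable (x = 0)] :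
    ∑ t : F, S.ψ (x * t) = if x = 0 then (Fintype.card F : ℂ) else 0 := by
  split_ifs with h
  · subst h; simp
  · exact (AddChar.sum_eq_zero_iff_ne_zero (ψ := S.ψ.mulShift x)).2 (S.psi_mul_ne_one h)

/-- The number of elements of the vector group. -/
noncomputable def N (_S : Sys G V F n) : ℂ := (Fintype.card (Fin n → F) : ℂ)

theorem N_ne_zero : S.N ≠ 0 := Nat.cast_ne_zero.2 Fintype.card_ne_zero

/-- The projection on the isotypic part of the character with parameter `c` inside the range of `E`. -/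
noncomputable def P (c : Fin n → F) : End ℂ V :=
  S.N⁻¹ • ∑ a, S.chi c (-a) • (S.E * S.ρ (S.U a))

theorem P_mul_rho (c a : Fin n → F) : S.P c * S.ρ (S.U a) = S.chi c a • S.P c := by
  classical
  rw [P, smul_mul_assoc, Finset.sum_mul, smul_comm]
  congr 1
  rw [Finset.smul_sum]
  refine Fintype.sum_bijective (fun b => b + a) (AddGroup.addRight_bijective a) _ _ fun b => ?_
  rw [smul_mul_assoc, mul_assoc, ← map_mul, ← S.U_add, smul_smul, ← AddChar.map_add_eq_mul]
  congr 2
  abel

theorem P_mul_E (c : Fin n → F) : S.P c * S.E = S.P c := by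
  rw [P, smul_mul_assoc, Finset.sum_mul]
  congr 1
  refine Finset.sum_congr rfl fun a _ => ?_
  rw [smul_mul_assoc, mul_assoc, ← (S.E_comm a).eq, ← mul_assoc, S.E_idem]

theorem E_mul_P (c : Fin n → F) : S.E * S.P c = S.P c := by
  rw [P, mul_smul_comm, Finset.mul_sum]
  congr 1
  refine Finset.sum_congr rfl fun a _ => ?_
  rw [mul_smul_comm, ← mul_assoc, S.E_idem]

theorem P_mul_P (c : Fin n → F) : S.P c * S.P c = S.P c := by
  have h : ∀ a, S.chi c (-a) • (S.P c * (S.E * S.ρ (S.U a))) = S.P c := fun a => by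
    rw [← mul_assoc, P_mul_E, P_mul_rho, smul_smul, ← AddChar.map_add_eq_mul, neg_add_cancel,
      AddChar.map_zero_eq_one, one_smul]
  conv_lhs => arg 2; rw [P]
  rw [mul_smul_comm, Finset.mul_sum, Finset.sum_congr rfl fun a _ => by rw [mul_smul_comm, h a],
    Finset.sum_const, Finset.card_univ, ← Nat.cast_smul_eq_nsmul ℂ, smul_smul, show
    (Fintype.card (Fin n → F) : ℂ) = S.N from rfl, inv_mul_cancel₀ S.N_ne_zero, one_smul]

theorem sum_P : ∑ c, S.P c = S.E := by
  classical
  simp only [P, ← Finset.smul_sum]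
  rw [Finset.sum_comm, Finset.sum_eq_single (0 : Fin n → F)]
  · simp only [neg_zero, AddChar.map_zero_eq_one, one_smul, Finset.sum_const, Finset.card_univ, U_zero,
      map_one, mul_one]
    rw [← Nat.cast_smul_eq_nsmul ℂ, smul_smul, show (Fintype.card (Fin n → F) : ℂ) = S.N from rfl,
      inv_mul_cancel₀ S.N_ne_zero, one_smul]
  · intro a _ ha
    rw [← Finset.sum_smul]
    have : ∀ c, S.chi c (-a) = S.chi (-a) c := fun c => by rw [chi_apply, chi_apply, dotProduct_comm]
    rw [Finset.sum_congr rfl fun c _ => this c,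
      (AddChar.sum_eq_zero_iff_ne_zero (ψ := S.chi (-a))).2 (S.chi_ne_one (neg_ne_zero.2 ha)), zero_smul]
  · intro h; exact absurd (Finset.mem_univ _) h

/-- Conjugation by an element normalising the vector group and commuting with the idempotent. -/
theorem P_conj {g : G} (hg : Commute S.E (S.ρ g)) (M : (Fin n → F) → (Fin n → F)) (hM : Function.Bijective M)
    (hconj : ∀ a, g * S.U a * g⁻¹ = S.U (M a)) (c c' : Fin n → F) (hc : ∀ a, c ⬝ᵥ a = c' ⬝ᵥ M a) :
    S.ρ g * S.P c * S.ρ g⁻¹ = S.P c' := by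
  rw [P, P, mul_smul_comm, Finset.mul_sum, smul_mul_assoc, Finset.sum_mul]
  congr 1
  refine Fintype.sum_bijective M hM _ _ fun a => ?_
  rw [mul_smul_comm, smul_mul_assoc, ← mul_assoc, ← hg.eq, mul_assoc, mul_assoc, ← map_mul,
    ← map_mul, ← mul_assoc, hconj]
  congr 1
  rw [AddChar.map_neg_eq_inv, AddChar.map_neg_eq_inv, chi_apply, chi_apply, hc]

/-- The operators of elements commuting with the vector group commute with the projections. -/
theorem commute_P {g : G} (hg : Commute S.E (S.ρ g)) (hU : ∀ a, Commute g (S.U a)) (c : Fin n → F) :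
    Commute (S.P c) (S.ρ g) := by
  rw [P]
  refine Commute.smul_left (Commute.sum_left _ _ _ fun a _ => Commute.smul_left ?_ _) _
  exact hg.mul_left (((hU a).map S.ρ).symm)

theorem commute_P_U (c a : Fin n → F) : Commute (S.P c) (S.ρ (S.U a)) :=
  S.commute_P (S.E_comm a) (fun b => by
    show _ = _
    rw [← S.U_add, ← S.U_add, add_comm]) c

variable [FiniteDimensional ℂ V]

/-- The multiplicity of the character with parameter `c`. -/
noncomputable def mult (c : Fin n → F) : ℕ := finrank ℂ (range (S.P c))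

theorem trace_P (c : Fin n → F) : trace ℂ V (S.P c) = S.mult c :=
  (show IsIdempotentElem (S.P c) from S.P_mul_P c).isProj_range.trace

theorem P_eq_zero {c : Fin n → F} (h : S.mult c = 0) : S.P c = 0 :=
  range_eq_bot.1 (Submodule.finrank_eq_zero.1 h)

theorem trace_E : trace ℂ V S.E = ∑ c, (S.mult c : ℂ) := by
  rw [← S.sum_P, map_sum]; exact Finset.sum_congr rfl fun c _ => S.trace_P c

theorem mult_eq_of_conj {g : G} {c c' : Fin n → F} (h : S.ρ g * S.P c * S.ρ g⁻¹ = S.P c') :
    S.mult c' = S.mult c := by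
  have : ((S.mult c' : ℕ) : ℂ) = S.mult c := by
    rw [← trace_P, ← trace_P, ← h, trace_mul_comm, ← mul_assoc, ← map_mul, inv_mul_cancel, map_one, one_mul]
  exact_mod_cast this

theorem rho_P_of_conj {g : G} {c c' : Fin n → F} (h : S.ρ g * S.P c * S.ρ g⁻¹ = S.P c') :
    S.ρ g * S.P c = S.P c' * S.ρ g := by
  rw [← h, mul_assoc, ← map_mul, inv_mul_cancel, map_one, mul_one]

theorem P_mul_P_of_ne {c c' : Fin n → F} (hne : c ≠ c') : S.P c * S.P c' = 0 := by
  classical
  obtain ⟨a, ha⟩ : ∃ a, S.chi c a ≠ S.chi c' a := by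
    by_contra h
    push Not at h
    refine S.chi_ne_one (sub_ne_zero.2 hne) (DFunLike.ext _ _ fun a => ?_)
    rw [chi_apply, sub_dotProduct, AddChar.map_sub_eq_div, ← chi_apply, ← chi_apply, h a, div_self]
    · rfl
    · intro h0
      have := AddChar.map_add_eq_mul (S.chi c') a (-a)
      rw [add_neg_cancel, AddChar.map_zero_eq_one, h0, zero_mul] at this
      exact one_ne_zero this
  have h1 : S.chi c a • (S.P c * S.P c') = S.chi c' a • (S.P c * S.P c') := by
    rw [← smul_mul_assoc, ← P_mul_rho, mul_assoc, ← (S.commute_P_U c' a).eq, P_mul_rho, mul_smul_comm]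
  rw [← sub_eq_zero, ← sub_smul, smul_eq_zero] at h1
  exact h1.resolve_left (sub_ne_zero.2 ha)

/-- An element moving a character has trace zero on its isotypic part. -/
theorem trace_P_mul_eq_zero {g : G} {c c' : Fin n → F} (h : S.ρ g * S.P c * S.ρ g⁻¹ = S.P c') (hne : c' ≠ c) :
    trace ℂ V (S.P c * S.ρ g) = 0 := by
  conv_lhs => rw [← S.P_mul_P c, mul_assoc]
  rw [trace_mul_comm, mul_assoc, S.rho_P_of_conj h, ← mul_assoc, S.P_mul_P_of_ne hne.symm, zero_mul, map_zero]

end Sys

/-- An operator commuting with an idempotent of trace one acts on it by a scalar. -/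
theorem exists_scalar [FiniteDimensional ℂ V] {P T : End ℂ V} (hP : P * P = P) (h1 : trace ℂ V P = 1)
    (h : Commute P T) : ∃ l : ℂ, P * T = l • P := by
  have hi : IsIdempotentElem P := hP
  have hr : finrank ℂ (range P) = 1 := by
    have := hi.isProj_range.trace
    rw [h1] at this
    exact_mod_cast this.symm
  obtain ⟨⟨v, hv⟩, hv0, hspan⟩ := finrank_eq_one_iff'.1 hr
  have hTv : T v ∈ range P := by
    obtain ⟨w, rfl⟩ := hv
    exact ⟨T w, LinearMap.congr_fun h.eq w⟩
  obtain ⟨l, hl⟩ := hspan ⟨T v, hTv⟩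
  refine ⟨l, LinearMap.ext fun x => ?_⟩
  obtain ⟨m, hm⟩ := hspan ⟨P x, mem_range_self _ _⟩
  have hm' : m • v = P x := congrArg Subtype.val hm
  have hl' : l • v = T v := congrArg Subtype.val hl
  rw [h.eq, End.mul_apply, LinearMap.smul_apply, ← hm', map_smul, ← hl', smul_smul, smul_smul, mul_comm]

/-- The elements fixing an idempotent and acting trivially on its range. -/
def fixGroup (ρ : G →* End ℂ V) (P : End ℂ V) : Subgroup G where
  carrier := {g | Commute P (ρ g) ∧ P * ρ g = P}
  mul_mem' := fun {g h} hg hh => ⟨by rw [map_mul]; exact hg.1.mul_right hh.1,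
    by rw [map_mul, ← mul_assoc, hg.2, hh.2]⟩
  one_mem' := ⟨by rw [map_one]; exact Commute.one_right _, by rw [map_one, mul_one]⟩
  inv_mem' := fun {g} hg => by
    have e : P * ρ g⁻¹ = P := by
      conv_lhs => rw [← hg.2, mul_assoc, ← map_mul, mul_inv_cancel, map_one, mul_one]
    refine ⟨?_, e⟩
    show _ = _
    rw [e]
    conv_rhs => rw [← hg.2, hg.1.eq, ← mul_assoc, ← map_mul, inv_mul_cancel, map_one, one_mul]

theorem mem_fixGroup {ρ : G →* End ℂ V} {P : End ℂ V} {g : G} :
    g ∈ fixGroup ρ P ↔ Commute P (ρ g) ∧ P * ρ g = P := Iff.rfl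

/-- Commutators of elements commuting with an idempotent of trace one act trivially on it. -/
theorem commutator_mem_fixGroup [FiniteDimensional ℂ V] {ρ : G →* End ℂ V} {P : End ℂ V} (hP : P * P = P)
    (h1 : trace ℂ V P = 1) {g h : G} (hg : Commute P (ρ g)) (hh : Commute P (ρ h)) :
    g * h * g⁻¹ * h⁻¹ ∈ fixGroup ρ P := by
  have hinv : ∀ {x : G}, Commute P (ρ x) → Commute P (ρ x⁻¹) := fun {x} hx => by
    show _ = _
    calc P * ρ x⁻¹ = ρ x⁻¹ * ρ x * P * ρ x⁻¹ := by rw [← map_mul, inv_mul_cancel, map_one, one_mul]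
      _ = ρ x⁻¹ * P * (ρ x * ρ x⁻¹) := by rw [mul_assoc (ρ x⁻¹), ← hx.eq]; simp only [mul_assoc]
      _ = ρ x⁻¹ * P := by rw [← map_mul, mul_inv_cancel, map_one, mul_one]
  have hP0 : P ≠ 0 := fun h0 => by rw [h0, map_zero] at h1; exact zero_ne_one h1
  obtain ⟨a, ha⟩ := exists_scalar hP h1 hg
  obtain ⟨b, hb⟩ := exists_scalar hP h1 hh
  obtain ⟨a', ha'⟩ := exists_scalar hP h1 (hinv hg)
  obtain ⟨b', hb'⟩ := exists_scalar hP h1 (hinv hh)
  have key : ∀ {x : G} {l l' : ℂ}, P * ρ x = l • P → P * ρ x⁻¹ = l' • P → l * l' = 1 := by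
    intro x l l' e e'
    have : P = (l * l') • P := by
      calc P = P * ρ x * ρ x⁻¹ := by rw [mul_assoc, ← map_mul, mul_inv_cancel, map_one, mul_one]
        _ = (l * l') • P := by rw [e, smul_mul_assoc, e', smul_smul]
    by_contra hc
    refine hP0 ((smul_eq_zero.1 (?_ : (l * l' - 1) • P = 0)).resolve_left (sub_ne_zero.2 hc))
    rw [sub_smul, one_smul, ← this, sub_self]
  refine ⟨by simp only [map_mul]; exact ((hg.mul_right hh).mul_right (hinv hg)).mul_right (hinv hh), ?_⟩
  simp only [map_mul, ← mul_assoc]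
  simp only [ha, smul_mul_assoc, hb, ha', hb', smul_smul]
  rw [show a * b * a' * b' = (a * a') * (b * b') by ring, key ha ha', key hb hb', one_mul, one_smul]

/-- Conjugation of the fixing groups. -/
theorem fixGroup_conj {ρ : G →* End ℂ V} {P P' : End ℂ V} {h g : G} (hP : ρ h * P * ρ h⁻¹ = P')
    (hg : h⁻¹ * g * h ∈ fixGroup ρ P) : g ∈ fixGroup ρ P' := by
  obtain ⟨hc, he⟩ := hg
  have e1 : ρ h * ρ (h⁻¹ * g * h) = ρ g * ρ h := by rw [← map_mul, ← map_mul]; congr 1; group
  have e2 : ρ (h⁻¹ * g * h) * ρ h⁻¹ = ρ h⁻¹ * ρ g := by rw [← map_mul, ← map_mul]; congr 1; group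
  have a1 : P' * ρ g = P' := by
    rw [← hP, mul_assoc, ← e2, ← mul_assoc, mul_assoc (ρ h), he]
  refine ⟨?_, a1⟩
  show _ = _
  rw [a1]
  conv_rhs => rw [← hP, ← mul_assoc, ← mul_assoc, ← e1, mul_assoc (ρ h), ← hc.eq, he]
  rw [hP]

end Cfsg.Agent.H71.E6Deg
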