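import Cfsg.Agent.H71.E6Deg.Traces

/-!
# The drop of the chosen root of a level
-/

set_option autoImplicit false
set_option linter.unusedSectionVars false
set_option linter.unusedSimpArgs false

open Cfsg.Lie Cfsg.Agent.H46 Cfsg.Agent.H65.Inv Module

namespace Cfsg.Agent.H71.E6Deg

variable {D : ChevalleyDatum} {n : ℕ} {F : Type*} [Field F] [Fintype F]
  {V : Type*} [AddCommGroup V] [Module ℂ V] [FiniteDimensional ℂ V]
  {G : Good D} {L : Level n}

theorem edge_coef {s : ℕ} (h : normOk G L.A s = true) {j k : Fin n} {N : ℤ}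
    (he : edge G L.A s j = some (k, N)) : N = 1 ∨ N = -1 := by
  simp only [normOk, List.all_eq_true, Bool.and_eq_true, decide_eq_true_eq] at h
  have h' := (h.2 j (List.mem_finRange j)).2
  split at h' <;> rename_i heq
  · simp [edge, edgeTerm, heq] at he
  · simp only [he, Option.map_some, Bool.and_eq_true, beq_iff_eq, Option.some.injEq, Prod.mk.injEq,
      decide_eq_true_eq] at h'
    obtain ⟨⟨⟨⟨-, hv⟩, -⟩, -, hN⟩, -⟩ := h'
    omega
  · simp at h'

theorem act_fixed_of_fixes {s : ℕ} {i : Fin n} (h : L.fixes G s i = true) (u t : F) :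
    act (edge G L.A s) t (Pi.single i u) = Pi.single i u := by
  refine act_eq_self _ t fun j k N he => Pi.single_eq_of_ne ?_ _
  rintro rfl
  simp only [Level.fixes, List.all_eq_true] at h
  have := h j (List.mem_finRange j)
  simp [Level.feeds, he] at this

namespace Ctx

variable (C : Ctx L G F V)
include C

/-- A root written as a commutator, or moved by a torus element, of elements fixing a single coordinate lies in
the fixing group of the parameters on that coordinate. -/
theorem xG_mem_fix {useTor : Bool} (htor : useTor = true → 3 ≤ Fintype.card F) {τ : ℕ} {i : Fin n}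
    (hτ : τ ∈ L.lev G) (hfix : L.fixes G τ i = true) (hdec : L.decOk G useTor τ i = true) {u : F}
    (h1 : C.m (Pi.single i u) = 1) (t : F) :
    G.xG τ t ∈ fixGroup C.ρ (C.P (Pi.single i u)) := by
  have hP : C.P (Pi.single i u) * C.P (Pi.single i u) = C.P (Pi.single i u) := C.sys.P_mul_P _
  have htr : LinearMap.trace ℂ V (C.P (Pi.single i u)) = 1 := by
    rw [show C.P (Pi.single i u) = C.sys.P (Pi.single i u) from rfl, C.sys.trace_P]
    exact_mod_cast h1
  have hcx : ∀ s ∈ L.lev G, L.fixes G s i = true → ∀ w : F, Commute (C.P (Pi.single i u)) (C.ρ (G.xG s w)) :=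
    fun s hs hf w => C.commute_P_x hs w (act_fixed_of_fixes hf u w)
  simp only [Level.decOk, Bool.or_eq_true, List.any_eq_true, Bool.and_eq_true, decide_eq_true_eq, Nat.beq_eq,
    Bool.not_eq_true', pr_eq, ngb_eq] at hdec
  rcases hdec with ⟨⟨τ', b, e⟩, -, ⟨⟨⟨⟨⟨⟨rfl, hb⟩, he⟩, hfb⟩, hfe⟩, hne⟩, hnn⟩, hm⟩ |
    ⟨htT, ⟨τ', w⟩, -, ⟨⟨rfl, hw⟩, hp0⟩, hp1⟩
  · have hne' : e ≠ b := fun h => by simp [h] at hne
    have hnn' : e ≠ D.neg b := fun h => by simp [h] at hnn
    split at hm
    · rename_i c v hL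
      simp only [Bool.and_eq_true, decide_eq_true_eq] at hm
      obtain ⟨rfl, hv⟩ := hm
      have hv2 : (v : F) * v = 1 := by rcases Int.natAbs_eq_iff.1 hv with rfl | rfl <;> simp
      rw [ct_eq] at hL
      have hx := G.x_mul_x (F := F) (C.lev_lt hb) (C.lev_lt he) hne' hnn' (-((v : F) * t)) 1
      have hw : G.xG e (1 : F) * G.xG b (-((v : F) * t)) = G.xG b (-((v : F) * t)) * G.xG e 1 * G.xG c t := by
        apply Subtype.ext
        apply Units.ext
        simp only [Subgroup.coe_mul, coe_xG, Units.val_mul, Good.coe_xg, hx, ChevalleyDatum.commWord, hL,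
          List.map_cons, List.map_nil, wordMat_cons, wordMat_nil, mul_one, pow_one, neg_neg, ← mul_assoc, hv2,
          one_mul]
      have hh := commutator_mem_fixGroup (g := G.xG e (-1 : F)) (h := G.xG b ((v : F) * t)) hP htr
        (hcx _ he hfe _) (hcx _ hb hfb _)
      rw [xG_inv, xG_inv, neg_neg, mul_assoc, hw,
        show G.xG e (-1 : F) * G.xG b ((v : F) * t) * (G.xG b (-((v : F) * t)) * G.xG e 1 * G.xG c t) =
          G.xG c t by
          rw [← xG_inv, ← xG_inv]; group] at hh
      exact hh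
    · simp at hm
  · classical
    obtain ⟨x, hx0, hx1⟩ : ∃ x : F, x ≠ 0 ∧ x ≠ 1 := by
      by_contra hc
      push Not at hc
      have : (Finset.univ : Finset F).card ≤ ({0, 1} : Finset F).card := Finset.card_le_card fun x _ => by
        by_cases hx : x = 0
        · simp [hx]
        · simp [hc x hx]
      rw [Finset.card_univ] at this
      exact absurd ((htor htT).trans (this.trans Finset.card_le_two)) (by omega)
    have hcoef : x ^ D.pairing w τ' - 1 ≠ 0 := by
      rcases hp1 with h | h <;> rw [h] <;> simp [sub_eq_zero, hx1, inv_eq_one]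
    have hch : Commute (C.P (Pi.single i u)) (C.ρ (hG G w x)) := by
      have e := C.conj_h hw hx0 (Pi.single i u)
      have : (fun j => (Pi.single i u : Fin n → F) j * x ^ (-D.pairing w (L.A j))) = Pi.single i u := by
        funext j
        by_cases hj : j = i
        · subst hj; simp [hp0]
        · simp [hj]
      rw [this] at e
      exact (C.sys.rho_P_of_conj e).symm
    have hh := commutator_mem_fixGroup (g := hG G w x)
      (h := G.xG τ' (t / (x ^ D.pairing w τ' - 1))) hP htr hch (hcx _ hτ hfix _)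
    have hconj : hG G w x * G.xG τ' (t / (x ^ D.pairing w τ' - 1)) * (hG G w x)⁻¹ =
        G.xG τ' (x ^ D.pairing w τ' * (t / (x ^ D.pairing w τ' - 1))) := by
      apply Subtype.ext
      rw [Subgroup.coe_mul, Subgroup.coe_mul, Subgroup.coe_inv, mul_inv_eq_iff_eq_mul]
      exact G.hg_mul_xg hw (C.lev_lt hτ) hx0 _
    rw [hconj, xG_inv, xG_add, show x ^ D.pairing w τ' * (t / (x ^ D.pairing w τ' - 1)) +
        -(t / (x ^ D.pairing w τ' - 1)) = t by field_simp; ring] at hh
    exact hh

variable (hT : L.transOk G = true) (hS : C.AllSmall)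
include hT hS

/-- The chosen root acts trivially on an occurring parameter that it fixes. -/
theorem fixed_scalar [DecidableEq F] {useTor : Bool} (htor : useTor = true → 3 ≤ Fintype.card F)
    (hO : L.cellsOk G = true) (hsc : L.scalOk G useTor = true) (hk : C.k = 1) {c : Fin n → F}
    (hc : c ≠ 0) (hm : C.m c ≠ 0) (hsrc : ¬ L.first c < L.src) (t : F) :
    C.P c * C.ρ (G.xG L.r t) = C.P c := by
  simp only [Level.cellsOk, Bool.and_eq_true, decide_eq_true_eq, List.all_eq_true, List.mem_range,
    List.contains_iff_mem, List.mem_finRange, true_implies] at hO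
  obtain ⟨⟨⟨hnd, hall⟩, -⟩, -⟩ := hO
  obtain ⟨x0, hx0⟩ := Function.ne_iff.1 hc
  have hlt : L.first c < L.ord.length := by
    rw [Level.first, List.findIdx_lt_length]
    exact ⟨x0, hall x0, decide_eq_true hx0⟩
  have hlen : L.ord.length ≤ n := (hnd.length_le_card).trans_eq (Fintype.card_fin n)
  simp only [Level.scalOk, List.all_eq_true, List.mem_range, Bool.or_eq_true, decide_eq_true_eq] at hsc
  have h := (hsc (L.first c) (by omega)).resolve_left hsrc
  rw [List.getElem?_eq_getElem hlt] at h
  set i := L.ord[L.first c] with hi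
  simp only [Bool.and_eq_true, List.all_eq_true, List.contains_iff_mem, decide_eq_true_eq, Bool.or_eq_true,
    Bool.not_eq_true', ct_eq, ngb_eq, Nat.beq_eq] at h
  obtain ⟨hr, hT'⟩ := h
  have hci : c i ≠ 0 := of_decide_eq_true (List.findIdx_getElem (w := hlt) (p := fun x => decide (c x ≠ 0)))
  obtain ⟨v, hv⟩ := hS c i hm hci
  obtain ⟨hC, hlev⟩ := C.clears i
  have hv0 : ∀ q ∈ L.tabs G (L.clrR G i), (L.later (L.first c)).contains q.2 = false → v q.2 = 0 := by
    intro q hq hp
    obtain ⟨N, hN1, hN⟩ := hC.feed q hq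
    have he := hC.at_target q hq N hN v c
    have hxl := List.idxOf_lt_length_iff.2 (hall q.2)
    have hbef : L.ord.idxOf q.2 < L.first c := by
      by_contra hle
      have : q.2 ∈ L.later (L.first c) := by
        simp only [Level.later, List.mem_iff_getElem, List.length_drop, List.getElem_drop]
        refine ⟨L.ord.idxOf q.2 - L.first c, by omega, ?_⟩
        simp only [show L.first c + (L.ord.idxOf q.2 - L.first c) = L.ord.idxOf q.2 by omega]
        exact List.getElem_idxOf hxl
      simp [this] at hp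
    have hz : c q.2 = 0 := by
      have h0 : decide (c (L.ord[L.ord.idxOf q.2]) ≠ 0) = false := List.not_of_lt_findIdx hbef
      rw [List.getElem_idxOf hxl] at h0
      simpa using h0
    rw [hv, hz, zero_sub, Pi.single_eq_of_ne (fun e : q.2 = i => hC.pivot_not_mem
      (List.mem_map.2 ⟨q, hq, e⟩)), zero_eq_neg] at he
    simp only [mul_eq_zero, hci, or_false] at he
    refine he.resolve_right ?_
    rcases hN1 with rfl | rfl <;> simp
  set l' := L.clrLater G (L.first c) i with hl'
  have hlev' : ∀ q ∈ l', q.1 ∈ L.lev G := fun q hq => hlev q (List.mem_filter.1 hq).1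
  have htabs : L.tabs G l' = (L.tabs G (L.clrR G i)).filter fun q => (L.later (L.first c)).contains q.2 := by
    simp only [hl', Level.clrLater, Level.tabs, List.filter_map]; rfl
  have hv' : actV (L.tabs G l') v c = Pi.single i (c i) := by rw [htabs, actV_filter _ _ v c hv0, hv]
  set g := gEl (G := G) l' v with hg
  have e := C.conj_gEl l' hlev' v c
  rw [hv', ← hg] at e
  have h1 : C.m (Pi.single i (c i)) = 1 := by rw [C.m_single_eq hT i hci, hk]
  set K := fixGroup C.ρ (C.P (Pi.single i (c i))) with hK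
  set H := Subgroup.closure {x : ↥(D.group F) | ∃ τ ∈ L.orbT G (L.first c) i, ∃ w : F, x = G.xG τ w} with hH
  have hHK : H ≤ K := by
    rw [hH, Subgroup.closure_le]
    rintro x ⟨τ, hτ, w, rfl⟩
    exact C.xG_mem_fix htor (hT' τ hτ).1.1.1 (hT' τ hτ).1.1.2 (hT' τ hτ).1.2 h1 w
  have hnorm : ∀ q ∈ l', ∀ (w : F) (x : ↥(D.group F)), x ∈ H → G.xG q.1 w * x * (G.xG q.1 w)⁻¹ ∈ H := by
    intro q hq w x hx
    induction hx using Subgroup.closure_induction with
    | mem x hx =>
      obtain ⟨τ, hτ, a, rfl⟩ := hx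
      have hgen : ∀ (σ : ℕ) (b : F), σ ∈ L.orbT G (L.first c) i → G.xG σ b ∈ H :=
        fun σ b hσ => Subgroup.subset_closure ⟨σ, hσ, b, rfl⟩
      rcases (hT' τ hτ).2 q hq with rfl | ⟨hn, hc'⟩
      · rw [xG_add, xG_inv, xG_add]; exact hgen _ _ hτ
      · have hn' : τ ≠ D.neg q.1 := fun h => by simp [h] at hn
        by_cases hτq : τ = q.1
        · subst hτq
          rw [xG_add, xG_inv, xG_add]; exact hgen _ _ hτ
        · obtain ⟨z, hz, he'⟩ := G.exists_comm (C.lev_lt (hlev' q hq)) (C.lev_lt (hT' τ hτ).1.1.1) hτq hn' (-w) a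
          have hzH : ∃ z' ∈ H, (z' : GL D.Idx F) = z := by
            clear he'
            induction hz using Subgroup.closure_induction with
            | mem y hy => obtain ⟨c', hc'', b, rfl⟩ := hy; exact ⟨_, hgen _ b (hc' c' hc''), rfl⟩
            | one => exact ⟨1, one_mem _, rfl⟩
            | mul y y' _ _ ih ih' =>
              obtain ⟨a, ha, rfl⟩ := ih; obtain ⟨b, hb, rfl⟩ := ih'; exact ⟨a * b, mul_mem ha hb, rfl⟩
            | inv y _ ih => obtain ⟨a, ha, rfl⟩ := ih; exact ⟨a⁻¹, inv_mem ha, rfl⟩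
          obtain ⟨z', hz'H, rfl⟩ := hzH
          have : G.xG q.1 w * G.xG τ a * (G.xG q.1 w)⁻¹ = G.xG τ a * z' := by
            rw [xG_inv, mul_assoc, show G.xG τ a * G.xG q.1 (-w) = G.xG q.1 (-w) * G.xG τ a * z' from Subtype.ext he',
              ← mul_assoc, ← mul_assoc, xG_add, add_neg_cancel, xG_zero, one_mul]
          rw [this]
          exact mul_mem (hgen _ _ hτ) hz'H
    | one => simp
    | mul a b _ _ iha ihb =>
      rw [show G.xG q.1 w * (a * b) * (G.xG q.1 w)⁻¹ =
        (G.xG q.1 w * a * (G.xG q.1 w)⁻¹) * (G.xG q.1 w * b * (G.xG q.1 w)⁻¹) by group]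
      exact mul_mem iha ihb
    | inv a _ ih =>
      rw [show G.xG q.1 w * a⁻¹ * (G.xG q.1 w)⁻¹ = (G.xG q.1 w * a * (G.xG q.1 w)⁻¹)⁻¹ by group]
      exact inv_mem ih
  have hconj : ∀ l : List (ℕ × Fin n), (∀ q ∈ l, q ∈ l') → ∀ x ∈ H, gEl (G := G) l v * x * (gEl (G := G) l v)⁻¹ ∈ H := by
    intro l
    induction l with
    | nil => intro _ x hx; simpa [gEl] using hx
    | cons q l ih =>
      intro hsub x hx
      rw [show gEl (G := G) (q :: l) v = G.xG q.1 (v q.2) * gEl (G := G) l v from rfl,
        show G.xG q.1 (v q.2) * gEl (G := G) l v * x * (G.xG q.1 (v q.2) * gEl (G := G) l v)⁻¹ =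
          G.xG q.1 (v q.2) * (gEl (G := G) l v * x * (gEl (G := G) l v)⁻¹) * (G.xG q.1 (v q.2))⁻¹ by group]
      exact hnorm q (hsub _ List.mem_cons_self) _ _ (ih (fun a ha => hsub a (List.mem_cons_of_mem _ ha)) x hx)
  have hmem := hHK (hconj l' (fun _ h => h) _ (Subgroup.subset_closure ⟨L.r, hr, t, rfl⟩))
  refine ((mem_fixGroup).1 (fixGroup_conj (h := g⁻¹) (P := C.P (Pi.single i (c i))) ?_ (by simpa [← hg] using hmem))).2
  rw [inv_inv, ← e, ← mul_assoc, ← mul_assoc, ← map_mul, inv_mul_cancel, map_one, one_mul, mul_assoc, ← map_mul,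
    inv_mul_cancel, map_one, mul_one]

end Ctx

end Cfsg.Agent.H71.E6Deg
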