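import Cfsg.Agent.H71.E6Deg.Level

/-!
# One level of a chain of abelian radicals: multiplicities and traces
-/

set_option autoImplicit false
set_option linter.unusedSectionVars false
set_option linter.unusedSimpArgs false

open Cfsg.Lie Cfsg.Agent.H46 Cfsg.Agent.H65.Inv Module

namespace Cfsg.Agent.H71.E6Deg

variable {D : ChevalleyDatum} (G : Good D) {n : ℕ} {F : Type*} [Field F] [Fintype F]
  {V : Type*} [AddCommGroup V] [Module ℂ V] [FiniteDimensional ℂ V]

/-- `h_r(c)` in the Chevalley group. -/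
noncomputable def hG (r : ℕ) (c : F) : ↥(D.group F) := ⟨G.hg r c, G.hg_mem_group r c⟩

/-- `n_r(1)` in the Chevalley group. -/
noncomputable def nG (r : ℕ) : ↥(D.group F) := G.xG r 1 * G.xG (D.neg r) (-(1 : F)⁻¹) * G.xG r 1

theorem coe_nG (r : ℕ) : ((nG G r : ↥(D.group F)) : GL D.Idx F) = G.ng r 1 := rfl

/-- An idempotent operator at a level. -/
structure Ctx (L : Level n) (G : Good D) (F : Type*) [Field F] [Fintype F] (V : Type*) [AddCommGroup V]
    [Module ℂ V] where
  /-- the representation -/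
  ρ : ↥(D.group F) →* End ℂ V
  /-- the idempotent -/
  E : End ℂ V
  idem : E * E = E
  comm : ∀ s ∈ L.amb G, ∀ t : F, Commute E (ρ (G.xG s t))
  commH : ∀ (r : ℕ) (c : F), r < D.nroots → c ≠ 0 → Commute E (ρ (hG G r c))
  /-- the additive character -/
  ψ : AddChar F ℂ
  prim : ψ ≠ 1
  struct : L.structOk G = true

variable {G} {L : Level n}

namespace Ctx

variable (C : Ctx L G F V)
include C

theorem struct' : (vecOk G L.A = true ∧ ∀ s ∈ L.lev G, normOk G L.A s = true) ∧
    ∀ i : Fin n, L.clearsOk G i [] (L.clrR G i) = true ∧ ∃ s < D.nroots, D.pairing s (L.A i) = 1 := by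
  have h := C.struct
  simp only [Level.structOk, Bool.and_eq_true, List.all_eq_true, List.any_eq_true, decide_eq_true_eq,
    List.mem_range, pr_eq] at h
  exact ⟨h.1, fun i => h.2 i (List.mem_finRange i)⟩

theorem vec : vecOk G L.A = true := C.struct'.1.1

theorem norm {s : ℕ} (hs : s ∈ L.lev G) : normOk G L.A s = true := C.struct'.1.2 s hs

theorem A_lt (j : Fin n) : L.A j < D.nroots := by
  have h := C.vec
  simp only [vecOk, List.all_eq_true, Bool.and_eq_true, decide_eq_true_eq] at h
  exact (h j (List.mem_finRange j)).1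

theorem lev_lt {s : ℕ} (hs : s ∈ L.lev G) : s < D.nroots := by
  have h := C.norm hs
  simp only [normOk, Bool.and_eq_true, decide_eq_true_eq] at h
  exact h.1

omit C in
theorem lev_amb {s : ℕ} (hs : s ∈ L.lev G) : s ∈ L.amb G := by
  simp only [Level.lev, Level.amb, List.mem_append, List.mem_map, List.map_append] at hs ⊢
  rcases hs with h | h
  · exact Or.inl (Or.inl h)
  · exact Or.inr (Or.inl h)

omit C in
theorem A_amb (j : Fin n) : L.A j ∈ L.amb G := by
  simp only [Level.amb, List.mem_append, List.mem_map]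
  exact Or.inl (Or.inr ⟨j, List.mem_finRange j, rfl⟩)

theorem comm_vec (a : Fin n → F) : Commute C.E (C.ρ (vecU G C.vec a)) := by
  have e : ∀ a : Fin n → F, a ∈ Submodule.span ℕ (Set.range fun p : Fin n × F => (Pi.single p.1 p.2 : Fin n → F)) := by
    intro a
    rw [← Finset.univ_sum_single a]
    exact Submodule.sum_mem _ fun j _ => Submodule.subset_span ⟨(j, a j), rfl⟩
  induction e a using Submodule.span_induction with
  | mem x hx => obtain ⟨p, rfl⟩ := hx; rw [vecU_single]; exact C.comm _ (A_amb p.1) _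
  | zero => rw [vecU_zero, map_one]; exact Commute.one_right _
  | add x y _ _ hx hy => rw [vecU_add, map_mul]; exact hx.mul_right hy
  | smul m x _ hx =>
    induction m with
    | zero => rw [zero_smul, vecU_zero, map_one]; exact Commute.one_right _
    | succ m ih => rw [succ_nsmul, vecU_add, map_mul]; exact ih.mul_right hx

/-- The system of the level. -/
noncomputable def sys : Sys ↥(D.group F) V F n where
  ρ := C.ρ
  U := vecU G C.vec
  U_add := vecU_add G C.vec
  E := C.E
  E_idem := C.idem
  E_comm := C.comm_vec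
  ψ := C.ψ
  ψ_prim := C.prim

/-- The multiplicity of a parameter. -/
noncomputable def m (c : Fin n → F) : ℕ := C.sys.mult c

/-- The isotypic projection of a parameter. -/
noncomputable def P (c : Fin n → F) : End ℂ V := C.sys.P c

theorem conj_x {s : ℕ} (hs : s ∈ L.lev G) (t : F) (c : Fin n → F) :
    C.ρ (G.xG s t) * C.P c * C.ρ (G.xG s t)⁻¹ = C.P (act (edge G L.A s) t c) := by
  refine C.sys.P_conj (C.comm s (lev_amb hs) t) (mov (edge G L.A s) t) (Finite.injective_iff_bijective.1 ?_)
    (conj_vecU G C.vec (C.norm hs) t) c _ (fun a => (act_dot (noChain_edge G (C.norm hs)) t c a).symm)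
  intro a b h
  have h0 : ∀ x : Fin n → F, dotProduct x (a - b) = 0 := fun x => by
    rw [← act_dot (noChain_edge G (C.norm hs)) t x (a - b), show mov (edge G L.A s) t (a - b) = 0 by
      rw [← show movHom (edge G L.A s) t (a - b) = mov (edge G L.A s) t (a - b) from rfl, map_sub]
      exact sub_eq_zero.2 h, dotProduct_zero]
  funext j
  have := h0 (Pi.single j 1)
  rwa [single_one_dotProduct, Pi.sub_apply, sub_eq_zero] at this

theorem m_act {s : ℕ} (hs : s ∈ L.lev G) (t : F) (c : Fin n → F) :
    C.m (act (edge G L.A s) t c) = C.m c :=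
  C.sys.mult_eq_of_conj (C.conj_x hs t c)

theorem commute_P_x {s : ℕ} (hs : s ∈ L.lev G) (t : F) {c : Fin n → F} (h : act (edge G L.A s) t c = c) :
    Commute (C.P c) (C.ρ (G.xG s t)) := by
  have e := C.conj_x hs t c
  rw [h] at e
  exact (C.sys.rho_P_of_conj e).symm

theorem conj_h {r : ℕ} (hr : r < D.nroots) {w : F} (hw : w ≠ 0) (c : Fin n → F) :
    C.ρ (hG G r w) * C.P c * C.ρ (hG G r w)⁻¹ =
      C.P (fun j => c j * w ^ (-D.pairing r (L.A j))) := by
  let M : (Fin n → F) →+ (Fin n → F) :=
    { toFun := fun a j => w ^ D.pairing r (L.A j) * a j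
      map_zero' := by funext j; simp
      map_add' := fun a b => by funext j; simp [mul_add] }
  refine C.sys.P_conj (C.commH r w hr hw) M (Finite.injective_iff_bijective.1 fun a b h => funext fun j =>
    mul_left_cancel₀ (zpow_ne_zero _ hw) (congrFun h j)) (vecU_ext G C.vec M fun j v => ?_) c _ fun a => ?_
  · have : M (Pi.single j v) = Pi.single j (w ^ D.pairing r (L.A j) * v) := by
      funext i
      show w ^ D.pairing r (L.A i) * (Pi.single j v : Fin n → F) i = _
      by_cases hi : i = j
      · subst hi; simp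
      · simp [hi]
    rw [this, vecU_single]
    apply Subtype.ext
    rw [Subgroup.coe_mul, Subgroup.coe_mul, Subgroup.coe_inv, mul_inv_eq_iff_eq_mul]
    exact G.hg_mul_xg hr (C.A_lt j) hw v
  · simp only [dotProduct]
    refine Finset.sum_congr rfl fun j _ => ?_
    show c j * a j = c j * w ^ (-D.pairing r (L.A j)) * (w ^ D.pairing r (L.A j) * a j)
    rw [zpow_neg, mul_assoc, inv_mul_cancel_left₀ (zpow_ne_zero _ hw)]

theorem m_scale {r : ℕ} (hr : r < D.nroots) {w : F} (hw : w ≠ 0) (c : Fin n → F) :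
    C.m (fun j => c j * w ^ (-D.pairing r (L.A j))) = C.m c :=
  C.sys.mult_eq_of_conj (C.conj_h hr hw c)

theorem comm_nG {k : ℕ} (hk : D.simple k ∈ L.P ++ (List.finRange n).map L.A) :
    Commute C.E (C.ρ (nG G (D.simple k))) := by
  have h1 : D.simple k ∈ L.amb G := List.mem_append_left _ hk
  have h2 : D.neg (D.simple k) ∈ L.amb G := List.mem_append_right _ (List.mem_map.2 ⟨_, hk, ngb_eq G _⟩)
  rw [nG, map_mul, map_mul]
  exact ((C.comm _ h1 _).mul_right (C.comm _ h2 _)).mul_right (C.comm _ h1 _)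

omit C in
theorem nG_conj {k s : ℕ} (hk : k < D.rank) (hs : s < D.nroots) (t : F) :
    nG G (D.simple k) * G.xG s t * (nG G (D.simple k))⁻¹ = G.xG (G.tab.refl k s) ((G.tab.eta k s : F) * t) := by
  apply Subtype.ext
  rw [Subgroup.coe_mul, Subgroup.coe_mul, Subgroup.coe_inv, coe_nG, coe_xG, coe_xG, mul_inv_eq_iff_eq_mul]
  rw [G.ng_simple_mul_xg hk hs t, G.refl_eq hk hs]

/-- The coordinates of the pivots are exchanged by reflections, up to sign. -/
theorem m_pivStep {i j : Fin n} (hj : j ∈ L.pivStep G i) (hA : Function.Injective L.A) :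
    ∀ u : F, u ≠ 0 → ∃ u' : F, u' ≠ 0 ∧ C.m (Pi.single j u') = C.m (Pi.single i u) := by
  classical
  simp only [Level.pivStep, List.mem_flatMap, List.mem_filter, List.mem_range, Bool.and_eq_true,
    List.all_eq_true, List.any_eq_true, Nat.beq_eq, List.contains_iff_mem] at hj
  obtain ⟨k, ⟨hk, hkP⟩, -, hij, hall⟩ := hj
  have hex : ∀ a, ∃ b, L.A b = G.tab.refl k (L.A a) := fun a => by
    obtain ⟨b, -, hb⟩ := hall a (List.mem_finRange a); exact ⟨b, hb⟩
  choose σ hσ using hex
  have heta : ∀ a : Fin n, (G.tab.eta k (L.A a) : F) * (G.tab.eta k (L.A a) : F) = 1 := fun a => by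
    simpa using G.eta_cast_sq (F := F) k (L.A a)
  let M : (Fin n → F) →+ (Fin n → F) :=
    { toFun := fun a b => ∑ x : Fin n, if σ x = b then (G.tab.eta k (L.A x) : F) * a x else 0
      map_zero' := by funext b; simp
      map_add' := fun a a' => by
        funext b
        simp only [Pi.add_apply, ← Finset.sum_add_distrib]
        refine Finset.sum_congr rfl fun x _ => ?_
        split_ifs <;> ring }
  have hconj : ∀ a : Fin n → F, nG G (D.simple k) * vecU G C.vec a * (nG G (D.simple k))⁻¹ = vecU G C.vec (M a) := by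
    refine vecU_ext G C.vec M fun a v => ?_
    have hM : M (Pi.single a v) = Pi.single (σ a) ((G.tab.eta k (L.A a) : F) * v) := by
      funext b
      show (∑ x : Fin n, if σ x = b then (G.tab.eta k (L.A x) : F) * (Pi.single a v : Fin n → F) x else 0) = _
      rw [Finset.sum_eq_single a]
      · by_cases h : σ a = b
        · subst h; simp
        · simp [h, Ne.symm h]
      · intro x _ hx; simp [hx]
      · intro h; exact absurd (Finset.mem_univ _) h
    rw [hM, vecU_single, nG_conj hk (C.A_lt a), hσ]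
  have hσinj : Function.Injective σ := by
    intro a b h
    have h1 := nG_conj (G := G) (F := F) hk (C.A_lt a) 1
    have e : G.tab.refl k (L.A a) = G.tab.refl k (L.A b) := by rw [← hσ, ← hσ, h]
    rw [G.refl_eq hk (C.A_lt a), G.refl_eq hk (C.A_lt b)] at e
    exact hA (congrArg Fin.val ((G.sPerm ⟨k, hk⟩).injective (a₁ := ⟨L.A a, C.A_lt a⟩) (a₂ := ⟨L.A b, C.A_lt b⟩)
      (Fin.ext (by rw [G.sPerm_apply, G.sPerm_apply]; exact e))))
  have hval : ∀ (a : Fin n → F) (x : Fin n), M a (σ x) = (G.tab.eta k (L.A x) : F) * a x := by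
    intro a x
    show (∑ y : Fin n, if σ y = σ x then (G.tab.eta k (L.A y) : F) * a y else 0) = _
    rw [Finset.sum_eq_single x]
    · simp
    · intro y _ hy; rw [if_neg fun h => hy (hσinj h)]
    · intro h; exact absurd (Finset.mem_univ _) h
  have hbij : Function.Bijective M := Finite.injective_iff_bijective.1 fun a b h => funext fun x => by
    have := congrFun h (σ x)
    rw [hval, hval] at this
    exact mul_left_cancel₀ (left_ne_zero_of_mul_eq_one (heta x)) this
  intro u hu
  have hj' : j = σ i := hA (by rw [hij, hσ])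
  refine ⟨(G.tab.eta k (L.A i) : F) * u, mul_ne_zero (left_ne_zero_of_mul_eq_one (heta i)) hu, ?_⟩
  refine C.sys.mult_eq_of_conj (C.sys.P_conj (C.comm_nG (List.mem_append_left _ hkP)) M hbij hconj
    (Pi.single i u) _ fun a => ?_)
  rw [single_dotProduct, single_dotProduct, hj', hval]
  linear_combination (-u * a i) * heta i

/-- The common multiplicity of the parameters on a single coordinate. -/
theorem m_single (hT : L.transOk G = true) {i j : Fin n} {u v : F} (hu : u ≠ 0) (hv : v ≠ 0) :
    C.m (Pi.single i u) = C.m (Pi.single j v) := by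
  classical
  simp only [Level.transOk, Bool.and_eq_true, decide_eq_true_eq] at hT
  obtain ⟨hnd, hT⟩ := hT
  have hA : Function.Injective L.A := fun a b h =>
    List.inj_on_of_nodup_map hnd (List.mem_finRange a) (List.mem_finRange b) h
  have hscale : ∀ (i : Fin n) (u v : F), u ≠ 0 → v ≠ 0 → C.m (Pi.single i u) = C.m (Pi.single i v) := by
    intro i u v hu hv
    obtain ⟨s, hs, hp⟩ := (C.struct'.2 i).2
    rw [← C.m_scale hs (div_ne_zero hu hv) (Pi.single i u)]
    congr 1
    funext a
    by_cases ha : a = i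
    · subst ha
      simp [hp]
      field_simp
    · simp [ha]
  split at hT
  · simp at hT
  · rename_i i0 rest _
    simp only [Bool.and_eq_true, List.all_eq_true, List.contains_iff_mem] at hT
    have key : ∀ i : Fin n, C.m (Pi.single i (1 : F)) = C.m (Pi.single i0 (1 : F)) := by
      intro i
      refine closeList_spec (L.pivStep G) (fun i => C.m (Pi.single i (1 : F)) = C.m (Pi.single i0 (1 : F)))
        (fun a ha b hb => ?_) n [i0] (by simp) i (hT.1 i (List.mem_finRange i))
      obtain ⟨u', hu', e⟩ := C.m_pivStep hb hA 1 one_ne_zero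
      rw [hscale b 1 u' one_ne_zero hu', e, ha]
    rw [hscale i u 1 hu one_ne_zero, hscale j v 1 hv one_ne_zero, key i, key j]

theorem clears_of_ok {i : Fin n} {keep : List (Fin n)} {l : List (ℕ × Fin n)}
    (h : L.clearsOk G i keep l = true) : Clears i keep (L.tabs G l) ∧ ∀ p ∈ l, p.1 ∈ L.lev G := by
  have hm : (L.tabs G l).map Prod.snd = l.map Prod.snd := by simp [Level.tabs, Function.comp_def]
  simp only [Level.clearsOk, Bool.and_eq_true, decide_eq_true_eq, List.all_eq_true, Bool.or_eq_true,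
    Option.isNone_iff_eq_none] at h
  obtain ⟨hnd, hall⟩ := h
  refine ⟨⟨?_, hm.symm ▸ hnd, ?_, ?_⟩, fun p hp => (hall p hp).1.1⟩
  · intro q hq
    obtain ⟨p, hp, rfl⟩ := List.mem_map.1 hq
    exact noChain_edge G (C.norm (hall p hp).1.1)
  · intro q hq
    obtain ⟨p, hp, rfl⟩ := List.mem_map.1 hq
    have h2 := (hall p hp).1.2
    show ∃ N : ℤ, _ ∧ edge G L.A p.1 p.2 = some (i, N)
    rcases he : edge G L.A p.1 p.2 with _ | ⟨k, N⟩
    · rw [he] at h2; simp at h2
    · rw [he] at h2
      simp only [Bool.and_eq_true, decide_eq_true_eq] at h2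
      obtain ⟨rfl, hN⟩ := h2
      exact ⟨N, by omega, rfl⟩
  · intro q hq j hj hne
    rw [hm] at hj
    obtain ⟨p, hp, rfl⟩ := List.mem_map.1 hq
    exact ((hall p hp).2 j hj).resolve_left hne

theorem clears (i : Fin n) : Clears i [] (L.tabs G (L.clrR G i)) ∧ ∀ p ∈ L.clrR G i, p.1 ∈ L.lev G :=
  C.clears_of_ok (C.struct'.2 i).1

omit C in
/-- The group element of a list of roots with parameters. -/
noncomputable def gEl : List (ℕ × Fin n) → (Fin n → F) → ↥(D.group F)
  | [], _ => 1
  | (s, k) :: l, v => G.xG s (v k) * gEl l v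

theorem conj_gEl : ∀ (l : List (ℕ × Fin n)), (∀ p ∈ l, p.1 ∈ L.lev G) → ∀ (v c : Fin n → F),
    C.ρ (gEl (G := G) l v) * C.P c * C.ρ (gEl (G := G) l v)⁻¹ = C.P (actV (L.tabs G l) v c)
  | [], _, v, c => by simp [gEl, Level.tabs, actV]
  | (s, k) :: l, h, v, c => by
    simp only [gEl, Level.tabs, List.map_cons, actV, mul_inv_rev, map_mul]
    rw [show C.ρ (G.xG s (v k)) * C.ρ (gEl (G := G) l v) * C.P c *
        (C.ρ (gEl (G := G) l v)⁻¹ * C.ρ (G.xG s (v k))⁻¹) =
      C.ρ (G.xG s (v k)) * (C.ρ (gEl (G := G) l v) * C.P c * C.ρ (gEl (G := G) l v)⁻¹) * C.ρ (G.xG s (v k))⁻¹ by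
      simp only [mul_assoc], conj_gEl l (fun p hp => h p (List.mem_cons_of_mem _ hp)) v c]
    exact C.conj_x (h _ List.mem_cons_self) (v k) _

theorem m_actV {l : List (ℕ × Fin n)} (h : ∀ p ∈ l, p.1 ∈ L.lev G) (v c : Fin n → F) :
    C.m (actV (L.tabs G l) v c) = C.m c :=
  C.sys.mult_eq_of_conj (C.conj_gEl l h v c)

theorem m_actVinv {l : List (ℕ × Fin n)} (h : ∀ p ∈ l, p.1 ∈ L.lev G) (v c : Fin n → F) :
    C.m (actVinv (L.tabs G l) v c) = C.m c := by
  conv_rhs => rw [← actV_actVinv (L.tabs G l) (fun q hq => by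
    obtain ⟨p, hp, rfl⟩ := List.mem_map.1 hq
    exact noChain_edge G (C.norm (h p hp))) v c, C.m_actV h]

/-- A parameter is carried to a single coordinate by the clearing of a pivot. -/
def Small (C : Ctx L G F V) (i : Fin n) (c : Fin n → F) : Prop :=
  ∃ v : Fin n → F, actV (L.tabs G (L.clrR G i)) v c = Pi.single i (c i)

/-- All occurring parameters are small. -/
def AllSmall : Prop := ∀ c i, C.m c ≠ 0 → c i ≠ 0 → C.Small i c

end Ctx

end Cfsg.Agent.H71.E6Deg
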