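import Cfsg.Agent.H71.E6Deg.Split

/-!
# The totals of a level
-/

set_option autoImplicit false
set_option linter.unusedSectionVars false
set_option linter.unusedSimpArgs false

open Cfsg.Lie Cfsg.Agent.H46 Cfsg.Agent.H65.Inv Module

namespace Cfsg.Agent.H71.E6Deg

variable {D : ChevalleyDatum} {n : ℕ} {F : Type*} [Field F] [Fintype F]
  {V : Type*} [AddCommGroup V] [Module ℂ V] [FiniteDimensional ℂ V]
  {G : Good D} {L : Level n}

/-- The size of the orbit in the first `p` cells, for a field of `q` elements. -/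
noncomputable def Level.size (L : Level n) (G : Good D) (q p : ℕ) : ℕ :=
  ∑ a ∈ Finset.range p, (q - 1) * q ^ (L.cellExp G).getD a 0

namespace Ctx

variable (C : Ctx L G F V) (hT : L.transOk G = true) (hS : C.AllSmall) (hO : L.cellsOk G = true)
include C

include hO in
theorem ord_facts : L.ord.Nodup ∧ (∀ x, x ∈ L.ord) ∧ L.ord.length = n := by
  simp only [Level.cellsOk, Bool.and_eq_true, decide_eq_true_eq, List.all_eq_true, List.contains_iff_mem] at hO
  obtain ⟨⟨⟨hnd, hall⟩, -⟩, -⟩ := hO
  refine ⟨hnd, fun x => hall x (List.mem_finRange x), le_antisymm (hnd.length_le_card.trans_eq (Fintype.card_fin n)) ?_⟩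
  have : L.ord.toFinset = Finset.univ :=
    Finset.eq_univ_iff_forall.2 fun x => List.mem_toFinset.2 (hall x (List.mem_finRange x))
  have := congrArg Finset.card this
  rw [List.toFinset_card_of_nodup hnd, Finset.card_univ, Fintype.card_fin] at this
  omega

include hT hS hO

theorem sum_below [DecidableEq F] {p : ℕ} (hp : p ≤ n) :
    ∑ c ∈ (Finset.univ.filter fun c : Fin n → F => c ≠ 0 ∧ L.first c < p), C.m c =
      C.k * L.size G (Fintype.card F) p := by
  induction p with
  | zero => simp [Level.size]
  | succ p ih =>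
    rw [Level.size, Finset.sum_range_succ, mul_add, ← C.sum_first hT hS hO (by omega : p < n),
      show ∑ a ∈ Finset.range p, (Fintype.card F - 1) * Fintype.card F ^ (L.cellExp G).getD a 0 =
        L.size G (Fintype.card F) p from rfl, ← ih (by omega), ← Finset.sum_union]
    · refine Finset.sum_congr ?_ fun _ _ => rfl
      ext c
      simp only [Finset.mem_union, Finset.mem_filter, Finset.mem_univ, true_and, Nat.lt_succ_iff_lt_or_eq]
      tauto
    · rw [Finset.disjoint_left]
      intro c h h'
      simp only [Finset.mem_filter, Finset.mem_univ, true_and] at h h'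
      omega

theorem first_lt [DecidableEq F] {c : Fin n → F} (hc : c ≠ 0) : L.first c < n := by
  obtain ⟨-, hall, hlen⟩ := C.ord_facts hO
  obtain ⟨x0, hx0⟩ := Function.ne_iff.1 hc
  refine lt_of_lt_of_eq ?_ hlen
  rw [Level.first, List.findIdx_lt_length]
  exact ⟨x0, hall x0, decide_eq_true hx0⟩

theorem sum_nonzero [DecidableEq F] :
    ∑ c ∈ (Finset.univ.filter fun c : Fin n → F => c ≠ 0), C.m c = C.k * L.size G (Fintype.card F) n := by
  rw [← C.sum_below hT hS hO le_rfl]
  refine Finset.sum_congr (Finset.filter_congr fun c _ => ?_) fun _ _ => rfl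
  exact ⟨fun h => ⟨h, C.first_lt hT hS hO h⟩, And.left⟩

theorem drop_pivot [DecidableEq F] {nb : ℕ} (hnb : L.nbOk G nb = true) (i : Fin n) :
    drop G C.ρ C.E (L.A i) = ((C.k * ((Fintype.card F - 1) * Fintype.card F ^ (nb + 1)) : ℕ) : ℂ) := by
  simp only [Level.nbOk, List.all_eq_true, decide_eq_true_eq] at hnb
  rw [C.drop_A, C.sum_pivot hT hS, hnb i (List.mem_finRange i)]
  push_cast
  ring

/-- The drop of the chosen root splits into the moved parameters and the next level. -/
theorem drop_split [DecidableEq F] {useTor : Bool} (htor : useTor = true → 3 ≤ Fintype.card F)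
    (hP : L.P ≠ []) (hsc : L.scalOk G useTor = true) (hk : C.k = 1) (hsrc : L.src ≤ n) :
    drop G C.ρ C.E L.r = drop G C.ρ C.next L.r +
      (((Fintype.card F - 1) * L.size G (Fintype.card F) L.src : ℕ) : ℂ) := by
  classical
  obtain ⟨hnd, hall, hlen⟩ := C.ord_facts hO
  have hO' := hO
  simp only [Level.cellsOk, Bool.and_eq_true, decide_eq_true_eq, List.all_eq_true, Bool.or_eq_true,
    List.isEmpty_iff, List.contains_iff_mem] at hO'
  obtain ⟨hr, hsrcs⟩ := hO'.2.resolve_left hP
  have hmem : ∀ x, x ∈ L.ord.take L.src ↔ L.fixes G L.r x = false := fun x => by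
    have h := hsrcs x (List.mem_finRange x)
    rw [← List.contains_iff_mem, h, Bool.not_eq_true']
  have hnorm := C.norm hr
  have hcase : ∀ c : Fin n → F, (c ≠ 0 ∧ L.first c < L.src) ↔ ∃ x, L.fixes G L.r x = false ∧ c x ≠ 0 := by
    intro c
    constructor
    · rintro ⟨hc, h⟩
      have hlt : L.first c < L.ord.length := by omega
      refine ⟨L.ord[L.first c], (hmem _).1 ?_, of_decide_eq_true (List.findIdx_getElem (w := hlt)
        (p := fun x => decide (c x ≠ 0)))⟩
      exact List.mem_take_iff_getElem.2 ⟨L.first c, by omega, rfl⟩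
    · rintro ⟨x, hx, hcx⟩
      refine ⟨fun h => hcx (by rw [h]; rfl), ?_⟩
      obtain ⟨a, ha, he⟩ := List.mem_take_iff_getElem.1 ((hmem x).2 hx)
      by_contra hle
      have h0 : decide (c (L.ord[a]) ≠ 0) = false :=
        List.not_of_lt_findIdx (p := fun x => decide (c x ≠ 0)) (lt_of_lt_of_le (lt_min_iff.1 ha).1 (not_lt.1 hle))
      rw [he] at h0
      exact hcx (by simpa using h0)
  have hterm : ∀ (c : Fin n → F) (t : F), LinearMap.trace ℂ V (C.P c) -
      LinearMap.trace ℂ V (C.P c * C.ρ (G.xG L.r t)) =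
      if c = 0 then (LinearMap.trace ℂ V C.next - LinearMap.trace ℂ V (C.next * C.ρ (G.xG L.r t)))
      else if L.first c < L.src then (if t = 0 then 0 else (C.m c : ℂ)) else 0 := by
    intro c t
    by_cases hc : c = 0
    · subst hc; rw [if_pos rfl]; rfl
    rw [if_neg hc]
    by_cases hs : L.first c < L.src
    · rw [if_pos hs]
      by_cases ht : t = 0
      · rw [if_pos ht, ht, xG_zero, map_one, mul_one, sub_self]
      · rw [if_neg ht]
        obtain ⟨x, hx, hcx⟩ := (hcase c).1 ⟨hc, hs⟩
        simp only [Level.fixes, List.all_eq_false] at hx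
        obtain ⟨j, -, hj⟩ := hx
        simp only [Level.feeds, Bool.not_eq_true', Bool.not_eq_false] at hj
        rcases he : edge G L.A L.r j with _ | ⟨k', N⟩
        · simp [he] at hj
        · simp [he] at hj
          subst hj
          rw [show C.P c = C.sys.P c from rfl, C.sys.trace_P, show C.ρ = C.sys.ρ from rfl,
            C.sys.trace_P_mul_eq_zero (C.conj_x hr t c) (act_ne_self ht he (edge_coef hnorm he) hcx), sub_zero]
          rfl
    · rw [if_neg hs]
      by_cases hm : C.m c = 0
      · rw [show C.P c = C.sys.P c from rfl, C.sys.P_eq_zero hm, zero_mul, map_zero, sub_self]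
      · rw [C.fixed_scalar hT hS htor hO hsc hk hc hm hs, sub_self]
  have hall' : ∀ t : F, LinearMap.trace ℂ V C.E - LinearMap.trace ℂ V (C.E * C.ρ (G.xG L.r t)) =
      ∑ c : Fin n → F, (LinearMap.trace ℂ V (C.P c) - LinearMap.trace ℂ V (C.P c * C.ρ (G.xG L.r t))) := by
    intro t
    rw [show C.E = C.sys.E from rfl, ← C.sys.sum_P, Finset.sum_mul, map_sum, map_sum, ← Finset.sum_sub_distrib]
    rfl
  simp only [drop]
  rw [Finset.sum_congr rfl fun t _ => hall' t, Finset.sum_congr rfl fun t _ => Finset.sum_congr rfl fun c _ => hterm c t,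
    Finset.sum_comm, ← Finset.add_sum_erase _ _ (Finset.mem_univ (0 : Fin n → F))]
  simp only [if_pos rfl]
  congr 1
  rw [Finset.sum_congr rfl fun c hc => Finset.sum_congr rfl fun t _ => if_neg (Finset.ne_of_mem_erase hc)]
  have hin : ∀ c : Fin n → F, (∑ t : F, if L.first c < L.src then (if t = 0 then (0 : ℂ) else (C.m c : ℂ)) else 0) =
      if L.first c < L.src then ((Fintype.card F - 1 : ℕ) : ℂ) * (C.m c : ℂ) else 0 := by
    intro c
    split_ifs with h
    · rw [Finset.sum_ite, Finset.sum_const_zero, zero_add, Finset.sum_const, nsmul_eq_mul, Finset.filter_ne',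
        Finset.card_erase_of_mem (Finset.mem_univ _), Finset.card_univ]
    · exact Finset.sum_const_zero
  rw [Finset.sum_congr rfl fun c _ => hin c, Finset.sum_ite, Finset.sum_const_zero, add_zero, ← Finset.mul_sum,
    ← Nat.cast_sum, ← Nat.cast_mul, ← one_mul (L.size G _ _), ← hk, ← C.sum_below hT hS hO hsrc]
  congr 3
  ext c
  simp [and_comm]

end Ctx

end Cfsg.Agent.H71.E6Deg
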