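import Cfsg.Agent.H71.E6Deg.Counts

/-!
# Traces of root elements at a level
-/

set_option autoImplicit false
set_option linter.unusedSectionVars false
set_option linter.unusedSimpArgs false

open Cfsg.Lie Cfsg.Agent.H46 Cfsg.Agent.H65.Inv Module

namespace Cfsg.Agent.H71.E6Deg

variable {D : ChevalleyDatum} {n : ℕ} {F : Type*} [Field F] [Fintype F]
  {V : Type*} [AddCommGroup V] [Module ℂ V] [FiniteDimensional ℂ V]

/-- The sum over a root group of the drops of the trace on the range of an idempotent. -/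
noncomputable def drop (G : Good D) (ρ : ↥(D.group F) →* End ℂ V) (E : End ℂ V) (s : ℕ) : ℂ :=
  ∑ t : F, (LinearMap.trace ℂ V E - LinearMap.trace ℂ V (E * ρ (G.xG s t)))

variable {G : Good D} {L : Level n}

namespace Ctx

variable (C : Ctx L G F V) (hT : L.transOk G = true) (hS : C.AllSmall)
include C

/-- The idempotent of the next level. -/
noncomputable def next : End ℂ V := C.P 0

theorem next_idem : C.next * C.next = C.next := C.sys.P_mul_P 0

theorem act_zero_vec (e : Edge n) (t : F) : act e t (0 : Fin n → F) = 0 :=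
  act_eq_self e t fun _ _ _ _ => rfl

theorem commute_next {s : ℕ} (hs : s ∈ L.lev G) (t : F) : Commute C.next (C.ρ (G.xG s t)) :=
  C.commute_P_x hs t (C.act_zero_vec _ t)

theorem commute_next_h (r : ℕ) (c : F) (hr : r < D.nroots) (hc : c ≠ 0) :
    Commute C.next (C.ρ (hG G r c)) := by
  have e := C.conj_h hr hc 0
  simp only [Pi.zero_apply, zero_mul] at e
  exact (C.sys.rho_P_of_conj e).symm

theorem trace_E_eq [DecidableEq F] : LinearMap.trace ℂ V C.E = LinearMap.trace ℂ V C.next +
    ((∑ c ∈ (Finset.univ.filter fun c : Fin n → F => c ≠ 0), C.m c : ℕ) : ℂ) := by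
  classical
  rw [show C.E = C.sys.E from rfl, C.sys.trace_E, show C.next = C.sys.P 0 from rfl, C.sys.trace_P,
    ← Finset.add_sum_erase _ _ (Finset.mem_univ (0 : Fin n → F)), Nat.cast_sum, Finset.filter_ne']
  rfl

theorem trace_next : LinearMap.trace ℂ V C.next = (C.m 0 : ℂ) := C.sys.trace_P 0

/-- The drop of a root of the radical counts the parameters with that coordinate. -/
theorem drop_A [DecidableEq F] (i : Fin n) : drop G C.ρ C.E (L.A i) =
    (Fintype.card F : ℂ) * ((∑ c ∈ (Finset.univ.filter fun c : Fin n → F => c i ≠ 0), C.m c : ℕ) : ℂ) := by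
  classical
  have h : ∀ t : F, LinearMap.trace ℂ V (C.E * C.ρ (G.xG (L.A i) t)) =
      ∑ c : Fin n → F, C.ψ (c i * t) * (C.m c : ℂ) := by
    intro t
    rw [show C.E = C.sys.E from rfl, ← C.sys.sum_P, Finset.sum_mul, map_sum, ← vecU_single G C.vec i t]
    refine Finset.sum_congr rfl fun c _ => ?_
    rw [show C.sys.P c * C.ρ (vecU G C.vec (Pi.single i t)) = C.sys.chi c (Pi.single i t) • C.sys.P c from
      C.sys.P_mul_rho c _, map_smul, C.sys.trace_P, Sys.chi_apply, dotProduct_single, smul_eq_mul]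
    rfl
  rw [drop, Finset.sum_sub_distrib, Finset.sum_const, Finset.card_univ, nsmul_eq_mul,
    Finset.sum_congr rfl fun t _ => h t, Finset.sum_comm, show C.E = C.sys.E from rfl, C.sys.trace_E,
    Finset.mul_sum, ← Finset.sum_sub_distrib, Nat.cast_sum, Finset.mul_sum, Finset.sum_filter]
  refine Finset.sum_congr rfl fun c _ => ?_
  rw [← Finset.sum_mul, show (∑ t : F, C.ψ (c i * t)) = if c i = 0 then (Fintype.card F : ℂ) else 0 from
    C.sys.sum_psi_mul (c i)]
  by_cases hc : c i = 0
  · simp [hc, m]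
  · simp [hc, m]

theorem drop_refl {k s : ℕ} (hk : k < D.rank) (hkA : D.simple k ∈ L.P ++ (List.finRange n).map L.A)
    (hs : s < D.nroots) : drop G C.ρ C.E (G.tab.refl k s) = drop G C.ρ C.E s := by
  have heta : (G.tab.eta k s : F) * (G.tab.eta k s : F) = 1 := by simpa using G.eta_cast_sq (F := F) k s
  refine (Fintype.sum_bijective (fun t => (G.tab.eta k s : F) * t) (Function.Involutive.bijective fun t => by
    rw [← mul_assoc, heta, one_mul]) _ _ fun t => ?_).symm
  congr 1
  rw [← nG_conj hk hs t, map_mul C.ρ, map_mul C.ρ, ← mul_assoc, ← mul_assoc, (C.comm_nG hkA).eq,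
    LinearMap.trace_mul_comm ℂ (C.ρ (nG G (D.simple k)) * C.E * C.ρ (G.xG s t)) (C.ρ (nG G (D.simple k))⁻¹),
    ← mul_assoc, ← mul_assoc, ← map_mul C.ρ, inv_mul_cancel, map_one, one_mul]

include hT in
theorem drop_r {i0 : Fin n} (hi0 : i0 = ⟨0, lt_of_le_of_lt (Nat.zero_le _) i0.2⟩) (hP : L.P ≠ []) :
    drop G C.ρ C.E L.r = drop G C.ρ C.E (L.A i0) := by
  simp only [Level.transOk, Bool.and_eq_true, decide_eq_true_eq] at hT
  obtain ⟨-, hT⟩ := hT
  split at hT
  · simp at hT
  · rename_i j rest hj
    simp only [Bool.and_eq_true, List.all_eq_true, List.contains_iff_mem, Bool.or_eq_true,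
      List.isEmpty_iff] at hT
    have hj0 : j = i0 := by
      have h1 : (List.finRange n)[0]? = some j := by rw [hj]; rfl
      rw [hi0]
      simp only [List.getElem?_eq_some_iff, List.getElem_finRange] at h1
      obtain ⟨h, e⟩ := h1
      rw [← e]; rfl
    subst hj0
    refine closeList_spec (L.rootStep G) (fun s => drop G C.ρ C.E s = drop G C.ρ C.E (L.A j))
      (fun s hs s' hs' => ?_) n [L.A j] (by simp) L.r (hT.2.resolve_left hP)
    simp only [Level.rootStep] at hs'
    split_ifs at hs' with hlt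
    · simp only [List.mem_map, List.mem_filter, List.mem_range, List.contains_iff_mem] at hs'
      obtain ⟨k, ⟨hk, hkA⟩, rfl⟩ := hs'
      rw [← hs]
      refine C.drop_refl hk ?_ hlt
      exact hkA
    · simp at hs'

end Ctx

end Cfsg.Agent.H71.E6Deg
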