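import Cfsg.Agent.H71.E6Deg.Totals
import Cfsg.Agent.H71.E6Deg.Big

/-!
# Passing from one level to the next
-/

set_option autoImplicit false
set_option linter.unusedSectionVars false
set_option linter.unusedSimpArgs false

open Cfsg.Lie Cfsg.Agent.H46 Cfsg.Agent.H65.Inv Module

namespace Cfsg.Agent.H71.E6Deg

variable {D : ChevalleyDatum} {n : ℕ} {F : Type*} [Field F] [Fintype F]
  {V : Type*} [AddCommGroup V] [Module ℂ V] [FiniteDimensional ℂ V]
  {G : Good D} {L : Level n}

/-- The roots of the normaliser at the next level lie in the Levi factor. -/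
noncomputable def subOk {n' : ℕ} (G : Good D) (L : Level n) (L' : Level n') : Bool :=
  (L'.amb G).all fun s => (L.lev G).contains s

namespace Ctx

variable (C : Ctx L G F V)
include C

/-- The context of the next level. -/
noncomputable def toNext {n' : ℕ} (L' : Level n') (hst : L'.structOk G = true)
    (hsub : subOk G L L' = true) : Ctx L' G F V where
  ρ := C.ρ
  E := C.next
  idem := C.next_idem
  comm s hs t := by
    simp only [subOk, List.all_eq_true, List.contains_iff_mem] at hsub
    exact C.commute_next (hsub s hs) t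
  commH r c hr hc := C.commute_next_h r c hr hc
  ψ := C.ψ
  prim := C.prim
  struct := hst

/-- The common multiplicity from the drop at one root of the radical. -/
theorem k_eq_one [DecidableEq F] (hT : L.transOk G = true) (hS : C.AllSmall) (hO : L.cellsOk G = true) {nb : ℕ}
    (hnb : L.nbOk G nb = true) (j : Fin n)
    (h : drop G C.ρ C.E (L.A j) = (((Fintype.card F - 1) * Fintype.card F ^ (nb + 1) : ℕ) : ℂ)) : C.k = 1 := by
  rw [C.drop_pivot hT hS hO hnb j, Nat.cast_inj] at h
  have h0 : 0 < (Fintype.card F - 1) * Fintype.card F ^ (nb + 1) :=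
    Nat.mul_pos (Nat.sub_pos_of_lt Fintype.one_lt_card) (pow_pos (by linarith [Fintype.one_lt_card (α := F)]) _)
  exact Nat.eq_of_mul_eq_mul_right h0 (by rw [h, one_mul])

/-- The trace of the idempotent when every multiplicity is one. -/
theorem trace_split [DecidableEq F] (hT : L.transOk G = true) (hS : C.AllSmall) (hO : L.cellsOk G = true)
    (hk : C.k = 1) :
    LinearMap.trace ℂ V C.E = LinearMap.trace ℂ V C.next + (L.size G (Fintype.card F) n : ℂ) := by
  rw [C.trace_E_eq, C.sum_nonzero hT hS hO, hk, one_mul]

/-- The drop at the chosen root on the next level. -/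
theorem drop_next [DecidableEq F] (hT : L.transOk G = true) (hS : C.AllSmall) (hO : L.cellsOk G = true) {nb : ℕ}
    (hnb : L.nbOk G nb = true) {useTor : Bool} (htor : useTor = true → 3 ≤ Fintype.card F)
    (hP : L.P ≠ []) (hsc : L.scalOk G useTor = true) (hk : C.k = 1) (hsrc : L.src ≤ n) (hn : 0 < n) :
    drop G C.ρ C.next L.r = (((Fintype.card F - 1) * Fintype.card F ^ (nb + 1) : ℕ) : ℂ) -
      (((Fintype.card F - 1) * L.size G (Fintype.card F) L.src : ℕ) : ℂ) := by
  have h := C.drop_split hT hS hO htor hP hsc hk hsrc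
  rw [C.drop_r hT (i0 := ⟨0, hn⟩) rfl hP, C.drop_pivot hT hS hO hnb, hk, one_mul] at h
  rw [h]; ring

end Ctx

end Cfsg.Agent.H71.E6Deg
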